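import Cfsg.Agent.H8.Sub6

set_option autoImplicit false
set_option linter.style.haveILetI false
set_option linter.unusedSectionVars false
set_option linter.unusedVariables false

/-! Abelian 2-groups with distinct invariants. -/

namespace CfsgH8
open Cfsg Cfsg.FusionSystem
open scoped commutatorElement

universe u v

def HtProp (V : Type*) [CommGroup V] : Prop :=
  ∀ (k : ℕ) (x y : V), x ^ 2 = 1 → y ^ 2 = 1 → (∃ w : V, w ^ 2 ^ k = x) → (∃ w : V, w ^ 2 ^ k = y) →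
    (¬ ∃ w : V, w ^ 2 ^ (k + 1) = x) → (¬ ∃ w : V, w ^ 2 ^ (k + 1) = y) → ∃ w : V, w ^ 2 ^ (k + 1) = x⁻¹ * y

theorem aut_trivial_of_ht {V : Type*} [CommGroup V] [Finite V] (hV : IsPGroup 2 V) (h : HtProp V) (a : MulAut V)
    {m : ℕ} (ha : a ^ m = 1) (hm : Nat.Coprime m 2) : a = 1 := by
  haveI : Fact (Nat.Prime 2) := ⟨Nat.prime_two⟩
  refine comm_fixed_of_omega hV a ha hm ?_
  obtain ⟨N, hN⟩ := IsPGroup.iff_card.1 hV
  have key : ∀ j : ℕ, ∀ k : ℕ, N ≤ k + j → ∀ x : V, x ^ 2 = 1 → (∃ w : V, w ^ 2 ^ k = x) → a x = x := by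
    intro j
    induction j with
    | zero =>
      rintro k hk x hx ⟨w, rfl⟩
      have : w ^ 2 ^ k = 1 := by
        rw [← orderOf_dvd_iff_pow_eq_one]
        refine (orderOf_dvd_natCard w).trans ?_
        rw [hN]
        exact pow_dvd_pow 2 hk
      rw [this, map_one]
    | succ j ih =>
      intro k hk x hx hxw
      by_cases h1 : ∃ w : V, w ^ 2 ^ (k + 1) = x
      · exact ih (k + 1) (by omega) x hx h1
      have h2 : ∃ w : V, w ^ 2 ^ k = a x := by
        obtain ⟨w, hw⟩ := hxw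
        exact ⟨a w, by rw [← map_pow, hw]⟩
      have h3 : ¬ ∃ w : V, w ^ 2 ^ (k + 1) = a x := by
        rintro ⟨w, hw⟩
        apply h1
        refine ⟨a⁻¹ w, ?_⟩
        rw [← map_pow, hw, MulAut.inv_apply_self]
      have h4 := h k x (a x) hx (by rw [← map_pow, hx, map_one]) hxw h2 h1 h3
      have h5 : (x⁻¹ * a x) ^ 2 = 1 := by
        rw [mul_pow, inv_pow, ← map_pow, hx, map_one, inv_one, one_mul]
      have h6 := ih (k + 1) (by omega) _ h5 h4
      have h7 : ∀ k : ℕ, (a ^ k) x = x * (x⁻¹ * a x) ^ k := by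
        intro k
        induction k with
        | zero => simp
        | succ k ih =>
          have : (a ^ (k + 1)) x = a ((a ^ k) x) := by rw [pow_succ']; rfl
          rw [this, ih, map_mul, map_pow, h6, pow_succ']
          rw [← mul_assoc, mul_inv_cancel_left]
      have h8 := h7 m
      rw [ha, MulAut.one_apply, eq_comm, mul_eq_left] at h8
      have h9 : orderOf (x⁻¹ * a x) ∣ Nat.gcd m 2 := Nat.dvd_gcd (orderOf_dvd_of_pow_eq_one h8) (orderOf_dvd_of_pow_eq_one h5)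
      rw [hm, Nat.dvd_one, orderOf_eq_one_iff, inv_mul_eq_one] at h9
      exact h9.symm
  intro x hx
  exact key N 0 (by omega) x hx ⟨x, by simp⟩

theorem zmod_val_of_two {n : ℕ} (hn : 1 ≤ n) {x : ZMod (2 ^ n)} (h : 2 * x = 0) :
    ∃ c : ℕ, x = ((2 ^ (n - 1) * c : ℕ) : ZMod (2 ^ n)) ∧ x.val = 2 ^ (n - 1) * c := by
  have h1 : ((2 * x.val : ℕ) : ZMod (2 ^ n)) = 0 := by
    push_cast
    rw [ZMod.natCast_zmod_val]
    exact h
  rw [ZMod.natCast_eq_zero_iff] at h1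
  obtain ⟨m, rfl⟩ : ∃ m, n = m + 1 := ⟨n - 1, by omega⟩
  have h1' : 2 * 2 ^ m ∣ 2 * x.val := (dvd_of_eq (pow_succ' 2 m).symm).trans h1
  have h2 : 2 ^ m ∣ x.val := Nat.dvd_of_mul_dvd_mul_left (by norm_num) h1'
  obtain ⟨c, hc⟩ := h2
  refine ⟨c, ?_, by simpa using hc⟩
  rw [Nat.add_sub_cancel, ← hc, ZMod.natCast_zmod_val]

theorem zmod_factB {n k : ℕ} (hn : 1 ≤ n) {x : ZMod (2 ^ n)} (h : 2 * x = 0) (hk : k ≤ n - 1) :
    ∃ w : ZMod (2 ^ n), (2 ^ k : ℕ) • w = x := by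
  obtain ⟨c, hc, -⟩ := zmod_val_of_two hn h
  refine ⟨((2 ^ (n - 1 - k) * c : ℕ) : ZMod (2 ^ n)), ?_⟩
  rw [hc, nsmul_eq_mul, ← Nat.cast_mul, ← mul_assoc, ← pow_add]
  congr 4
  omega

theorem zmod_factA {n k : ℕ} {x : ZMod (2 ^ n)} (hx : x ≠ 0) (h : ∃ w : ZMod (2 ^ n), (2 ^ k : ℕ) • w = x) : k < n := by
  by_contra hkn
  obtain ⟨w, rfl⟩ := h
  apply hx
  rw [nsmul_eq_mul]
  have : ((2 ^ k : ℕ) : ZMod (2 ^ n)) = 0 := by
    rw [ZMod.natCast_eq_zero_iff]
    exact pow_dvd_pow 2 (by omega)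
  rw [this, zero_mul]

theorem zmod_factC {n : ℕ} (hn : 1 ≤ n) {x y : ZMod (2 ^ n)} (h : 2 * x = 0) (h' : 2 * y = 0) (hx : x ≠ 0) (hy : y ≠ 0) :
    x = y := by
  have key : ∀ z : ZMod (2 ^ n), 2 * z = 0 → z ≠ 0 → z = ((2 ^ (n - 1) : ℕ) : ZMod (2 ^ n)) := by
    intro z hz hz0
    obtain ⟨c, hc, hc'⟩ := zmod_val_of_two hn hz
    haveI : NeZero (2 ^ n) := ⟨by positivity⟩
    have h1 : z.val < 2 ^ n := ZMod.val_lt z
    obtain ⟨m, rfl⟩ : ∃ m, n = m + 1 := ⟨n - 1, by omega⟩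
    rw [Nat.add_sub_cancel] at hc hc' ⊢
    rw [hc', pow_succ] at h1
    have h2 : c < 2 := Nat.lt_of_mul_lt_mul_left h1
    interval_cases c
    · exact absurd (by simpa using hc) hz0
    · simpa using hc
  rw [key x h hx, key y h' hy]

theorem ht_pi {n : ℕ} (a : Fin n → ℕ) (ha : StrictMono a) (ha1 : ∀ i, 1 ≤ a i) :
    HtProp (Multiplicative ((i : Fin n) → ZMod (2 ^ a i))) := by
  classical
  have hpow : ∀ (k : ℕ) (w : Multiplicative ((i : Fin n) → ZMod (2 ^ a i))) (i : Fin n),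
      (w ^ k).toAdd i = k • (w.toAdd i) := fun k w i => by rw [toAdd_pow]; rfl
  have hex : ∀ (k : ℕ) (x : Multiplicative ((i : Fin n) → ZMod (2 ^ a i))),
      (∃ w : Multiplicative ((i : Fin n) → ZMod (2 ^ a i)), w ^ k = x) ↔ ∀ i, ∃ w : ZMod (2 ^ a i), k • w = x.toAdd i := by
    intro k x
    constructor
    · rintro ⟨w, rfl⟩ i
      exact ⟨w.toAdd i, (hpow k w i).symm⟩
    · intro h
      choose w hw using h
      refine ⟨Multiplicative.ofAdd w, ?_⟩
      apply Multiplicative.toAdd.injective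
      funext i
      rw [hpow]
      exact hw i
  intro k x y hx hy hxk hyk hxk' hyk'
  rw [hex] at hxk hyk hxk' hyk' ⊢
  have h2 : ∀ (z : Multiplicative ((i : Fin n) → ZMod (2 ^ a i))), z ^ 2 = 1 → ∀ i, 2 * z.toAdd i = 0 := by
    intro z hz i
    have h3 := hpow 2 z i
    rw [hz] at h3
    have h4 : (1 : Multiplicative ((i : Fin n) → ZMod (2 ^ a i))).toAdd i = 0 := rfl
    rw [h4, nsmul_eq_mul] at h3
    exact_mod_cast h3.symm
  have key : ∀ (z : Multiplicative ((i : Fin n) → ZMod (2 ^ a i))), z ^ 2 = 1 →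
      (∀ i, ∃ w : ZMod (2 ^ a i), 2 ^ k • w = z.toAdd i) → (¬ ∀ i, ∃ w : ZMod (2 ^ a i), 2 ^ (k + 1) • w = z.toAdd i) →
      ∃ i, a i = k + 1 ∧ z.toAdd i ≠ 0 := by
    intro z hz h3 h4
    push Not at h4
    obtain ⟨i, hi⟩ := h4
    have hz0 : z.toAdd i ≠ 0 := by
      intro h5
      exact hi 0 (by rw [smul_zero, h5])
    have h6 := zmod_factA hz0 (h3 i)
    refine ⟨i, ?_, hz0⟩
    by_contra h7
    obtain ⟨w, hw⟩ := zmod_factB (ha1 i) (h2 z hz i) (show k + 1 ≤ a i - 1 by omega)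
    exact hi w hw
  obtain ⟨i₀, hi₀, hxi⟩ := key x hx hxk hxk'
  obtain ⟨j₀, hj₀, hyj⟩ := key y hy hyk hyk'
  have hij : i₀ = j₀ := ha.injective (hi₀.trans hj₀.symm)
  subst hij
  intro i
  have hxy : (x⁻¹ * y).toAdd i = - x.toAdd i + y.toAdd i := rfl
  rw [hxy]
  by_cases h0 : - x.toAdd i + y.toAdd i = 0
  · exact ⟨0, by rw [smul_zero, h0]⟩
  have hki : k < a i := by
    by_cases hx0 : x.toAdd i = 0
    · have hy0 : y.toAdd i ≠ 0 := by
        intro h1
        apply h0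
        rw [hx0, h1, neg_zero, zero_add]
      exact zmod_factA hy0 (hyk i)
    · exact zmod_factA hx0 (hxk i)
  by_cases hki' : a i = k + 1
  · have hii : i = i₀ := ha.injective (hki'.trans hi₀.symm)
    subst hii
    exfalso
    apply h0
    rw [zmod_factC (ha1 i) (h2 x hx i) (h2 y hy i) hxi hyj, neg_add_cancel]
  · refine zmod_factB (ha1 i) ?_ (show k + 1 ≤ a i - 1 by omega)
    rw [mul_add, mul_neg, h2 x hx i, h2 y hy i, neg_zero, zero_add]

theorem ht_aut_trivial {V : Type*} [Group V] [Finite V] {n : ℕ} (a : Fin n → ℕ) (ha : StrictMono a) (ha1 : ∀ i, 1 ≤ a i)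
    (e : V ≃* Multiplicative ((i : Fin n) → ZMod (2 ^ a i))) (hV : IsPGroup 2 V) (b : MulAut V) {m : ℕ}
    (hb : b ^ m = 1) (hm : Nat.Coprime m 2) : b = 1 := by
  haveI : Finite (Multiplicative ((i : Fin n) → ZMod (2 ^ a i))) := Finite.of_equiv _ e.toEquiv
  have hW : IsPGroup 2 (Multiplicative ((i : Fin n) → ZMod (2 ^ a i))) := hV.of_equiv e
  have h1 : (MulAut.congr e b) ^ m = 1 := by rw [← map_pow, hb, map_one]
  have h2 := aut_trivial_of_ht hW (ht_pi a ha ha1) _ h1 hm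
  have h3 : MulAut.congr e b = MulAut.congr e 1 := by rw [h2, map_one]
  exact (MulAut.congr e).injective h3

variable {Ω : Type u} [Group Ω] {S : Subgroup Ω}

theorem inner_of_distinct [Finite S] {n : ℕ} (a : Fin n → ℕ) (ha : StrictMono a)
    (ha1 : ∀ i, 1 ≤ a i) (e : ↥S ≃* Multiplicative ((i : Fin n) → ZMod (2 ^ a i))) (F : FusionSystem S)
    (hF : F.IsSaturated 2) : F = innerFusionSystem S := by
  haveI : Fact (Nat.Prime 2) := ⟨Nat.prime_two⟩
  have hS : IsPGroup 2 S := by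
    haveI : ∀ i, NeZero (2 ^ a i) := fun i => ⟨by positivity⟩
    have h1 : IsPGroup 2 (Multiplicative ((i : Fin n) → ZMod (2 ^ a i))) := by
      refine IsPGroup.of_card (n := ∑ i, a i) ?_
      rw [Nat.card_congr Multiplicative.toAdd, Nat.card_pi]
      simp only [Nat.card_zmod]
      rw [Finset.prod_pow_eq_pow_sum]
    exact h1.of_equiv e.symm
  have hab : ∀ x ∈ S, ∀ y ∈ S, x * y = y * x := by
    intro x hx y hy
    have : (⟨x, hx⟩ : ↥S) * ⟨y, hy⟩ = ⟨y, hy⟩ * ⟨x, hx⟩ := by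
      apply e.injective
      rw [map_mul, map_mul, mul_comm]
    exact congrArg Subtype.val this
  have hN : F.IsNormal S := normal_of_abelian_stronglyClosed hS hF closed_top hab
  haveI := finite_autGroup F S
  have hc := card_autGroup_top_of_comm hS hF hab
  refine fus_le_antisymm (le_iff.2 (fun P f hf => ?_)) (inner_le F)
  obtain ⟨α, hα, h⟩ := extend_of_top_normal hN hf
  have h1 : α = 1 := by
    refine ht_aut_trivial a ha ha1 e hS α (m := Nat.card (F.autGroup S)) ?_ ?_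
    · have := pow_card_eq_one' (x := (⟨α, hα⟩ : ↥(F.autGroup S)))
      exact congrArg Subtype.val this
    · rw [Nat.coprime_comm]
      exact (Nat.Prime.coprime_iff_not_dvd Nat.prime_two).2 hc
  refine mor_inner.2 ⟨hf.le, 1, one_mem _, fun x hx => ?_⟩
  rw [← h x hx, h1, av_one (hf.le hx)]
  group

end CfsgH8
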