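import Cfsg.Agent.H8.WellPl

set_option autoImplicit false

/-! Frattini argument for automorphism groups in a saturated fusion system. -/

namespace CfsgH8
open Cfsg Cfsg.FusionSystem

variable {Ω : Type*} [Group Ω] {S : Subgroup Ω}
variable {F : FusionSystem S} {P Q R U : Subgroup Ω} {f g : Ω → Ω}

theorem frattini_ext [Finite S] {p : ℕ} [Fact p.Prime] (hS : IsPGroup p S) (hF : F.IsSaturated p)
    (hQ : F.IsFullyNormalized Q) {K : Subgroup (MulAut Q)} (hK : K ≤ F.autGroup Q)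
    (hKn : F.autGroup Q ≤ Subgroup.normalizer (K : Set (MulAut Q))) {α : MulAut Q} (hα : α ∈ F.autGroup Q) :
    ∃ κ ∈ K, ∃ g, Mor F (Q ⊔ NK S Q K) g ∧ κ * α ∈ F.autGroup Q ∧ ∀ x ∈ Q, g x = av (κ * α) x := by
  have hQS := hQ.1
  haveI : Finite Q := finite_of_le hQ.1
  haveI : Finite (MulAut Q) := finite_mulAut
  obtain ⟨-, hRa, hRr⟩ := saturated_fn hS hF hQ
  obtain ⟨-, hsyl⟩ := fullyAutomized_iff.1 hRa
  have hU := hsyl.inf_normal hK hKn
  set U := autInducedBy S Q ⊓ K with hUdef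
  have hUβ : IsSyl p (img (cj α) U) K := by
    have h1 := isSyl_img (mulOn_cj α K) (injOn_cj α K) hU
    have h2 : img (cj α) K = K := mem_normalizer_iff_img.1 (hKn hα)
    rwa [h2] at h1
  obtain ⟨κ, hκ, hκU⟩ := hU.exists_conj_eq hUβ
  have hnorm : κ * α ∈ Subgroup.normalizer (U : Set (MulAut Q)) := by
    rw [mem_normalizer_iff_img]
    conv_rhs => rw [← hκU]
    rw [← img_comp (mulOn_cj α U)]
    exact img_congr (fun x _ => cj_mul κ α x)
  have hκα : κ * α ∈ F.autGroup Q := Subgroup.mul_mem _ (hK hκ) hα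
  have hκβm : Mor F Q (av (κ * α)) := (mem_autGroup hQ.1).1 hκα
  obtain ⟨e, he, hee⟩ := (isReceptive_iff.1 hRr).2 Q _ hκβm (img_av _)
  refine ⟨κ, hκ, e, he.mono ?_, hκα, hee⟩
  apply sup_le
  · exact le_Nf hQ.1 (fun x hx => hQ.1 (av_mem (κ * α) hx))
  intro x hx
  obtain ⟨hxS, hxN, hxK⟩ := mem_NK.1 hx
  have hc : cjAut Q x hxN ∈ U := ⟨mem_autInducedBy.2 ⟨x, hxS, fun y hy => av_cjAut hxN hy⟩, hxK⟩
  have hc' := (Subgroup.mem_normalizer_iff.1 hnorm _).1 hc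
  obtain ⟨s, hs, hs'⟩ := mem_autInducedBy.1 hc'.1
  refine mem_Nf.2 ⟨hxS, hxN, s, hs, fun y hy => ?_⟩
  rw [← hs' _ (av_mem _ hy), av_mul _ (κ * α)⁻¹ (av_mem _ hy), av_inv _ hy, av_mul _ _ hy, av_cjAut hxN hy]

end CfsgH8
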