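import Cfsg.Agent.H8.Unip
import Cfsg.Agent.H8.FusFrat
import Cfsg.Agent.H8.FusNormal3
import Cfsg.Prelude.Def_PLocal

set_option autoImplicit false

/-! `℧ⁿ(Z(S))` for small class. -/

namespace CfsgH8
open Cfsg Cfsg.FusionSystem
open scoped commutatorElement

variable {Ω : Type*} [Group Ω] {S : Subgroup Ω}
variable {F : FusionSystem S} {P Q R U B : Subgroup Ω} {f g : Ω → Ω}

theorem agemo_fixed (hBS : B ≤ S) (hB : ∀ x ∈ B, ∀ y ∈ B, x * y = y * x) (p : ℕ) [Fact p.Prime] (n : ℕ)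
    (hcl : Subgroup.lowerCentralSeries S (n * (p - 1) + 1) = ⊥) {t : Ω} (ht : t ∈ S)
    (htN : t ∈ Subgroup.normalizer (B : Set Ω)) (htp : ∀ b ∈ B, t ^ p * b = b * t ^ p) :
    ∀ b ∈ B, t * b ^ (p ^ n) * t⁻¹ = b ^ (p ^ n) := by
  letI : CommGroup B := { (inferInstance : Group B) with mul_comm := fun x y => Subtype.ext (hB x x.2 y y.2) }
  set x : AddMonoid.End (Additive B) := MonoidHom.toAdditive (cjAut B t htN).toMonoidHom with hx
  have hxb : ∀ b : Additive B, ((Additive.toMul (x b) : B) : Ω) = t * (Additive.toMul b : B) * t⁻¹ := by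
    intro b
    have h1 : Additive.toMul (x b) = cjAut B t htN (Additive.toMul b) := rfl
    rw [h1, ← av_coe, av_cjAut htN (Additive.toMul b).2]
  have hxk : ∀ (k : ℕ) (b : Additive B), ((Additive.toMul ((x ^ k) b) : B) : Ω) = t ^ k * (Additive.toMul b : B) * (t ^ k)⁻¹ := by
    intro k
    induction k with
    | zero => intro b; simp
    | succ k ih =>
      intro b
      have : (x ^ (k + 1)) b = x ((x ^ k) b) := by rw [pow_succ']; rfl
      rw [this, hxb, ih, pow_succ']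
      simp [mul_assoc]
  have h1 : x ^ p = 1 := by
    refine DFunLike.ext _ _ fun b => Additive.toMul.injective (Subtype.ext ?_)
    rw [hxk, htp _ (Additive.toMul b).2]
    simp
  have hsub : ∀ b : Additive B, ((Additive.toMul ((x - 1) b) : B) : Ω) = t * (Additive.toMul b : B) * t⁻¹ * ((Additive.toMul b : B) : Ω)⁻¹ := by
    intro b
    have : (x - 1) b = x b - b := rfl
    rw [this, toMul_sub, Subgroup.coe_div, hxb, div_eq_mul_inv]
  have h2 : ∀ (i : ℕ) (b : Additive B), ((Additive.toMul (((x - 1) ^ i) b) : B) : Ω) ∈ Subgroup.lowerCentralSeries S i := by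
    intro i
    induction i with
    | zero => intro b; exact hBS (Additive.toMul b).2
    | succ i ih =>
      intro b
      have : ((x - 1) ^ (i + 1)) b = (x - 1) (((x - 1) ^ i) b) := by rw [pow_succ']; rfl
      rw [this, hsub, Subgroup.lowerCentralSeries_succ, Subgroup.commutator_comm]
      exact Subgroup.commutator_mem_commutator ht (ih b)
  have h3 : (x - 1) ^ (n * (p - 1) + 1) = 0 := by
    refine DFunLike.ext _ _ fun b => Additive.toMul.injective (Subtype.ext ?_)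
    have := h2 (n * (p - 1) + 1) b
    rw [hcl, Subgroup.mem_bot] at this
    rw [this]; rfl
  have h4 := unip_torsion p n h1 h3
  intro b hb
  have h5 : ((p : AddMonoid.End (Additive B)) ^ n * (x - 1)) (Additive.ofMul ⟨b, hb⟩) = 0 := by rw [h4]; rfl
  have h6 : ((p : AddMonoid.End (Additive B)) ^ n * (x - 1)) (Additive.ofMul (⟨b, hb⟩ : B)) = (p ^ n : ℕ) • ((x - 1) (Additive.ofMul (⟨b, hb⟩ : B))) := by
    rw [← Nat.cast_pow]; rfl
  rw [h6] at h5
  have h7 : (((Additive.toMul ((x - 1) (Additive.ofMul (⟨b, hb⟩ : B))) : B) : Ω)) ^ (p ^ n) = 1 := by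
    have := congrArg (fun z : Additive B => ((Additive.toMul z : B) : Ω)) h5
    rw [toMul_nsmul, Subgroup.coe_pow] at this; exact this
  have h8 : (x - 1) (Additive.ofMul (⟨b, hb⟩ : B)) = x (Additive.ofMul (⟨b, hb⟩ : B)) - (Additive.ofMul (⟨b, hb⟩ : B)) := rfl
  rw [h8, toMul_sub, ← Subgroup.coe_pow, div_pow, Subgroup.coe_div] at h7
  rw [div_eq_one, Subgroup.coe_pow, Subgroup.coe_pow, hxb] at h7
  simpa [conj_pow] using h7

theorem mem_powerClosure_of_comm {H : Subgroup Ω} (hH : ∀ x ∈ H, ∀ y ∈ H, x * y = y * x) {p n : ℕ} {x : Ω} :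
    x ∈ powerClosure p n H ↔ ∃ z ∈ H, x = z ^ (p ^ n) := by
  constructor
  · intro h
    unfold powerClosure at h
    induction h using Subgroup.closure_induction with
    | mem x hx => exact hx
    | one => exact ⟨1, H.one_mem, by simp⟩
    | mul a b _ _ ha hb =>
      obtain ⟨z, hz, rfl⟩ := ha
      obtain ⟨w, hw, rfl⟩ := hb
      exact ⟨z * w, H.mul_mem hz hw, ((show Commute z w from hH z hz w hw).mul_pow _).symm⟩
    | inv a _ ha =>
      obtain ⟨z, hz, rfl⟩ := ha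
      exact ⟨z⁻¹, H.inv_mem hz, by simp⟩
  · rintro ⟨z, hz, rfl⟩
    exact Subgroup.subset_closure ⟨z, hz, rfl⟩

/-- maps on centric subgroups preserving `V` -/
def presVData [Finite S] (F : FusionSystem S) (V : Subgroup Ω) (hV : ∀ x ∈ V, x ∈ S ∧ ∀ s ∈ S, s * x = x * s) : FSData S where
  M P f := Mor F P f ∧ (F.IsCentric P → ∀ x ∈ V, f x ∈ V)
  congr := by
    intro P f g h hfg
    refine ⟨h.1.congr hfg, fun hP x hx => ?_⟩
    rw [← hfg x (hP.2 P (isConj_refl F hP.1) (mem_centralizerIn.2 ⟨(hV x hx).1, fun y hy => ((hV x hx).2 y (hP.1 hy)).symm⟩))]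
    exact h.2 hP x hx
  le := fun h => h.1.le
  mem := fun h x hx => h.1.mem_S hx
  mul := fun h => h.1.mulOn
  inj := fun h => h.1.injOn
  conj := fun hP hg => ⟨mor_cj hP hg, fun _ x hx => by
    have := (hV x hx).2 _ hg
    show _ * x * _⁻¹ ∈ V
    rw [this]; simpa using hx⟩
  comp := by
    intro P Q f g hf hg hPQ
    refine ⟨hg.1.comp hf.1 hPQ, fun hP x hx => ?_⟩
    have h1 : F.IsCentric (img f P) := IsCentric_conj hP (isConj_iff.2 ⟨f, hf.1, rfl⟩)
    exact hg.2 (IsCentric_mono h1 (img_le.2 hPQ) hg.1.le) _ (hf.2 hP x hx)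
  inv := by
    intro P f h
    refine ⟨h.1.inv, fun hP x hx => ?_⟩
    have h1 : F.IsCentric P := IsCentric_conj hP (isConj_symm (isConj_iff.2 ⟨f, h.1, rfl⟩))
    have hVP : V ≤ P := fun x hx => h1.2 P (isConj_refl F h1.1)
      (mem_centralizerIn.2 ⟨(hV x hx).1, fun y hy => ((hV x hx).2 y (h1.1 hy)).symm⟩)
    have hVS : V ≤ S := hVP.trans h1.1
    haveI : Finite V := finite_of_le hVS
    have h2 : img f V = V := eq_img_of_card_le f (h.1.mulOn.mono hVP) (fun y hy => h.2 h1 y hy) (h.1.injOn.mono hVP) le_rfl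
    rw [← h2] at hx
    obtain ⟨y, hy, rfl⟩ := (mem_img (h.1.mulOn.mono hVP)).1 hx
    rw [h.1.invF_f (hVP hy)]
    exact hy

theorem exists_pow_mem_normalizer {p : ℕ} [Fact p.Prime] [Finite S] (hS : IsPGroup p S) (hQS : Q < S) :
    ∃ t ∈ normalizerIn S Q, t ∉ Q ∧ t ^ p ∈ Q := by
  obtain ⟨t₀, ht₀, ht₀Q⟩ := SetLike.exists_of_lt (show Q < normalizerIn S Q from lt_normalizer_inf hS hQS)
  obtain ⟨k, hk⟩ := hS ⟨t₀, ht₀.1⟩
  have hk' : t₀ ^ (p ^ k) = 1 := congrArg Subtype.val hk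
  have hex : ∃ j, t₀ ^ (p ^ j) ∈ Q := ⟨k, by rw [hk']; exact Q.one_mem⟩
  classical
  have h1 := Nat.find_spec hex
  have h2 : Nat.find hex ≠ 0 := by
    intro h
    rw [h] at h1
    simp at h1
    exact ht₀Q h1
  obtain ⟨j, hj⟩ := Nat.exists_eq_succ_of_ne_zero h2
  refine ⟨t₀ ^ (p ^ j), Subgroup.pow_mem _ ht₀ _, Nat.find_min hex (by omega), ?_⟩
  rw [← pow_mul, ← pow_succ, ← Nat.succ_eq_add_one, ← hj]
  exact h1

/-- S5218 -/
theorem agemo_center_normal [Finite S] {p : ℕ} [Fact p.Prime] (hS : IsPGroup p S) (hF : F.IsSaturated p) (n : ℕ)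
    (hcl : Subgroup.lowerCentralSeries S (n * (p - 1) + 1) = ⊥) :
    F.IsNormal (powerClosure p n (S ⊓ Subgroup.centralizer (S : Set Ω))) := by
  set Z := S ⊓ Subgroup.centralizer (S : Set Ω) with hZ
  have hZc : ∀ x ∈ Z, x ∈ S ∧ ∀ s ∈ S, s * x = x * s := fun x hx => ⟨hx.1, fun s hs => Subgroup.mem_centralizer_iff.1 hx.2 s hs⟩
  have hZcomm : ∀ x ∈ Z, ∀ y ∈ Z, x * y = y * x := fun x hx y hy => (hZc y hy).2 x hx.1
  set V := powerClosure p n Z with hV
  have hVmem : ∀ x, x ∈ V ↔ ∃ z ∈ Z, x = z ^ (p ^ n) := fun x => mem_powerClosure_of_comm hZcomm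
  have hVc : ∀ x ∈ V, x ∈ S ∧ ∀ s ∈ S, s * x = x * s := by
    intro x hx
    obtain ⟨z, hz, rfl⟩ := (hVmem x).1 hx
    exact hZc _ (Z.pow_mem hz _)
  set E := (presVData F V hVc).fs with hE
  have hEm : ∀ P f, Mor E P f ↔ Mor F P f ∧ (F.IsCentric P → ∀ x ∈ V, f x ∈ V) := fun P f => FSData.mor_fs _
  have hZQ : ∀ Q : Subgroup Ω, F.IsCentric Q → Z ≤ Q := fun Q hQ x hx => hQ.2 Q (isConj_refl F hQ.1)
      (mem_centralizerIn.2 ⟨(hZc x hx).1, fun y hy => ((hZc x hx).2 y (hQ.1 hy)).symm⟩)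
  have h0 : ∀ α ∈ F.autGroup S, Mor E S (av α) := by
    intro α hα
    rw [hEm]
    refine ⟨(mem_autGroup le_rfl).1 hα, fun _ x hx => ?_⟩
    obtain ⟨z, hz, rfl⟩ := (hVmem x).1 hx
    rw [hVmem]
    refine ⟨av α z, ?_, (mulOn_av α).map_pow hz.1 _⟩
    refine ⟨av_mem α hz.1, Subgroup.mem_centralizer_iff.2 fun s hs => ?_⟩
    have hs' : s ∈ S := hs
    rw [← av_inv' α hs', ← mulOn_av α _ (av_mem _ hs') _ hz.1, ← mulOn_av α _ hz.1 _ (av_mem _ hs'),
      (hZc z hz).2 _ (av_mem _ hs')]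
  have key : ∀ m : ℕ, ∀ Q : Subgroup Ω, F.IsEssential p Q → Q < S → Nat.card S - Nat.card Q = m →
      ∀ α ∈ F.autGroup Q, Mor E Q (av α) := by
    intro m
    induction m using Nat.strong_induction_on with
    | _ m ih =>
    intro Q hQ hQS hm
    haveI : Finite Q := finite_of_le hQS.le
    have hcQS : Nat.card Q < Nat.card S := by
      apply lt_of_le_of_ne (Subgroup.card_le_of_le hQS.le)
      exact fun h => hQS.ne (Subgroup.eq_of_le_of_card_ge hQS.le h.ge)
    have hA : ∀ (P : Subgroup Ω) (f : Ω → Ω), Nat.card Q + 1 ≤ Nat.card P → Mor F P f → Mor E P f := by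
      apply alperin_trunc hS hF E _ h0
      intro R hR hRS hkR
      have : Nat.card R ≤ Nat.card S := Subgroup.card_le_of_le hRS.le
      exact ih (Nat.card S - Nat.card R) (by omega) R hR hRS rfl
    have hQc : F.IsCentric Q := hQ.1
    have hQn : F.IsFullyNormalized Q := hQ.2.1
    -- the subgroup K
    let B : Subgroup Ω := Q ⊓ Subgroup.centralizer (Q : Set Ω)
    have hBc : ∀ x ∈ B, ∀ y ∈ Q, y * x = x * y := fun x hx y hy => Subgroup.mem_centralizer_iff.1 hx.2 y hy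
    have hBaut : ∀ α : MulAut Q, ∀ x ∈ B, av α x ∈ B := by
      intro α x hx
      refine ⟨av_mem α hx.1, Subgroup.mem_centralizer_iff.2 fun s hs => ?_⟩
      have hs' : s ∈ Q := hs
      rw [← av_inv' α hs', ← mulOn_av α _ (av_mem _ hs') _ hx.1, ← mulOn_av α _ hx.1 _ (av_mem _ hs'),
        hBc x hx _ (av_mem _ hs')]
    let K : Subgroup (MulAut Q) :=
      { carrier := {α | α ∈ F.autGroup Q ∧ ∀ x ∈ B, av α (x ^ (p ^ n)) = x ^ (p ^ n)}
        one_mem' := ⟨Subgroup.one_mem _, fun x hx => av_one (Q.pow_mem hx.1 _)⟩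
        mul_mem' := by
          rintro a b ⟨ha, ha'⟩ ⟨hb, hb'⟩
          refine ⟨Subgroup.mul_mem _ ha hb, fun x hx => ?_⟩
          rw [av_mul _ _ (Q.pow_mem hx.1 _), hb' x hx, ha' x hx]
        inv_mem' := by
          rintro a ⟨ha, ha'⟩
          refine ⟨Subgroup.inv_mem _ ha, fun x hx => ?_⟩
          conv_lhs => rw [← ha' x hx]
          exact av_inv _ (Q.pow_mem hx.1 _) }
    have hKm : ∀ α, α ∈ K ↔ α ∈ F.autGroup Q ∧ ∀ x ∈ B, av α (x ^ (p ^ n)) = x ^ (p ^ n) := fun α => Iff.rfl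
    have hKA : K ≤ F.autGroup Q := fun α h => h.1
    have hKn : F.autGroup Q ≤ Subgroup.normalizer (K : Set (MulAut Q)) := by
      have hc : ∀ β ∈ F.autGroup Q, ∀ α ∈ K, β * α * β⁻¹ ∈ K := by
        intro β hβ α hα
        refine (hKm _).2 ⟨Subgroup.mul_mem _ (Subgroup.mul_mem _ hβ hα.1) (Subgroup.inv_mem _ hβ), fun x hx => ?_⟩
        have hxn : x ^ (p ^ n) ∈ Q := Q.pow_mem hx.1 _
        rw [av_mul _ _ hxn, av_mul _ _ (av_mem _ hxn), (mulOn_av β⁻¹).map_pow hx.1,
          ((hKm α).1 hα).2 _ (hBaut β⁻¹ x hx), ← (mulOn_av β⁻¹).map_pow hx.1, av_inv' _ hxn]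
      intro β hβ
      rw [Subgroup.mem_normalizer_iff]
      intro α
      refine ⟨hc β hβ α, fun h => ?_⟩
      have := hc β⁻¹ (Subgroup.inv_mem _ hβ) _ h
      simpa [mul_assoc] using this
    -- Q < Q ⊔ NK S Q K
    obtain ⟨t, htN, htQ, htp⟩ := exists_pow_mem_normalizer hS hQS
    have htK : t ∈ NK S Q K := by
      have htN' : t ∈ Subgroup.normalizer (Q : Set Ω) := htN.2
      refine mem_NK.2 ⟨htN.1, htN', (hKm _).2 ⟨cjAut_mem_autGroup hQS.le htN.1 htN', fun x hx => ?_⟩⟩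
      rw [av_cjAut htN' (Q.pow_mem hx.1 _)]
      refine agemo_fixed (B := B) (inf_le_left.trans hQS.le) (fun x hx y hy => hBc y hy x hx.1) p n hcl htN.1 ?_ ?_ x hx
      · rw [Subgroup.mem_normalizer_iff]
        have h1 : ∀ s ∈ Subgroup.normalizer (Q : Set Ω), ∀ x ∈ B, s * x * s⁻¹ ∈ B := by
          intro s hs x hx
          have := hBaut (cjAut Q s hs) x hx
          rwa [av_cjAut hs hx.1] at this
        intro y
        refine ⟨h1 t htN' y, fun h => ?_⟩
        have := h1 t⁻¹ (Subgroup.inv_mem _ htN') _ h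
        simpa [mul_assoc] using this
      · intro b hb
        exact hBc b hb _ htp
    have hlt : Q < Q ⊔ NK S Q K := by
      refine lt_of_le_of_ne le_sup_left (fun h => htQ ?_)
      rw [h]
      exact Subgroup.mem_sup_right htK
    have hle : Q ⊔ NK S Q K ≤ S := sup_le hQS.le NK_le_S
    intro α hα
    rw [hEm]
    refine ⟨(mem_autGroup hQS.le).1 hα, fun _ x hx => ?_⟩
    obtain ⟨κ, hκ, g, hg, hκα, hgx⟩ := frattini_ext hS hF hQn hKA hKn hα
    haveI : Finite (Q ⊔ NK S Q K : Subgroup Ω) := finite_of_le hle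
    have hcard : Nat.card Q + 1 ≤ Nat.card (Q ⊔ NK S Q K : Subgroup Ω) := by
      apply Nat.succ_le_of_lt
      apply lt_of_le_of_ne (Subgroup.card_le_of_le hlt.le)
      exact fun h => hlt.ne (Subgroup.eq_of_le_of_card_ge hlt.le h.ge)
    have h1 := ((hEm _ _).1 (hA _ g hcard hg)).2 (IsCentric_mono hQc hlt.le hle) x hx
    have hVQ : V ≤ Q := by
      intro y hy
      obtain ⟨z, hz, rfl⟩ := (hVmem y).1 hy
      exact Q.pow_mem (hZQ Q hQc hz) _
    rw [hgx x (hVQ hx)] at h1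
    have h2 : av α x = av κ⁻¹ (av (κ * α) x) := by
      rw [av_mul _ _ (hVQ hx), av_inv _ (av_mem _ (hVQ hx))]
    rw [h2]
    obtain ⟨z, hz, hz'⟩ := (hVmem _).1 h1
    have h3 := ((hKm _).1 (K.inv_mem hκ)).2 z ⟨hZQ Q hQc hz, Subgroup.mem_centralizer_iff.2 fun s hs => (hZc z hz).2 s (hQS.le hs)⟩
    rw [hz', h3, ← hz']
    exact h1
  apply normal_of_essential hS hF
  intro P hP
  have hPc : F.IsCentric P := by
    rcases hP with rfl | hP
    · exact centric_top F
    · exact hP.1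
  have hVP : V ≤ P := by
    intro y hy
    obtain ⟨z, hz, rfl⟩ := (hVmem y).1 hy
    exact P.pow_mem (hZQ P hPc hz) _
  refine ⟨hVP, fun α hα => ?_⟩
  by_cases hPS : P = S
  · subst hPS
    exact ((hEm _ _).1 (h0 α hα)).2 hPc
  · rcases hP with h | hP
    · exact absurd h hPS
    · exact ((hEm _ _).1 (key _ P hP (lt_of_le_of_ne hP.1.1 hPS) rfl α hα)).2 hPc

theorem pow_mem_ucs {G : Type*} [Group G] {m : ℕ} (h : ∀ z ∈ Subgroup.upperCentralSeries G 1, z ^ m = 1) :
    ∀ i, ∀ x ∈ Subgroup.upperCentralSeries G (i + 1), x ^ m ∈ Subgroup.upperCentralSeries G i := by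
  intro i
  induction i with
  | zero =>
    intro x hx
    rw [h x hx]; exact Subgroup.one_mem _
  | succ i ih =>
    intro x hx
    rw [Subgroup.mem_upperCentralSeries_succ_iff]
    intro y
    have hc : x⁻¹ * (y * x * y⁻¹) ∈ Subgroup.upperCentralSeries G (i + 1) := by
      have h1 := (Subgroup.mem_upperCentralSeries_succ_iff).1 ((Subgroup.upperCentralSeries G (i + 1 + 1)).inv_mem hx) y
      have : x⁻¹ * (y * x * y⁻¹) = ⁅x⁻¹, y⁆ := by rw [commutatorElement_def]; simp [mul_assoc]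
      rw [this]; exact h1
    set c := x⁻¹ * (y * x * y⁻¹) with hcdef
    have hcomm : ((x : G) : G ⧸ Subgroup.upperCentralSeries G i) * (c : G ⧸ Subgroup.upperCentralSeries G i) =
        (c : G ⧸ Subgroup.upperCentralSeries G i) * (x : G ⧸ Subgroup.upperCentralSeries G i) := by
      rw [← QuotientGroup.mk_mul, ← QuotientGroup.mk_mul, eq_comm, QuotientGroup.eq_iff_div_mem]
      have := (Subgroup.mem_upperCentralSeries_succ_iff).1 hc x
      simpa [commutatorElement_def, div_eq_mul_inv, mul_assoc] using this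
    have h2 : y * x * y⁻¹ = x * c := by rw [hcdef]; simp
    have h3 : ((y * x ^ m * y⁻¹ : G) : G ⧸ Subgroup.upperCentralSeries G i) = ((x ^ m : G) : G ⧸ Subgroup.upperCentralSeries G i) := by
      rw [← conj_pow, h2, QuotientGroup.mk_pow, QuotientGroup.mk_mul, (show Commute _ _ from hcomm).mul_pow,
        ← QuotientGroup.mk_pow, ← QuotientGroup.mk_pow, (QuotientGroup.eq_one_iff (c ^ m)).2 (ih c hc), mul_one]
    rw [eq_comm, QuotientGroup.eq_iff_div_mem] at h3
    simpa [commutatorElement_def, div_eq_mul_inv, mul_assoc] using h3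

theorem exponent_dvd_of_center {G : Type*} [Group G] {m c : ℕ} (h : ∀ z ∈ Subgroup.center G, z ^ m = 1)
    (hc : Subgroup.upperCentralSeries G c = ⊤) : Monoid.exponent G ∣ m ^ c := by
  rw [← Subgroup.upperCentralSeries_one] at h
  apply Monoid.exponent_dvd_of_forall_pow_eq_one
  intro x
  have key : ∀ i, i ≤ c → x ^ (m ^ i) ∈ Subgroup.upperCentralSeries G (c - i) := by
    intro i
    induction i with
    | zero => intro _; rw [Nat.sub_zero, hc]; trivial
    | succ i ih =>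
      intro hi
      have h1 := ih (by omega)
      obtain ⟨k, hk⟩ : ∃ k, c - i = k + 1 := ⟨c - i - 1, by omega⟩
      rw [hk] at h1
      have h2 := pow_mem_ucs h k _ h1
      rw [pow_succ, pow_mul]
      have : c - (i + 1) = k := by omega
      rw [this]; exact h2
  have := key c le_rfl
  rw [Nat.sub_self, Subgroup.upperCentralSeries_zero, Subgroup.mem_bot] at this
  exact this

end CfsgH8
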