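import Cfsg.Agent.H8.Biset5

set_option autoImplicit false
set_option linter.style.haveILetI false
set_option linter.unusedSectionVars false
set_option linter.unusedVariables false

/-! Stable bisets for arbitrary fusion systems. -/

namespace CfsgH8
open Cfsg Cfsg.FusionSystem

universe u v

section step
variable {Ω : Type u} [Group Ω] {S : Subgroup Ω} {F : FusionSystem S} {P Q P₀ : Subgroup Ω} {f f₀ : Ω → Ω}
variable {p n : ℕ} {X : Type u} [MulAction (↥S × ↥S) X]

/-- an approximation of a stable biset -/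
structure BSw (F : FusionSystem S) (X : Type*) [MulAction (↥S × ↥S) X] (n : ℕ) : Prop where
  stab : ∀ x : X, ∃ P f, IsGr F (MulAction.stabilizer (↥S × ↥S) x) P f
  marks : ∀ (K K' : Subgroup (↥S × ↥S)) (P P' : Subgroup Ω) (f f' : Ω → Ω), IsGr F K P f → IsGr F K' P' f' →
    F.IsConj P P' → n ≤ Nat.card P → fp X K = fp X K'
  base : ∃ x : X, ∃ f, IsGr F (MulAction.stabilizer (↥S × ↥S) x) S f
  card : Nat.card S ∣ Nat.card X

theorem BSw.step' [Finite S] [Finite X] (h : BSw F X (n + 1)) (M : Subgroup Ω → ℕ) (hM1 : ∀ P Q, F.IsConj P Q → M P = M Q)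
    (hM2 : ∀ (K : Subgroup (↥S × ↥S)) P f, IsGr F K P f → Nat.card P = n → ∃ c : ℕ, c * fp ((↥S × ↥S) ⧸ K) K + fp X K = M P) :
    ∃ (Y : Type u) (_ : MulAction (↥S × ↥S) Y) (_ : Finite Y), BSw F Y n := by
  classical
  -- classes of graphs
  let r : Setoid {K : Subgroup (↥S × ↥S) // ∃ P f, IsGr F K P f ∧ Nat.card P = n} :=
    { r := fun K L => ∃ g : ↥S × ↥S, ∀ k, k ∈ K.1 ↔ g * k * g⁻¹ ∈ L.1
      iseqv := ⟨fun K => ⟨1, by intro k; simp⟩, by
        rintro K L ⟨g, hg⟩
        refine ⟨g⁻¹, fun k => ?_⟩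
        rw [hg, inv_inv]
        have : g * (g⁻¹ * k * g) * g⁻¹ = k := by group
        rw [this], by
        rintro K L J ⟨g, hg⟩ ⟨g', hg'⟩
        refine ⟨g' * g, fun k => ?_⟩
        rw [hg, hg']
        have : g' * (g * k * g⁻¹) * g'⁻¹ = g' * g * k * (g' * g)⁻¹ := by group
        rw [this]⟩ }
  let I := Quotient r
  haveI : Finite I := Quotient.finite r
  haveI : Fintype I := Fintype.ofFinite I
  let Δ : I → Subgroup (↥S × ↥S) := fun i => (Quotient.out i).1
  have hΔ : ∀ i, ∃ P f, IsGr F (Δ i) P f ∧ Nat.card P = n := fun i => (Quotient.out i).2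
  choose Pi fi hPi hcPi using hΔ
  have hci : ∀ i, ∃ c : ℕ, c * fp ((↥S × ↥S) ⧸ Δ i) (Δ i) + fp X (Δ i) = M (Pi i) := fun i => hM2 _ _ _ (hPi i) (hcPi i)
  choose c hc using hci
  let Z : (Σ i : I, Fin (c i)) → Type u := fun j => (↥S × ↥S) ⧸ Δ j.1
  have hfpY : ∀ K : Subgroup (↥S × ↥S), fp (X ⊕ (Σ j, Z j)) K = fp X K + ∑ i : I, c i * fp ((↥S × ↥S) ⧸ Δ i) K := by
    intro K
    rw [fp_sum, fp_sigma]
    congr 1
    rw [← Finset.univ_sigma_univ, Finset.sum_sigma]
    apply Finset.sum_congr rfl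
    intro i _
    show ∑ _k : Fin (c i), fp ((↥S × ↥S) ⧸ Δ i) K = _
    rw [Finset.sum_const, Finset.card_univ, Fintype.card_fin, smul_eq_mul]
  have hcΔ : ∀ i, Nat.card (Δ i) = n := fun i => (hPi i).card.trans (hcPi i)
  -- large graphs
  have hbig : ∀ (K : Subgroup (↥S × ↥S)), n < Nat.card K → fp (X ⊕ (Σ j, Z j)) K = fp X K := by
    intro K hK
    rw [hfpY]
    have : ∑ i : I, c i * fp ((↥S × ↥S) ⧸ Δ i) K = 0 := by
      apply Finset.sum_eq_zero
      intro i _
      rw [fp_quot_eq_zero (by rw [hcΔ]; exact hK.le), mul_zero]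
      rintro ⟨g, hg⟩
      have : Nat.card K ≤ Nat.card (Δ i) := Nat.card_le_card_of_injective (fun k : K => (⟨g⁻¹ * k * g, (hg k).1 k.2⟩ : Δ i)) (by
        intro a b hab
        have := congrArg Subtype.val hab
        exact Subtype.ext (mul_left_cancel (mul_right_cancel this)))
      rw [hcΔ] at this
      omega
    rw [this, add_zero]
  have hn' : ∀ (K : Subgroup (↥S × ↥S)) P f, IsGr F K P f → Nat.card P = n → fp (X ⊕ (Σ j, Z j)) K = M P := by
    intro K P f hK hcP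
    rw [hfpY]
    set i₀ : I := Quotient.mk r ⟨K, P, f, hK, hcP⟩ with hi₀
    have hrel : r.r (Quotient.out i₀) ⟨K, P, f, hK, hcP⟩ := Quotient.mk_out (s := r) _
    obtain ⟨g, hg⟩ := hrel
    have hsum : ∑ i : I, c i * fp ((↥S × ↥S) ⧸ Δ i) K = c i₀ * fp ((↥S × ↥S) ⧸ Δ i₀) K := by
      apply Finset.sum_eq_single_of_mem i₀ (Finset.mem_univ _)
      intro i _ hne
      rw [fp_quot_eq_zero (by rw [hcΔ, hK.card, hcP]), mul_zero]
      rintro ⟨g', hg'⟩
      apply hne
      rw [hi₀, ← Quotient.out_eq i]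
      apply Quotient.sound
      refine ⟨g', fun k => ?_⟩
      show k ∈ Δ i ↔ g' * k * g'⁻¹ ∈ K
      rw [hg']
      have : g'⁻¹ * (g' * k * g'⁻¹) * g' = k := by group
      rw [this]
    rw [hsum]
    have e1 : fp X (Δ i₀) = fp X K := fp_conj X g hg
    have e2 : fp ((↥S × ↥S) ⧸ Δ i₀) (Δ i₀) = fp ((↥S × ↥S) ⧸ Δ i₀) K := fp_conj _ g hg
    rw [← e1, ← e2, add_comm, hc i₀]
    obtain ⟨P', f', h1, h2⟩ := (hPi i₀).conj g hg
    have h3 : P' = P := by
      apply le_antisymm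
      · intro x hx
        exact (hK.mem.1 (h1.mk_mem hx)).1
      · intro x hx
        exact (h1.mem.1 (hK.mk_mem hx)).1
    rw [h3] at h2
    exact hM1 _ _ h2
  refine ⟨X ⊕ (Σ j, Z j), inferInstance, inferInstance, ?_, ?_, ?_, ?_⟩
  · rintro (x | ⟨j, q⟩)
    · obtain ⟨P, f, hPf⟩ := h.stab x
      refine ⟨P, f, hPf.1, fun a b => ?_⟩
      rw [← hPf.2 a b, MulAction.mem_stabilizer_iff, MulAction.mem_stabilizer_iff, Sum.smul_inl]
      exact ⟨fun h => Sum.inl_injective h, fun h => by rw [h]⟩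
    · induction q using Quotient.inductionOn with
      | _ g =>
      obtain ⟨P', f', h1, -⟩ := (hPi j.1).conj (L := MulAction.stabilizer (↥S × ↥S) (Sum.inr ⟨j, Quotient.mk _ g⟩ : X ⊕ (Σ j, Z j))) g (by
        intro k
        rw [MulAction.mem_stabilizer_iff, Sum.smul_inr, Sigma.smul_mk]
        have h2 : (g * k * g⁻¹) • (QuotientGroup.mk g : (↥S × ↥S) ⧸ Δ j.1) = QuotientGroup.mk g ↔ k ∈ Δ j.1 := by
          have h3 : (g * k * g⁻¹) • (QuotientGroup.mk g : (↥S × ↥S) ⧸ Δ j.1) = QuotientGroup.mk (g * k) := by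
            show (QuotientGroup.mk (g * k * g⁻¹ * g) : (↥S × ↥S) ⧸ Δ j.1) = _
            rw [inv_mul_cancel_right]
          rw [h3, eq_comm, QuotientGroup.eq, inv_mul_cancel_left]
        constructor
        · intro hk
          congr 1
          exact Sigma.ext rfl (heq_of_eq (h2.2 hk))
        · intro hk
          have h4 := Sum.inr_injective hk
          exact h2.1 (eq_of_heq (Sigma.mk.inj_iff.1 h4).2))
      exact ⟨P', f', h1⟩
  · intro K K' P P' f f' hK hK' hPP' hnP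
    rcases hnP.eq_or_lt with heq | hlt
    · rw [hn' K P f hK heq.symm, hn' K' P' f' hK' (by rw [isConj_card hPP', heq])]
      exact hM1 _ _ hPP'
    · rw [hbig K (by rw [hK.card]; exact hlt), hbig K' (by rw [hK'.card, isConj_card hPP']; exact hlt)]
      exact h.marks K K' P P' f f' hK hK' hPP' hlt
  · obtain ⟨x, f, hx⟩ := h.base
    refine ⟨Sum.inl x, f, hx.1, fun a b => ?_⟩
    rw [← hx.2 a b, MulAction.mem_stabilizer_iff, MulAction.mem_stabilizer_iff, Sum.smul_inl]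
    exact ⟨fun h => Sum.inl_injective h, fun h => by rw [h]⟩
  · have hdvd : ∀ j, Nat.card S ∣ Nat.card (Z j) := by
      intro j
      have h1 := Subgroup.card_mul_index (Δ j.1)
      have h2 : Nat.card (↥S × ↥S) = Nat.card S * Nat.card S := Nat.card_prod _ _
      obtain ⟨t, ht⟩ := Subgroup.card_dvd_of_le (hPi j.1).1.le
      rw [hcPi] at ht
      have hn0 : 0 < n := by
        rw [← hcΔ j.1]; exact Nat.card_pos
      rw [h2, hcΔ] at h1
      refine ⟨t, ?_⟩
      have h5 : Nat.card (Z j) = (Δ j.1).index := rfl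
      rw [h5]
      apply Nat.eq_of_mul_eq_mul_left hn0
      rw [h1]
      nth_rewrite 1 [ht]
      ring
    have e1 : Nat.card (X ⊕ (Σ j, Z j)) = Nat.card X + ∑ j, Nat.card (Z j) := by
      rw [Nat.card_sum, Nat.card_sigma]
    rw [e1]
    exact Nat.dvd_add h.card (Finset.dvd_sum (fun j _ => hdvd j))

theorem BSw.mul [Finite S] [Finite X] (h : BSw F X n) (N : ℕ) (hN : 0 < N) : BSw F (Σ _ : Fin N, X) n := by
  have hfp : ∀ K : Subgroup (↥S × ↥S), fp (Σ _ : Fin N, X) K = N * fp X K := by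
    intro K
    rw [fp_sigma, Finset.sum_const, Finset.card_univ, Fintype.card_fin, smul_eq_mul]
  have hst : ∀ (i : Fin N) (x : X), MulAction.stabilizer (↥S × ↥S) (⟨i, x⟩ : Σ _ : Fin N, X) = MulAction.stabilizer (↥S × ↥S) x := by
    intro i x
    ext k
    rw [MulAction.mem_stabilizer_iff, MulAction.mem_stabilizer_iff, Sigma.smul_mk]
    constructor
    · intro hk
      exact eq_of_heq (Sigma.mk.inj_iff.1 hk).2
    · intro hk
      rw [hk]
  refine ⟨?_, ?_, ?_, ?_⟩
  · rintro ⟨i, x⟩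
    rw [hst]; exact h.stab x
  · intro K K' P P' f f' hK hK' hPP' hnP
    rw [hfp, hfp, h.marks K K' P P' f f' hK hK' hPP' hnP]
  · obtain ⟨x, f, hx⟩ := h.base
    refine ⟨⟨⟨0, hN⟩, x⟩, f, ?_⟩
    rw [hst]; exact hx
  · rw [Nat.card_sigma, Finset.sum_const, Finset.card_univ, Fintype.card_fin, smul_eq_mul]
    exact Dvd.dvd.mul_left h.card N

theorem BSw.step [Finite S] [Finite X] (h : BSw F X (n + 1)) :
    ∃ (Y : Type u) (_ : MulAction (↥S × ↥S) Y) (_ : Finite Y), BSw F Y n := by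
  have hGpos : 0 < Nat.card (↥S × ↥S) := Nat.card_pos
  have h' := h.mul (Nat.card (↥S × ↥S)) hGpos
  have hfp : ∀ K : Subgroup (↥S × ↥S), fp (Σ _ : Fin (Nat.card (↥S × ↥S)), X) K = Nat.card (↥S × ↥S) * fp X K := by
    intro K
    rw [fp_sigma, Finset.sum_const, Finset.card_univ, Fintype.card_fin, smul_eq_mul]
  let Y := Σ _ : Fin (Nat.card (↥S × ↥S)), ULift.{u} X
  have h2 : ∃ (Y : Type u) (_ : MulAction (↥S × ↥S) Y) (_ : Finite Y), BSw F Y (n + 1) ∧
      ∀ K : Subgroup (↥S × ↥S), fp Y K = Nat.card (↥S × ↥S) * fp X K := by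
    exact ⟨Σ _ : Fin (Nat.card (↥S × ↥S)), X, inferInstance, inferInstance, h', hfp⟩
  obtain ⟨Y, _, _, hY, hfpY⟩ := h2
  refine hY.step' (fun _ => Nat.card (↥S × ↥S) * Nat.card X) (fun _ _ _ => rfl) ?_
  intro K P f hK hn
  have hNK := fp_quot_of_card_eq (Δ := K) (K := K) rfl 1 (by intro k; simp)
  obtain ⟨t, ht⟩ := Subgroup.card_subgroup_dvd_card (Subgroup.normalizer (K : Set (↥S × ↥S)))
  have hfK := fp_le X K
  obtain ⟨d, hd⟩ := Nat.exists_eq_add_of_le hfK
  refine ⟨Nat.card K * t * d, ?_⟩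
  rw [hfpY, hd]
  rw [← hNK] at ht
  rw [ht]
  ring

theorem exists_BSw [Finite S] (F : FusionSystem S) :
    ∃ (X : Type u) (_ : MulAction (↥S × ↥S) X) (_ : Finite X), BSw F X 0 := by
  have key : ∀ k n : ℕ, n + k = Nat.card S → ∃ (X : Type u) (_ : MulAction (↥S × ↥S) X) (_ : Finite X), BSw F X n := by
    intro k
    induction k with
    | zero =>
      intro n hn
      haveI := finite_autGroup F S
      rw [add_zero] at hn
      rw [hn]
      have hPS : ∀ {P : Subgroup Ω}, P ≤ S → Nat.card S ≤ Nat.card P → P = S := fun {P} h1 h2 => by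
        haveI := finite_of_le h1
        exact Subgroup.eq_of_le_of_card_ge h1 h2
      refine ⟨X₀ F, inferInstance, inferInstance, fun x => ⟨_, _, base_stab F x⟩, ?_, ?_, ?_⟩
      · intro K K' P P' f f' hK hK' hPP' hn
        have h1 := hPS hK.1.le hn
        have h2 := hPS hK'.1.le (by rw [isConj_card hPP']; exact hn)
        subst h1
        subst h2
        rw [base_fp hK, base_fp hK']
      · exact ⟨(QuotientGroup.mk 1, 1), _, base_stab F _⟩
      · rw [Nat.card_prod]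
        exact Dvd.intro_left _ rfl
    | succ k ih =>
      intro n hn
      obtain ⟨X, _, _, h⟩ := ih (n + 1) (by omega)
      exact h.step
  exact key (Nat.card S) 0 (by omega)

theorem realized [Finite S] (F : FusionSystem S) : ∃ (G : Type u) (_ : Group G) (_ : Finite G) (ι : ↥S →* G), F.IsRealizedBy ι := by
  obtain ⟨X, _, _, hX⟩ := exists_BSw F
  obtain ⟨x0, f0, hx0⟩ := hX.base
  -- conversion
  obtain ⟨N, hN⟩ := hX.card
  have hXpos : 0 < Nat.card X := by
    haveI : Nonempty X := ⟨x0⟩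
    exact Nat.card_pos
  have hNpos : 0 < N := by
    rcases Nat.eq_zero_or_pos N with h | h
    · rw [h, mul_zero] at hN; omega
    · exact h
  obtain ⟨p', hp'N, hp'⟩ := Nat.exists_infinite_primes (N + 1)
  have hBS : BS F p' X 0 := ⟨hX.stab, hX.marks, N, hN, fun hd => by
    have := Nat.le_of_dvd hNpos hd
    omega⟩
  -- the group
  let G : Subgroup (Equiv.Perm X) :=
    { carrier := {g | ∀ (b : ↥S) (x : X), g (((1, b) : ↥S × ↥S) • x) = ((1, b) : ↥S × ↥S) • g x}
      one_mem' := fun b x => rfl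
      mul_mem' := by
        intro g h hg hh b x
        show g (h _) = _ • g (h x)
        rw [hh, hg]
      inv_mem' := by
        intro g hg b x
        apply g.injective
        have h1 : ∀ x, g (g⁻¹ x) = x := fun x => g.apply_symm_apply x
        rw [hg, h1, h1] }
  let ι : ↥S →* ↥G :=
    { toFun := fun a => ⟨MulAction.toPerm ((a, 1) : ↥S × ↥S), by
        intro b x
        show ((a, 1) : ↥S × ↥S) • ((1, b) : ↥S × ↥S) • x = ((1, b) : ↥S × ↥S) • ((a, 1) : ↥S × ↥S) • x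
        rw [← mul_smul, ← mul_smul]
        congr 1
        exact Prod.ext (by simp) (by simp)⟩
      map_one' := by
        apply Subtype.ext
        ext x
        show ((1, 1) : ↥S × ↥S) • x = x
        exact one_smul _ x
      map_mul' := by
        intro a a'
        apply Subtype.ext
        ext x
        show ((a * a', 1) : ↥S × ↥S) • x = ((a, 1) : ↥S × ↥S) • ((a', 1) : ↥S × ↥S) • x
        rw [← mul_smul]
        congr 1
        exact Prod.ext rfl (by simp) }
  have hι : ∀ (a : ↥S) (x : X), ((ι a : ↥G) : Equiv.Perm X) x = ((a, 1) : ↥S × ↥S) • x := fun _ _ => rfl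
  refine ⟨↥G, inferInstance, inferInstance, ι, ?_, ?_⟩
  · rw [injective_iff_map_eq_one]
    intro a ha
    have h1 : ((a, 1) : ↥S × ↥S) • x0 = x0 := by
      rw [← hι, ha]; rfl
    have h2 := hx0.mem.1 (MulAction.mem_stabilizer_iff.2 h1)
    have h3 : (1 : Ω) = f0 a := h2.2
    have h4 : f0 (a : Ω) = f0 1 := by rw [← h3, hx0.1.mulOn.map_one]
    exact Subtype.ext (hx0.1.injOn a.2 S.one_mem h4)
  · intro P hP φ hφ
    constructor
    · intro h
      have hmor := mor_of_hom h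
      obtain ⟨Θ, hΘ⟩ := hBS.stable hmor
      have hcoe : ∀ a : ↥P, extF φ (a : Ω) = φ a := fun a => extF_coe φ a
      have hΘG : (Θ : Equiv.Perm X) ∈ G := by
        intro b x
        have h1 := hΘ 1 b P.one_mem x
        rw [h1]
        congr 1
        refine Prod.ext (Subtype.ext ?_) rfl
        exact hmor.mulOn.map_one
      refine ⟨⟨Θ, hΘG⟩, fun a => ?_⟩
      rw [eq_mul_inv_iff_mul_eq]
      apply Subtype.ext
      ext x
      show ((⟨φ a, hφ a⟩, 1) : ↥S × ↥S) • Θ x = Θ (((⟨a, hP a.2⟩, 1) : ↥S × ↥S) • x)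
      rw [hΘ ⟨a, hP a.2⟩ 1 a.2 x]
      congr 1
      refine Prod.ext (Subtype.ext ?_) rfl
      exact (hcoe a).symm
    · rintro ⟨g, hg⟩
      set y := (g : Equiv.Perm X) x0 with hy
      obtain ⟨Q, h, hQ⟩ := hX.stab y
      have hkey : ∀ a : ↥P, (φ a) ∈ Q ∧ f0 (a : Ω) = h (φ a) := by
        intro a
        have h1 : ((⟨a, hP a.2⟩, ⟨f0 a, hx0.1.mem_S (hP a.2)⟩) : ↥S × ↥S) • x0 = x0 :=
          MulAction.mem_stabilizer_iff.1 (hx0.mem.2 ⟨hP a.2, rfl⟩)
        have h2 : ((⟨φ a, hφ a⟩, ⟨f0 a, hx0.1.mem_S (hP a.2)⟩) : ↥S × ↥S) • y = y := by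
          have e1 : ((⟨φ a, hφ a⟩, ⟨f0 a, hx0.1.mem_S (hP a.2)⟩) : ↥S × ↥S) =
            ((1, ⟨f0 a, hx0.1.mem_S (hP a.2)⟩) : ↥S × ↥S) * ((⟨φ a, hφ a⟩, 1) : ↥S × ↥S) := Prod.ext (by simp) (by simp)
          rw [e1, mul_smul, ← hι, hg a]
          have e2 : ((g * ι ⟨a, hP a.2⟩ * g⁻¹ : ↥G) : Equiv.Perm X) y = (g : Equiv.Perm X) (((⟨a, hP a.2⟩, 1) : ↥S × ↥S) • x0) := by
            show (g : Equiv.Perm X) (((ι ⟨a, hP a.2⟩ : ↥G) : Equiv.Perm X) ((g : Equiv.Perm X)⁻¹ y)) = _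
            have e4 : (g : Equiv.Perm X)⁻¹ ((g : Equiv.Perm X) x0) = x0 := (g : Equiv.Perm X).symm_apply_apply x0
            rw [hy, e4, hι]
          rw [e2, ← g.2]
          congr 1
          rw [← mul_smul]
          have e3 : ((1, ⟨f0 a, hx0.1.mem_S (hP a.2)⟩) : ↥S × ↥S) * ((⟨a, hP a.2⟩, 1) : ↥S × ↥S) =
            ((⟨a, hP a.2⟩, ⟨f0 a, hx0.1.mem_S (hP a.2)⟩) : ↥S × ↥S) := Prod.ext (by simp) (by simp)
          rw [e3, h1]
        exact hQ.mem.1 (MulAction.mem_stabilizer_iff.2 h2)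
      have hmor : Mor F P (invF h Q ∘ f0) := by
        have h1 := hx0.1.mono hP
        refine hQ.1.inv.comp h1 (fun x hx => ?_)
        have := hkey ⟨x, hx⟩
        rw [this.2]
        exact mem_img_of_mem h this.1
      obtain ⟨φ', hφ', hφ''⟩ := hmor
      have : φ = φ' := by
        ext a
        rw [hφ'' a]
        show φ a = invF h Q (f0 a)
        rw [(hkey a).2, hQ.1.invF_f (hkey a).1]
      rw [this]; exact hφ'

end step
end CfsgH8
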