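import Cfsg.Agent.H8.JCen

set_option autoImplicit false
set_option linter.style.haveILetI false
set_option linter.unusedSectionVars false
set_option linter.unusedVariables false

/-! The center of `F` is a direct factor of `Z(S)` for `p` odd. -/

namespace CfsgH8
open Cfsg Cfsg.FusionSystem

universe u v

section
variable {α : Type*} [Group α] [Finite α] {𝕍 : Type*} [CommGroup 𝕍] (ρ : α →* MulAut 𝕍)

/-- fixed points -/
def FixS (s : Subgroup α) : Subgroup 𝕍 where
  carrier := {u | ∀ g ∈ s, ρ g u = u}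
  one_mem' := fun g _ => map_one _
  mul_mem' := fun {a b} ha hb g hg => by rw [map_mul, ha g hg, hb g hg]
  inv_mem' := fun {a} ha g hg => by rw [map_inv, ha g hg]

theorem nrm_mul (s : Subgroup α) (u v : 𝕍) : nrm ρ s (u * v) = nrm ρ s u * nrm ρ s v := by
  unfold nrm
  simp only [map_mul]
  exact finprod_mul_distrib (Set.toFinite _) (Set.toFinite _)

theorem nrm_one (s : Subgroup α) : nrm ρ s (1 : 𝕍) = 1 := by
  unfold nrm
  simp only [map_one]
  exact finprod_one

/-- the norm as a homomorphism -/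
noncomputable def nrmHom (s : Subgroup α) : 𝕍 →* 𝕍 where
  toFun := nrm ρ s
  map_one' := nrm_one ρ s
  map_mul' := nrm_mul ρ s

theorem exists_compl [Finite 𝕍] {p : ℕ} [Fact p.Prime] (hV : IsPGroup p 𝕍) (s : Subgroup α) (hs : ¬ p ∣ s.index) :
    ∃ K : Subgroup 𝕍, K ≤ FixS ρ s ∧ FixS ρ ⊤ ⊓ K = ⊥ ∧ FixS ρ ⊤ ⊔ K = FixS ρ s := by
  obtain ⟨n, hn⟩ := hV.exists_card_eq
  have hco : Nat.Coprime (Nat.card 𝕍) s.index := by
    rw [hn]
    exact Nat.Coprime.pow_left _ ((Nat.Prime.coprime_iff_not_dvd Fact.out).2 hs)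
  have hle : FixS ρ (⊤ : Subgroup α) ≤ FixS ρ s := fun u hu g _ => hu g trivial
  refine ⟨FixS ρ s ⊓ (nrmHom ρ s).ker, inf_le_left, ?_, ?_⟩
  · rw [eq_bot_iff]
    rintro u ⟨hu1, hu2, hu3⟩
    have h1 : nrm ρ s u = 1 := hu3
    rw [nrm_of_fixed (fun g => hu1 g trivial)] at h1
    rw [Subgroup.mem_bot, ← orderOf_eq_one_iff]
    exact Nat.Coprime.eq_one_of_dvd (Nat.Coprime.coprime_dvd_left (orderOf_dvd_natCard u) hco) (orderOf_dvd_of_pow_eq_one h1)
  · apply le_antisymm (sup_le hle inf_le_left)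
    intro u hu
    have hfix : ∀ g, ρ g (nrm ρ s u) = nrm ρ s u := nrm_fixed hu
    set e := (powCoprime hco).symm (nrm ρ s u) with he
    have he1 : e ^ s.index = nrm ρ s u := (powCoprime hco).apply_symm_apply _
    have heF : ∀ g, ρ g e = e := by
      intro g
      apply (powCoprime hco).injective
      show (ρ g e) ^ s.index = e ^ s.index
      rw [← map_pow, he1, hfix]
    have h2 : e ∈ FixS ρ (⊤ : Subgroup α) := fun g _ => heF g
    rw [show u = e * (e⁻¹ * u) by group]
    refine Subgroup.mul_mem_sup h2 ⟨(FixS ρ s).mul_mem ((FixS ρ s).inv_mem (hle h2)) hu, ?_⟩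
    show nrmHom ρ s (e⁻¹ * u) = 1
    rw [map_mul, map_inv]
    show (nrm ρ s e)⁻¹ * nrm ρ s u = 1
    rw [nrm_of_fixed heF, he1, inv_mul_cancel]

end

/-- action of automorphisms on the center -/
def cenAct (J : Type*) [Group J] : MulAut J →* MulAut (Subgroup.center J) where
  toFun α := Subgroup.centerCongr α
  map_one' := by ext x; rfl
  map_mul' := fun a b => by ext x; rfl

theorem cenAct_apply {J : Type*} [Group J] (α : MulAut J) (x : Subgroup.center J) : ((cenAct J α x : Subgroup.center J) : J) = α x := rfl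

/-- `Z(F)` is a direct factor of `Z(S)` -/
theorem center_direct_factor {p : ℕ} [Fact p.Prime] (hp : p ≠ 2) {Ω : Type u} [Group Ω] {S : Subgroup Ω} [Finite S]
    (hS : IsPGroup p S) (F : FusionSystem S) (hF : F.IsSaturated p) :
    ∃ K : Subgroup Ω, K ≤ (S ⊓ Subgroup.centralizer (S : Set Ω)) ∧ F.center ⊓ K = ⊥ ∧
      F.center ⊔ K = (S ⊓ Subgroup.centralizer (S : Set Ω)) := by
  set J := WS JF S with hJ
  have hJS : J ≤ S := WS_le JF S
  obtain ⟨N, hN⟩ := exists_normalizerSystem F hJS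
  haveI : Finite (normalizerIn S J) := finite_of_le inf_le_left
  haveI : Finite J := finite_of_le hJS
  have hSJ : S ≤ Subgroup.normalizer (J : Set Ω) := le_normalizer_WS JF JF_iso hS
  have e : normalizerIn S J = S := inf_eq_left.2 hSJ
  have hJfn : F.IsFullyNormalized J := by
    refine ⟨hJS, fun R hR => ?_⟩
    rw [e]
    exact Subgroup.card_le_of_le inf_le_left
  have hNs : N.IsSaturated p := normalizerSystem_saturated hS hF hJfn N hN
  have hRp : IsPGroup p (normalizerIn S J) := hS.to_le inf_le_left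
  have hcen : N.center ≤ F.center := J_cen_fus hS F hF (Or.inl hp) N hN
  -- the action
  set A := F.autGroup J with hA
  haveI : Finite A := inferInstance
  set ρ : A →* MulAut (Subgroup.center J) := (cenAct J).comp A.subtype with hρ
  set s : Subgroup A := (autInducedBy S J).subgroupOf A with hs
  have hJA := ((saturated_fn_iff hS hF).1 hJfn).1
  obtain ⟨-, R, hR⟩ := hJA
  have hidx : ¬ p ∣ s.index := by
    rw [hs, ← hR]
    exact R.not_dvd_index
  have hVp : IsPGroup p (Subgroup.center J) := (hS.to_le hJS).to_subgroup _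
  letI : CommGroup ↥(Subgroup.center J) := { (inferInstance : Group ↥(Subgroup.center J)) with
    mul_comm := fun a b => Subtype.ext (Subgroup.mem_center_iff.1 b.2 a) }
  obtain ⟨K, hK1, hK2, hK3⟩ := exists_compl (𝕍 := Subgroup.center J) ρ hVp s hidx
  set ι : Subgroup.center J →* Ω := J.subtype.comp (Subgroup.center J).subtype with hι
  have hιi : Function.Injective ι := J.subtype_injective.comp (Subgroup.center J).subtype_injective
  -- centers
  have hZJ : S ⊓ Subgroup.centralizer (S : Set Ω) ≤ J := by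
    rintro x ⟨hx1, hx2⟩
    have h1 : (⟨x, hx1⟩ : S) ∈ Subgroup.center S :=
      Subgroup.mem_center_iff.2 fun g => Subtype.ext (Subgroup.mem_centralizer_iff.1 hx2 g g.2)
    exact ⟨_, center_le_JF (p := p) S hS h1, rfl⟩
  have hact : ∀ (a : A) (u : Subgroup.center J), ι (ρ a u) = av a.1 (ι u) := by
    intro a u
    show (((a.1 : MulAut J) u.1 : J) : Ω) = av a.1 (u.1 : Ω)
    rw [av_of_mem _ u.1.2]
  have hF1 : (FixS ρ s).map ι = S ⊓ Subgroup.centralizer (S : Set Ω) := by
    ext x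
    constructor
    · rintro ⟨u, hu, rfl⟩
      refine ⟨hJS u.1.2, Subgroup.mem_centralizer_iff.2 ?_⟩
      intro g hg
      have hgm : cjAut J g (hSJ hg) ∈ autInducedBy S J := mem_autInducedBy.2 ⟨g, hg, fun x hx => av_cjAut (hSJ hg) hx⟩
      have h1 := hu ⟨cjAut J g (hSJ hg), autInducedBy_le_autGroup hJS le_rfl hgm⟩ hgm
      have h2 := congrArg ι h1
      rw [hact] at h2
      have h3 : g * ι u * g⁻¹ = ι u := (av_cjAut (hSJ hg) u.1.2).symm.trans h2
      rwa [mul_inv_eq_iff_eq_mul] at h3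
    · intro hx
      have hxJ := hZJ hx
      have hxc : (⟨x, hxJ⟩ : J) ∈ Subgroup.center J :=
        Subgroup.mem_center_iff.2 fun g => Subtype.ext (Subgroup.mem_centralizer_iff.1 hx.2 g (hJS g.2))
      refine ⟨⟨⟨x, hxJ⟩, hxc⟩, ?_, rfl⟩
      intro a ha
      apply hιi
      rw [hact]
      obtain ⟨g, hg, hga⟩ := mem_autInducedBy.1 (show a.1 ∈ autInducedBy S J from ha)
      show av a.1 x = x
      rw [hga x hxJ, mul_inv_eq_iff_eq_mul]
      exact Subgroup.mem_centralizer_iff.1 hx.2 g hg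
  have hF2 : (FixS ρ (⊤ : Subgroup A)).map ι = F.center := by
    apply le_antisymm
    · refine le_trans ?_ hcen
      rintro _ ⟨u, hu, rfl⟩
      rw [mem_center_iff' hRp hNs]
      refine ⟨by rw [e]; exact hJS u.1.2, fun P f hf huP => ?_⟩
      obtain ⟨-, k, hk, hkf, κ, -, hκ⟩ := (mor_isNormalizerSystem hN).1 hf
      have hκA : κ ∈ A := (mem_autGroup hJS).2 ((hk.mono le_sup_right).congr hκ)
      have h1 := congrArg ι (hu ⟨κ, hκA⟩ trivial)
      rw [hact] at h1
      rw [← hkf _ huP, hκ (ι u) u.1.2]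
      exact h1
    · intro x hx
      obtain ⟨hxS, hxf⟩ := (mem_center_iff' hS hF).1 hx
      have hxZ : x ∈ S ⊓ Subgroup.centralizer (S : Set Ω) := by
        refine ⟨hxS, Subgroup.mem_centralizer_iff.2 fun g hg => ?_⟩
        have h1 : g * x * g⁻¹ = x := hxf S (cj g) (mor_cj le_rfl hg) hxS
        rwa [mul_inv_eq_iff_eq_mul] at h1
      have hxJ := hZJ hxZ
      have hxc : (⟨x, hxJ⟩ : J) ∈ Subgroup.center J :=
        Subgroup.mem_center_iff.2 fun g => Subtype.ext (Subgroup.mem_centralizer_iff.1 hxZ.2 g (hJS g.2))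
      refine ⟨⟨⟨x, hxJ⟩, hxc⟩, ?_, rfl⟩
      intro a _
      apply hιi
      rw [hact]
      exact hxf J _ ((mem_autGroup hJS).1 a.2) hxJ
  refine ⟨K.map ι, ?_, ?_, ?_⟩
  · rw [← hF1]; exact Subgroup.map_mono hK1
  · rw [← hF2, ← Subgroup.map_inf _ _ _ hιi, hK2, Subgroup.map_bot]
  · rw [← hF2, ← Subgroup.map_sup, hK3, hF1]

end CfsgH8
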