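import Cfsg.Agent.H8.Ess3
import Cfsg.Agent.S3116

set_option autoImplicit false
set_option linter.style.haveILetI false
set_option linter.unusedSectionVars false
set_option linter.unusedVariables false

namespace CfsgH8
open Cfsg Cfsg.FusionSystem

universe u

variable {Ω : Type u} [Group Ω] {S H : Subgroup Ω} {F : FusionSystem S} {p : ℕ}

theorem autGroup_top_eq_Inn [Finite S] [hp : Fact p.Prime] (hS : IsPGroup p S) (hF : F.IsSaturated p)
    (hA : IsPGroup p (MulAut S)) : F.autGroup S = Inn S := by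
  haveI := finite_autGroup F S
  have h1 := (saturated_fn hS hF (fullyNormalized_top F)).2.1
  obtain ⟨-, h2⟩ := fullyAutomized_iff.1 h1
  rw [← Inn_eq_autInducedBy] at h2
  have h3 := h2.2.2
  change ¬ p ∣ ((Inn S).subgroupOf (F.autGroup S)).index at h3
  have hle : Inn S ≤ F.autGroup S := by
    rw [Inn_eq_autInducedBy]
    exact autInducedBy_le_autGroup le_rfl le_rfl
  have h4 : ((Inn S).subgroupOf (F.autGroup S)).index = 1 := by
    have h5 := Subgroup.index_dvd_card ((Inn S).subgroupOf (F.autGroup S))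
    obtain ⟨n, hn⟩ := (hA.to_subgroup (F.autGroup S)).exists_card_eq
    rw [hn] at h5
    obtain ⟨m, -, hm⟩ := (Nat.dvd_prime_pow hp.out).1 h5
    rw [hm] at h3 ⊢
    cases m with
    | zero => rfl
    | succ m => exact absurd (dvd_pow_self p (Nat.succ_ne_zero m)) h3
  refine le_antisymm ?_ hle
  rw [Subgroup.index_eq_one] at h4
  rwa [Subgroup.subgroupOf_eq_top] at h4

theorem aut_two_quat {X : Type*} [Group X] [Finite X] (h2 : IsPGroup 2 X) {n : ℕ} (hn : 4 ≤ n) (e : X ≃* QuaternionGroup n) :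
    IsPGroup 2 (MulAut X) := by
  haveI : NeZero n := ⟨by omega⟩
  have hcard : Nat.card X = 4 * n := by
    rw [Nat.card_congr e.toEquiv, Nat.card_eq_fintype_card, QuaternionGroup.card]
  have hoc : orderOf (e.symm (QuaternionGroup.a 1)) = 2 * n := by
    rw [MulEquiv.orderOf_eq, QuaternionGroup.orderOf_a_one]
  apply Cfsg.Agent.S3116.aut_two h2 (e.symm (QuaternionGroup.a 1))
  · have h1 := Subgroup.index_mul_card (Subgroup.zpowers (e.symm (QuaternionGroup.a 1)))
    rw [Nat.card_zpowers, hoc, hcard] at h1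
    have h3 : (Subgroup.zpowers (e.symm (QuaternionGroup.a (1 : ZMod (2 * n))))).index * (2 * n) = 2 * (2 * n) := by rw [h1]; ring
    exact Nat.eq_of_mul_eq_mul_right (by omega) h3
  · intro t ht
    rw [hoc]
    obtain ⟨d, rfl⟩ := e.symm.surjective t
    rcases d with i | i
    · exfalso
      apply ht
      refine Subgroup.mem_zpowers_iff.2 ⟨(i.val : ℤ), ?_⟩
      rw [← map_zpow, zpow_natCast, QuaternionGroup.a_one_pow, ZMod.natCast_zmod_val]
    · rw [MulEquiv.orderOf_eq, QuaternionGroup.orderOf_xa]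
      omega

theorem dih_quat_top [Finite S] (n : ℕ) (hn : 4 ≤ n) (hshape : Nonempty (S ≃* DihedralGroup (2 ^ (n - 1))) ∨ Nonempty (S ≃* QuaternionGroup (2 ^ (n - 2))))
    (hF : F.IsSaturated 2) : F.autGroup S = Inn S := by
  haveI : Fact (Nat.Prime 2) := ⟨Nat.prime_two⟩
  have h8 : 8 ≤ 2 ^ (n - 1) := by
    calc 8 = 2 ^ 3 := by norm_num
      _ ≤ 2 ^ (n - 1) := Nat.pow_le_pow_right (by norm_num) (by omega)
  have h4 : 4 ≤ 2 ^ (n - 2) := by
    calc 4 = 2 ^ 2 := by norm_num
      _ ≤ 2 ^ (n - 2) := Nat.pow_le_pow_right (by norm_num) (by omega)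
  rcases hshape with ⟨⟨e⟩⟩ | ⟨⟨e⟩⟩
  · have hS : IsPGroup 2 S := IsPGroup.of_card (n := n) (by
      rw [Nat.card_congr e.toEquiv, DihedralGroup.nat_card, ← pow_succ']
      congr 1; omega)
    exact autGroup_top_eq_Inn hS hF (Cfsg.Agent.S3116.result hS (Or.inl ⟨_, by omega, ⟨e⟩⟩))
  · have hS : IsPGroup 2 S := IsPGroup.of_card (n := n) (by
      haveI : NeZero (2 ^ (n - 2)) := ⟨by omega⟩
      rw [Nat.card_congr e.toEquiv, Nat.card_eq_fintype_card, QuaternionGroup.card]
      have : n = (n - 2) + 2 := by omega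
      conv_rhs => rw [this]
      rw [pow_add]; ring)
    exact autGroup_top_eq_Inn hS hF (aut_two_quat hS h4 e)

end CfsgH8
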