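import Cfsg.Agent.H8.FocFun2
import Cfsg.Agent.H3.NPC2
import Cfsg.Agent.H1.Basic
import Cfsg.Agent.H8.FunThm4

set_option autoImplicit false
set_option linter.style.haveILetI false
set_option linter.unusedSectionVars false
set_option linter.unusedVariables false

/-! Subgroups between `S'` and `Φ(S)`. -/

namespace CfsgH8
open Cfsg Cfsg.FusionSystem
open scoped commutatorElement

universe u v

theorem grp_frat {p : ℕ} [Fact p.Prime] {L : Type*} [Group L] [Finite L] (T : Sylow p L) (Q : Subgroup L) [hQ : Q.Normal]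
    (hQT : Q ≤ (T : Subgroup L)) (hcomm : ∀ s ∈ (T : Subgroup L), ∀ t ∈ (T : Subgroup L), ⁅s, t⁆ ∈ Q)
    (hfr : ∀ H : Subgroup L, H ≤ (T : Subgroup L) → H ⊔ Q = (T : Subgroup L) → H = (T : Subgroup L))
    (hC : Subgroup.centralizer ((pCore p L : Subgroup L) : Set L) ≤ pCore p L)
    (hN : Subgroup.normalizer ((T : Subgroup L) : Set L) ≤ (T : Subgroup L)) : IsPGroup p L := by
  -- a normal `p`-complement of `L / Q`
  have hsurj := QuotientGroup.mk'_surjective Q
  set Tb : Sylow p (L ⧸ Q) := T.mapSurjective hsurj with hTb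
  have hTbe : (Tb : Subgroup (L ⧸ Q)) = (T : Subgroup L).map (QuotientGroup.mk' Q) := rfl
  have hcomap : ∀ x : L, QuotientGroup.mk' Q x ∈ (Tb : Subgroup (L ⧸ Q)) → x ∈ (T : Subgroup L) := by
    intro x hx
    rw [hTbe] at hx
    obtain ⟨y, hy, hyx⟩ := hx
    have h1 : y⁻¹ * x ∈ Q := QuotientGroup.eq.1 hyx
    have h2 := (T : Subgroup L).mul_mem hy (hQT h1)
    rwa [mul_inv_cancel_left] at h2
  have hnpc : CfsgH3.HasNPC p (L ⧸ Q) := by
    apply CfsgH3.hasNPC_burnside Tb
    intro x hx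
    obtain ⟨x, rfl⟩ := hsurj x
    have h1 : x ∈ Subgroup.normalizer ((T : Subgroup L) : Set L) := by
      rw [mem_normalizer_iff_img]
      refine eq_img_of_card_le (cj x) (mulOn_cj _ _) (fun y hy => ?_) (injOn_cj _ _) le_rfl
      apply hcomap
      have h2 := (Subgroup.mem_normalizer_iff.1 hx (QuotientGroup.mk' Q y)).1 ⟨y, hy, rfl⟩
      rwa [← map_inv, ← map_mul, ← map_mul] at h2
    have h2 := hN h1
    rw [Subgroup.mem_centralizer_iff]
    rintro _ ⟨y, hy, rfl⟩
    have h3 := hcomm y hy x h2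
    rw [← map_mul, ← map_mul]
    apply QuotientGroup.eq.2
    have h4 : (y * x)⁻¹ * (x * y) = ⁅x⁻¹, y⁻¹⁆ := by rw [commutatorElement_def]; group
    rw [h4]
    exact hcomm _ ((T : Subgroup L).inv_mem h2) _ ((T : Subgroup L).inv_mem hy)
  obtain ⟨Nb, hNb, hNc, k, hk⟩ := hnpc
  set K := Nb.comap (QuotientGroup.mk' Q) with hK
  haveI hKn : K.Normal := hNb.comap _
  have hKidx : K.index = p ^ k := by rw [hK, Subgroup.index_comap_of_surjective _ hsurj, hk]
  have hTK : ∀ x ∈ (T : Subgroup L), x ∈ K → x ∈ Q := by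
    intro x hx hxK
    have h1 : QuotientGroup.mk' Q x ∈ Nb := hxK
    obtain ⟨m, hm⟩ := T.isPGroup' ⟨x, hx⟩
    have h2 : (QuotientGroup.mk' Q x) ^ p ^ m = 1 := by
      rw [← map_pow]
      have : x ^ p ^ m = 1 := congrArg Subtype.val hm
      rw [this, map_one]
    have h3 : orderOf (QuotientGroup.mk' Q x) ∣ p ^ m := orderOf_dvd_of_pow_eq_one h2
    have h4 : orderOf (QuotientGroup.mk' Q x) ∣ Nat.card Nb := by
      have := orderOf_dvd_natCard (⟨_, h1⟩ : ↥Nb)
      rwa [Subgroup.orderOf_mk] at this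
    have h5 : orderOf (QuotientGroup.mk' Q x) = 1 :=
      Nat.Coprime.eq_one_of_dvd (Nat.Coprime.coprime_dvd_left h4 (Nat.Coprime.pow_right m hNc)) h3
    rw [orderOf_eq_one_iff] at h5
    exact (QuotientGroup.eq_one_iff _).1 h5
  -- no other primes
  have key : ∀ q : ℕ, q.Prime → q ≠ p → ¬ q ∣ Nat.card L := by
    intro q hq hqp hdvd
    haveI : Fact q.Prime := ⟨hq⟩
    obtain ⟨D⟩ : Nonempty (Sylow q ↥K) := inferInstance
    have hfrat := D.normalizer_sup_eq_top
    set D' := (D : Subgroup ↥K).map K.subtype with hD'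
    set M := Subgroup.normalizer (D' : Set L) with hM
    obtain ⟨T₁⟩ : Nonempty (Sylow p ↥M) := inferInstance
    set T₁' := (T₁ : Subgroup ↥M).map M.subtype with hT₁'
    have hT₁p : IsPGroup p T₁' := T₁.isPGroup'.map _
    -- `M = T₁ (M ∩ K)`
    have hMT : T₁' ⊔ K = ⊤ := by
      set φ : ↥M →* L ⧸ K := (QuotientGroup.mk' K).comp M.subtype with hφ
      have hφs : Function.Surjective φ := by
        intro x
        obtain ⟨x, rfl⟩ := QuotientGroup.mk'_surjective K x
        have hx : x ∈ M ⊔ K := by rw [hfrat]; trivial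
        obtain ⟨m, hm, k, hk, rfl⟩ := (CfsgH1.mem_sup_of_le_normalizer (H := M) (K := K) (by
          rw [Subgroup.normalizer_eq_top]; exact le_top)).1 hx
        refine ⟨⟨m, hm⟩, ?_⟩
        show QuotientGroup.mk' K m = QuotientGroup.mk' K (m * k)
        have hk1 : QuotientGroup.mk' K k = 1 := (QuotientGroup.eq_one_iff k).2 hk
        rw [map_mul, hk1, mul_one]
      have hpK : IsPGroup p (L ⧸ K) := IsPGroup.of_card (n := k) (by rw [← hKidx]; rfl)
      have h1 : ((T₁.mapSurjective hφs : Sylow p (L ⧸ K)) : Subgroup (L ⧸ K)) = ⊤ :=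
        ((T₁.mapSurjective hφs).is_maximal' (Q := ⊤) (hpK.to_subgroup _) le_top).symm
      rw [eq_top_iff]
      intro x _
      have h2 : QuotientGroup.mk' K x ∈ ((T₁.mapSurjective hφs : Sylow p (L ⧸ K)) : Subgroup (L ⧸ K)) := by rw [h1]; trivial
      obtain ⟨t, ht, htx⟩ := h2
      have h3 : (t : L)⁻¹ * x ∈ K := QuotientGroup.eq.1 htx
      have h4 : x = (t : L) * ((t : L)⁻¹ * x) := by group
      rw [h4]
      exact Subgroup.mul_mem_sup ⟨t, ht, rfl⟩ h3
    obtain ⟨g, hg⟩ := exists_conj_le_sylow T T₁' hT₁p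
    set T₂ := img (cj g) T₁' with hT₂
    have hT₂T : T₂ ≤ (T : Subgroup L) := img_le.2 hg
    have hT₂Q : T₂ ⊔ Q = (T : Subgroup L) := by
      apply le_antisymm (sup_le hT₂T hQT)
      intro t ht
      have h1 : g⁻¹ * t * g ∈ T₁' ⊔ K := by rw [hMT]; trivial
      obtain ⟨a, ha, b, hb, hab⟩ := (CfsgH1.mem_sup_of_le_normalizer (H := T₁') (K := K) (by
        rw [Subgroup.normalizer_eq_top]; exact le_top)).1 h1
      have h2 : t = (g * a * g⁻¹) * (g * b * g⁻¹) := by
        have : t = g * (g⁻¹ * t * g) * g⁻¹ := by group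
        rw [this, ← hab]; group
      have h3 : g * a * g⁻¹ ∈ T₂ := mem_img_of_mem (cj g) ha
      have h4 : g * b * g⁻¹ ∈ Q := by
        apply hTK
        · have h5 : g * b * g⁻¹ = (g * a * g⁻¹)⁻¹ * t := by rw [h2]; group
          rw [h5]
          exact (T : Subgroup L).mul_mem ((T : Subgroup L).inv_mem (hT₂T h3)) ht
        · exact hKn.conj_mem _ hb g
      rw [h2]
      exact Subgroup.mul_mem_sup h3 h4
    have hT₂e := hfr T₂ hT₂T hT₂Q
    -- `T` normalizes a Sylow `q`-subgroup of `K`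
    set D₂ := img (cj g) D' with hD₂
    have hTD : ∀ t ∈ (T : Subgroup L), ∀ d ∈ D₂, t * d * t⁻¹ ∈ D₂ := by
      intro t ht d hd
      rw [← hT₂e] at ht
      obtain ⟨a, ha, rfl⟩ := (mem_img (mulOn_cj _ _)).1 ht
      obtain ⟨b, hb, rfl⟩ := (mem_img (mulOn_cj _ _)).1 hd
      obtain ⟨a', -, rfl⟩ := ha
      have h1 : (a' : L) * b * (a' : L)⁻¹ ∈ D' := (Subgroup.mem_normalizer_iff.1 a'.2 b).1 hb
      have h2 : cj g (M.subtype a') * cj g b * (cj g (M.subtype a'))⁻¹ = cj g ((a' : L) * b * (a' : L)⁻¹) := by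
        show g * (a' : L) * g⁻¹ * (g * b * g⁻¹) * (g * (a' : L) * g⁻¹)⁻¹ = g * ((a' : L) * b * (a' : L)⁻¹) * g⁻¹
        group
      rw [h2]
      exact mem_img_of_mem (cj g) h1
    have hOT : pCore p L ≤ (T : Subgroup L) := by
      haveI : (pCore p L).Normal := inferInstance
      exact (pCore_isPGroup (p := p) (G := L)).le_sylow_of_normal T
    have hDq : IsPGroup q D₂ := by
      have h1 : IsPGroup q D' := D.isPGroup'.map _
      exact h1.of_equiv (isoOf (mulOn_cj g _) (injOn_cj g _))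
    have hDC : D₂ ≤ Subgroup.centralizer ((pCore p L : Subgroup L) : Set L) := by
      intro d hd
      rw [Subgroup.mem_centralizer_iff]
      intro x hx
      have h1 : ⁅x, d⁆ ∈ D₂ := by
        rw [commutatorElement_def]
        exact D₂.mul_mem (hTD x (hOT hx) d hd) (D₂.inv_mem hd)
      have h2 : ⁅x, d⁆ ∈ pCore p L := by
        have h3 : ⁅x, d⁆ = x * (d * x⁻¹ * d⁻¹) := by rw [commutatorElement_def]; group
        rw [h3]
        exact (pCore p L).mul_mem hx ((inferInstance : (pCore p L).Normal).conj_mem _ ((pCore p L).inv_mem hx) d)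
      have h4 : ⁅x, d⁆ = 1 := by
        obtain ⟨a, ha⟩ := hDq ⟨_, h1⟩
        obtain ⟨b, hb⟩ := (pCore_isPGroup (p := p) (G := L)) ⟨_, h2⟩
        have ha' : ⁅x, d⁆ ^ q ^ a = 1 := congrArg Subtype.val ha
        have hb' : ⁅x, d⁆ ^ p ^ b = 1 := congrArg Subtype.val hb
        have h5 : (q ^ a).Coprime (p ^ b) := Nat.Coprime.pow _ _ ((Nat.coprime_primes hq Fact.out).2 hqp)
        rw [← orderOf_eq_one_iff]
        exact Nat.Coprime.eq_one_of_dvd (Nat.Coprime.coprime_dvd_left (orderOf_dvd_of_pow_eq_one ha') h5)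
          (orderOf_dvd_of_pow_eq_one hb')
      rwa [commutatorElement_eq_one_iff_mul_comm] at h4
    have hD1 : D₂ = ⊥ := by
      rw [Subgroup.eq_bot_iff_forall]
      intro d hd
      have h1 := hC (hDC hd)
      obtain ⟨a, ha⟩ := hDq ⟨d, hd⟩
      obtain ⟨b, hb⟩ := (pCore_isPGroup (p := p) (G := L)) ⟨d, h1⟩
      have ha' : d ^ q ^ a = 1 := congrArg Subtype.val ha
      have hb' : d ^ p ^ b = 1 := congrArg Subtype.val hb
      have h5 : (q ^ a).Coprime (p ^ b) := Nat.Coprime.pow _ _ ((Nat.coprime_primes hq Fact.out).2 hqp)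
      rw [← orderOf_eq_one_iff]
      exact Nat.Coprime.eq_one_of_dvd (Nat.Coprime.coprime_dvd_left (orderOf_dvd_of_pow_eq_one ha') h5)
        (orderOf_dvd_of_pow_eq_one hb')
    have hDcard : Nat.card (D : Subgroup ↥K) = 1 := by
      have h1 : Nat.card D' = Nat.card D₂ := (card_img_cj g D').symm
      rw [hD1, Subgroup.card_bot] at h1
      rw [← h1]
      exact (Subgroup.card_map_of_injective K.subtype_injective).symm
    have hqK : ¬ q ∣ Nat.card ↥K := by
      intro h
      have := D.dvd_card_of_dvd_card h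
      rw [hDcard] at this
      exact hq.one_lt.ne' (Nat.dvd_one.1 this)
    have h6 := K.card_mul_index
    rw [← h6, hKidx] at hdvd
    rcases hq.dvd_mul.1 hdvd with h | h
    · exact hqK h
    · exact hqp ((Nat.prime_dvd_prime_iff_eq hq Fact.out).1 (hq.dvd_of_dvd_pow h))
  -- conclusion
  have hcard : Nat.card L = p ^ (Nat.card L).factorization p := by
    apply Nat.eq_of_factorization_eq Nat.card_pos.ne' (pow_ne_zero _ (Fact.out : p.Prime).ne_zero)
    intro q
    rw [(Fact.out : p.Prime).factorization_pow]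
    by_cases hq : q.Prime
    · by_cases hqp : q = p
      · subst hqp; simp
      · rw [Nat.factorization_eq_zero_of_not_dvd (key q hq hqp)]
        simp [Finsupp.single_apply, Ne.symm hqp]
    · rw [Nat.factorization_eq_zero_of_not_prime _ hq]
      have : p ≠ q := by rintro rfl; exact hq Fact.out
      simp [Finsupp.single_apply, this]
  exact IsPGroup.of_card hcard


theorem av_pow_cj {p : ℕ} {Ω : Type*} [Group Ω] {P : Subgroup Ω} {α : MulAut P} {L : Type*} [Group L] {t : Ω → L} {g : L}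
    (hα : ∀ x ∈ P, t (av α x) = g * t x * g⁻¹) : ∀ n : ℕ, ∀ x ∈ P, t (av (α ^ n) x) = g ^ n * t x * (g ^ n)⁻¹ := by
  intro n
  induction n with
  | zero => intro x hx; rw [pow_zero, av_one hx]; group
  | succ n ih =>
    intro x hx
    rw [pow_succ, av_mul _ _ hx, ih _ (av_mem _ hx), hα x hx]
    group

theorem frat_PA {p : ℕ} [Fact p.Prime] {Ω : Type u} [Group Ω] {S : Subgroup Ω} [Finite S] (hS : IsPGroup p S)
    (F : FusionSystem S) (hF : F.IsSaturated p) {Q : Subgroup Ω} (hQ : F.IsNormal Q) (h1 : ∀ s ∈ S, ∀ t ∈ S, ⁅s, t⁆ ∈ Q)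
    (h2 : ∀ H : Subgroup Ω, H ≤ S → H ⊔ Q = S → H = S) (haut : ∀ α : MulAut S, Mor F S (av α) → ∃ k, α ^ p ^ k = 1) :
    PA p F := by
  have hQS := hQ.1
  have hQsc := IsNormal.stronglyClosed hQ
  have hQn := stronglyClosed_le_normalizer hQsc
  obtain ⟨Ω', _, S', t, E', hE', -⟩ := exists_fac_quot hQsc
  haveI := hE'.finite'
  have hS' := hE'.isPGroup hS
  have hE's := hE'.saturated hS hF hQsc
  have hab : ∀ a ∈ S', ∀ b ∈ S', a * b = b * a := by
    intro a ha b hb
    rw [← hE'.img] at ha hb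
    obtain ⟨x, hx, rfl⟩ := (mem_img hE'.mul).1 ha
    obtain ⟨y, hy, rfl⟩ := (mem_img hE'.mul).1 hb
    have h3 := (hE'.ker _ (hQS (h1 x hx y hy))).2 (h1 x hx y hy)
    have h4 : x * y = ⁅x, y⁆ * (y * x) := by rw [commutatorElement_def]; group
    rw [← hE'.mul x hx y hy, h4, hE'.mul _ (hQS (h1 x hx y hy)) _ (S.mul_mem hy hx), h3, one_mul, hE'.mul y hy x hx]
  -- the quotient system
  have hPA' : PA p E' := by
    intro P' α' hα'
    have hP' := hα'.le
    have hcen : S' ≤ centralizerIn S' P' := fun x hx => mem_centralizerIn.2 ⟨hx, fun y hy => hab x hx y (hP' hy)⟩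
    have hfn : E'.IsFullyNormalized P' := by
      refine ⟨hP', fun R hR => ?_⟩
      haveI : Finite (normalizerIn S' P') := finite_of_le inf_le_left
      have e : normalizerIn S' P' = S' := le_antisymm inf_le_left (hcen.trans centralizerIn_le_normalizerIn)
      rw [e]
      exact Subgroup.card_le_of_le inf_le_left
    obtain ⟨-, hrec⟩ := isReceptive_iff.1 ((saturated_fn_iff hS' hE's).1 hfn).2
    obtain ⟨g, hg, hgα⟩ := hrec P' _ hα' (img_av _)
    have hg' : Mor E' S' g := hg.mono (hcen.trans centralizerIn_le_Nf)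
    obtain ⟨-, f, hf, hft⟩ := (hE'.mor S' g).1 hg'
    have hpre : pre S t S' = S := le_antisymm (pre_le hE'.mul) fun x hx => (mem_pre hE'.mul).2 ⟨hx, by
      rw [← hE'.img]; exact mem_img_of_mem t hx⟩
    rw [hpre] at hf hft
    have himg : img f S = S := eq_img_of_card_le f hf.mulOn (fun x hx => hf.mem_S hx) hf.injOn le_rfl
    set β := autOf hf.mulOn hf.injOn himg with hβ
    have hβf : ∀ x ∈ S, av β x = f x := fun x hx => av_autOf _ _ _ hx
    obtain ⟨k, hk⟩ := haut β (hf.congr fun x hx => (hβf x hx).symm)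
    refine ⟨k, aut_ext fun x hx => ?_⟩
    have key : ∀ n : ℕ, ∀ x ∈ S, t x ∈ P' → av (α' ^ n) (t x) = t (av (β ^ n) x) := by
      intro n
      induction n with
      | zero => intro x hx hxP; rw [pow_zero, pow_zero, av_one hx, av_one hxP]
      | succ n ih =>
        intro x hx hxP
        have h5 : av α' (t x) = t (av β x) := by rw [← hgα _ hxP, hft x hx, hβf x hx]
        rw [pow_succ, pow_succ, av_mul _ _ hxP, av_mul _ _ hx, h5]
        exact ih _ (av_mem _ hx) (by rw [← h5]; exact av_mem _ hxP)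
    have hxS' := hP' hx
    rw [← hE'.img] at hxS'
    obtain ⟨y, hy, rfl⟩ := (mem_img hE'.mul).1 hxS'
    rw [key _ y hy hx, hk, av_one hy, av_one hx]
  -- the constrained subsystem
  set R := Q ⊔ centralizerIn S Q with hR
  have hRS : R ≤ S := sup_le hQS inf_le_left
  have hRnorm : S ≤ Subgroup.normalizer (R : Set Ω) := by
    intro s hs
    rw [mem_normalizer_iff_img]
    exact img_sup_centralizer hQS (mor_cj (F := F) hRS hs) (mem_normalizer_iff_img.1 (hQn hs))
  have e : normalizerIn S R = S := inf_eq_left.2 hRnorm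
  haveI : Finite (normalizerIn S R) := finite_of_le inf_le_left
  have hfnR : F.IsFullyNormalized R := by
    refine ⟨hRS, fun U hU => ?_⟩
    rw [e]
    exact Subgroup.card_le_of_le inf_le_left
  have hfnQ : F.IsFullyNormalized Q := by
    refine ⟨hQS, fun U hU => ?_⟩
    have e' : normalizerIn S Q = S := inf_eq_left.2 hQn
    haveI : Finite (normalizerIn S Q) := finite_of_le inf_le_left
    rw [e']
    exact Subgroup.card_le_of_le inf_le_left
  have hRc : F.IsCentric R := centric_sup_centralizer hS hF hfnQ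
  obtain ⟨N, hN⟩ := exists_normalizerSystem F hRS
  obtain ⟨hNs, hNR, hNc⟩ := norm_facts hS hF hfnR hRc hN
  have hNcon := norm_constrained hS hF hfnR hRc hN
  have hNF : ∀ P f, Mor N P f → Mor F P f := fun P f hf => mor_of_norm hN hf
  have hSN : IsPGroup p (normalizerIn S R) := hS.to_le inf_le_left
  have hNQ : N.IsNormal Q := by
    rw [isNormal_iff]
    have hQR : Q ≤ R := le_sup_left
    refine ⟨hQR.trans hNR.1, fun P f hf => ?_⟩
    obtain ⟨g, hg, hgf, hgR⟩ := (isNormal_iff.1 hNR).2 P f hf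
    have hg' := hg.mono (Q := P ⊔ Q) (sup_le_sup_left hQR P)
    exact ⟨g, hg', hgf, stronglyClosed_img_eq hQsc (hQR.trans le_sup_right) (hNF _ _ hg)⟩
  obtain ⟨L, _, j, hL⟩ := model_exists hSN hNcon
  haveI := hL.1
  have hr := hL.2.1
  have hfi := fiso_of_realized hr
  obtain ⟨T, hT⟩ := hL.2.2.1
  have hLp : IsPGroup p L := by
    haveI hQLn : (img (extF j) Q).Normal := by
      refine ⟨fun y hy g => ?_⟩
      obtain ⟨x, hx, rfl⟩ := (mem_img (hfi.mul.mono hNQ.1)).1 hy
      exact model_normal_mem hL hNQ g x hx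
    have hQT : img (extF j) Q ≤ (T : Subgroup L) := by
      rw [hT, ← img_range]
      exact img_mono _ hNQ.1
    refine grp_frat T (img (extF j) Q) hQT ?_ ?_ hL.2.2.2 ?_
    · intro a ha b hb
      rw [hT] at ha hb
      obtain ⟨a, rfl⟩ := ha
      obtain ⟨b, rfl⟩ := hb
      have h3 : ⁅(a : Ω), (b : Ω)⁆ ∈ Q := h1 _ a.2.1 _ b.2.1
      have h4 := mem_img_of_mem (extF j) h3
      have h5 : extF j ⁅(a : Ω), (b : Ω)⁆ = ⁅j a, j b⁆ := by
        have : (⁅(a : Ω), (b : Ω)⁆ : Ω) = ((⁅a, b⁆ : ↥(normalizerIn S R)) : Ω) := rfl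
        rw [this, extF_coe, map_commutatorElement]
      rwa [h5] at h4
    · intro H hHT hHQ
      set H' := pre (normalizerIn S R) (extF j) H with hH'
      have hH'e : H' ⊔ Q = S := by
        apply le_antisymm (sup_le ((pre_le hfi.mul).trans inf_le_left) hQS)
        intro s hs
        have hsN : s ∈ normalizerIn S R := by rw [e]; exact hs
        have h3 : extF j s ∈ H ⊔ img (extF j) Q := by
          rw [hHQ, hT, ← img_range]
          exact mem_img_of_mem _ hsN
        obtain ⟨a, ha, b, hb, hab'⟩ := (CfsgH1.mem_sup_of_le_normalizer (H := H) (K := img (extF j) Q) (by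
          rw [Subgroup.normalizer_eq_top]; exact le_top)).1 h3
        obtain ⟨q, hq, rfl⟩ := (mem_img (hfi.mul.mono hNQ.1)).1 hb
        have hqN := hNQ.1 hq
        have h4 : extF j (s * q⁻¹) = a := by
          rw [hfi.mul _ hsN _ ((normalizerIn S R).inv_mem hqN), hfi.mul.map_inv hqN, ← hab', mul_inv_cancel_right]
        have h5 : s = (s * q⁻¹) * q := by group
        rw [h5]
        refine Subgroup.mul_mem_sup ((mem_pre hfi.mul).2 ⟨(normalizerIn S R).mul_mem hsN ((normalizerIn S R).inv_mem hqN), ?_⟩) hq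
        rw [h4]; exact ha
      have h3 := h2 H' ((pre_le hfi.mul).trans inf_le_left) hH'e
      apply le_antisymm hHT
      intro y hy
      rw [hT] at hy
      obtain ⟨x, rfl⟩ := hy
      have hxS : (x : Ω) ∈ S := x.2.1
      have := ((mem_pre hfi.mul).1 (h3.ge hxS)).2
      rwa [extF_coe] at this
    · -- the normalizer of `T`
      intro g hg
      have hgr : ∀ x ∈ normalizerIn S R, g * extF j x * g⁻¹ ∈ j.range := by
        intro x hx
        rw [← hT]
        refine (Subgroup.mem_normalizer_iff.1 hg _).1 ?_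
        rw [hT, ← img_range]
        exact mem_img_of_mem _ hx
      obtain ⟨f, hf, hfg⟩ := realized_mor hr g le_rfl hgr
      have himg : img f (normalizerIn S R) = normalizerIn S R :=
        eq_img_of_card_le f hf.mulOn (fun x hx => hf.mem_S hx) hf.injOn le_rfl
      have hfF := hNF _ _ hf
      have himg' : img f S = S := by rw [e] at himg; exact himg
      have hfS : Mor F S f := by rw [e] at hfF; exact hfF
      set β := autOf hfS.mulOn hfS.injOn himg' with hβ
      have hβf : ∀ x ∈ S, av β x = f x := fun x hx => av_autOf _ _ _ hx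
      obtain ⟨k, hk⟩ := haut β (hfS.congr fun x hx => (hβf x hx).symm)
      have hpow := av_pow_cj (p := p) (t := extF j) (g := g) (α := β) (fun x hx => by
        rw [hβf x hx, hfg x (by rw [e]; exact hx)]) (p ^ k)
      have hgc : g ^ p ^ k ∈ pCore p L := by
        apply hL.2.2.2
        rw [Subgroup.mem_centralizer_iff]
        intro y hy
        have hOT : pCore p L ≤ (T : Subgroup L) := by
          haveI : (pCore p L).Normal := inferInstance
          exact (pCore_isPGroup (p := p) (G := L)).le_sylow_of_normal T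
        have hyr := hOT hy
        rw [hT] at hyr
        obtain ⟨x, rfl⟩ := hyr
        have hxS : (x : Ω) ∈ S := x.2.1
        have h3 := hpow x hxS
        rw [hk, av_one hxS, extF_coe] at h3
        have h4 : g ^ p ^ k * j x = j x * g ^ p ^ k := by
          conv_rhs => rw [h3]
          group
        exact h4.symm
      obtain ⟨m, hm⟩ := (pCore_isPGroup (p := p) (G := L)) ⟨_, hgc⟩
      have hm' : (g ^ p ^ k) ^ p ^ m = 1 := congrArg Subtype.val hm
      have hgp : IsPGroup p (Subgroup.zpowers g) := isPGroup_zpowers (n := k + m) (by rw [pow_add, pow_mul]; exact hm')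
      have h6 : g ∈ Subgroup.zpowers g ⊓ Subgroup.normalizer ((T : Subgroup L) : Set L) := ⟨Subgroup.mem_zpowers g, hg⟩
      have h7 : g ∈ Subgroup.zpowers g ⊓ (T : Subgroup L) := (hgp.inf_normalizer_sylow T).le h6
      exact h7.2
  have hNPA : PA p N := PA_of_model_pgroup hL hLp
  -- automorphisms of `Q`
  apply PA_of_quot hS hE' hQ hPA'
  intro α hα
  obtain ⟨-, hrec⟩ := isReceptive_iff.1 ((saturated_fn_iff hS hF).1 hfnQ).2
  obtain ⟨g, hg, hgα⟩ := hrec Q _ hα (img_av _)
  have hRNf : R ≤ Nf S Q (av α) hα.mulOn := sup_le (le_Nf hQS (fun x hx => hα.mem_S hx)) centralizerIn_le_Nf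
  have hgR : Mor F R g := hg.mono hRNf
  have hgQ : img g Q = Q := by rw [img_congr hgα, img_av]
  have hgRR : img g R = R := img_sup_centralizer hQS hgR hgQ
  set β := autOf hgR.mulOn hgR.injOn hgRR with hβ
  have hβg : ∀ x ∈ R, av β x = g x := fun x hx => av_autOf _ _ _ hx
  have hgN : Mor N R (av β) := by
    rw [mor_isNormalizerSystem hN]
    refine nkmor_of_stab hRS hRnorm ?_ (img_av _)
    rw [sup_idem]
    exact hgR.congr fun x hx => (hβg x hx).symm
  obtain ⟨k, hk⟩ := hNPA R β hgN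
  refine ⟨k, aut_ext fun x hx => ?_⟩
  have key : ∀ n : ℕ, ∀ x ∈ Q, av (α ^ n) x = av (β ^ n) x := by
    intro n
    induction n with
    | zero => intro x hx; rw [pow_zero, pow_zero, av_one hx, av_one (Subgroup.mem_sup_left hx)]
    | succ n ih =>
      intro x hx
      have h5 : av α x = av β x := by rw [hβg x (Subgroup.mem_sup_left hx), hgα x hx]
      rw [pow_succ, pow_succ, av_mul _ _ hx, av_mul _ _ (Subgroup.mem_sup_left hx), ← h5]
      exact ih _ (av_mem _ hx)
  rw [key _ x hx, hk, av_one (Subgroup.mem_sup_left hx), av_one hx]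

end CfsgH8
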