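import Cfsg.Agent.H8.FunZJ
import Cfsg.Agent.H8.QdFac
import Cfsg.Agent.H8.FusFac3

set_option autoImplicit false
set_option linter.style.haveILetI false
set_option linter.unusedSectionVars false
set_option linter.unusedVariables false

/-! The functor `Z(J)` and `Qd(p)`-free fusion systems. -/

namespace CfsgH8
open Cfsg Cfsg.FusionSystem

universe u v

/-- `Z(J(S))` is normal in `Qd(p)`-free systems -/
theorem zj_normal_free {p : ℕ} [Fact p.Prime] (hp2 : p ≠ 2) {Ω : Type u} [Group Ω] {S : Subgroup Ω} [Finite S]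
    (F : FusionSystem S) (hS : IsPGroup p S) (hF : F.IsSaturated p)
    (hfree : ¬ ∃ (P Q : Subgroup Ω) (f : Ω → Fin 2 → ZMod p), Qd.QdF F P Q f) : F.IsNormal (centerThompsonAOf S) := by
  rw [← WS_ZJA]
  refine Qd.glauberman_functor_normal (fun Q _ => ZJA Q) (fun Q _ _ hQ hn => ZJA_ne_bot () Q hQ hn)
    (fun Q R _ _ _ h φ => ZJA_iso () Q R h φ) ?_ F hS hF hfree
  intro L _ _ P hC hqd
  show (WS (fun Q _ => ZJA Q) (P : Subgroup L)).Normal
  rw [WS_ZJA, CfsgH7.centerThompsonAOf_eq]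
  refine CfsgH7.zj_normal hp2 ((CfsgH7.goodPred_A p).rclass L) P (CfsgH7.stronglyClosed_self _) ?_ ?_
  · intro B _ hB
    exact CfsgH7.pStableOn_of_normalizer (CfsgH7.pstable_of_qd_free hp2 hqd) B hB
  · rw [hC]; exact inf_le_left

theorem zj_ne_bot {p : ℕ} [Fact p.Prime] {Ω : Type u} [Group Ω] {S : Subgroup Ω} [Finite S] (hS : IsPGroup p S) (h1 : S ≠ ⊥) :
    centerThompsonAOf S ≠ ⊥ := by
  rw [← WS_ZJA]
  exact WS_ne_bot (fun Q _ => ZJA Q) (fun Q _ _ hQ hn => ZJA_ne_bot () Q hQ hn) hS h1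

/-- `Qd(p)`-free fusion systems of groups -/
theorem qdF_group {p : ℕ} [Fact p.Prime] {G : Type u} [Group G] [Finite G] {S : Subgroup G}
    (h : ∃ (P Q : Subgroup G) (f : G → Fin 2 → ZMod p), Qd.QdF (groupFusionSystem S) P Q f) : Involves (qd p) G := by
  obtain ⟨P, Q, f, h1, h2, h3, h4, h5⟩ := h
  have : Qd.QdG Q f := by
    refine ⟨h3, h4, fun A => ?_⟩
    obtain ⟨χ, hχ, hP, hQ, hA⟩ := h5 A
    obtain ⟨-, -, g, hg⟩ := mor_group.1 hχ
    refine ⟨g, ?_, fun x hx => ?_⟩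
    · rw [mem_normalizer_iff_img, ← img_congr (f := χ) (g := cj g) (fun x hx => hg x (h1 hx)), hQ]
    · rw [← hA x hx, hg x (h1 hx)]
  exact this.involves

/-- `Qd(p)`-free systems are solvable -/
theorem solvable_of_free {p : ℕ} [Fact p.Prime] (hp2 : p ≠ 2) {Ω : Type u} [Group Ω] {S : Subgroup Ω} [Finite S]
    (F : FusionSystem S) (hS : IsPGroup p S) (hF : F.IsSaturated p)
    (hfree : ¬ ∃ (P Q : Subgroup Ω) (f : Ω → Fin 2 → ZMod p), Qd.QdF F P Q f) : F.IsSolvableSystem := by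
  intro R hR hne hRn E hE hcore
  rw [isFactorSystem_iff] at hE
  haveI := hE.finite'
  have hp' := hE.isPGroup hS
  have hs' := hE.saturated hS hF hR
  have h1 := zj_normal_free hp2 E hp' hs' (by
    rintro ⟨P, Q, f, h⟩
    exact hfree ⟨_, _, _, Qd.QdF.lift hE h⟩)
  have h2 := IsNormal.le_core h1
  rw [hcore, le_bot_iff] at h2
  refine zj_ne_bot hp' ?_ h2
  intro h3
  apply hne
  apply le_antisymm hR.1
  intro s hs
  have h4 : (QuotientGroup.mk' (R.subgroupOf S) ⟨s, hs⟩ : ↥S ⧸ R.subgroupOf S) ∈ (⊤ : Subgroup (↥S ⧸ R.subgroupOf S)) := trivial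
  rw [h3, Subgroup.mem_bot] at h4
  have h5 := (QuotientGroup.eq_one_iff _).1 h4
  exact Subgroup.mem_subgroupOf.1 h5

end CfsgH8
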