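import Cfsg.Agent.H8.ResLim
import Cfsg.Agent.H3.NPC

set_option autoImplicit false
set_option linter.style.haveILetI false
set_option linter.unusedSectionVars false
set_option linter.unusedVariables false

/-! The hyperfocal subgroup theorem for groups. -/

namespace CfsgH8
open Cfsg Cfsg.FusionSystem
open scoped commutatorElement

universe u v

variable {G : Type u} [Group G] [Finite G] {p : ℕ} [hp : Fact p.Prime] {S : Subgroup G}

/-- `p'`-automorphisms are induced by `p'`-elements -/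
theorem coprime_aut_lift {P : Subgroup G} {α : MulAut P} (hαp : Nat.Coprime (orderOf α) p) {g : G}
    (hα : ∀ x ∈ P, av α x = g * x * g⁻¹) : ∃ h : G, h ∈ Subgroup.zpowers g ∧ Nat.Coprime (orderOf h) p ∧ ∀ x ∈ P, av α x = h * x * h⁻¹ := by
  have hpow : ∀ n : ℕ, ∀ x ∈ P, av (α ^ n) x = g ^ n * x * (g ^ n)⁻¹ := by
    intro n
    induction n with
    | zero => intro x hx; rw [pow_zero, av_one hx]; group
    | succ n ih =>
      intro x hx
      rw [pow_succ, av_mul _ _ hx, hα x hx, ih _ (by rw [← hα x hx]; exact av_mem _ hx)]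
      group
  obtain ⟨k, hk⟩ := exists_pow_coprime (p := p) g
  obtain ⟨m, hm⟩ := exists_pow_eq_self_of_coprime (n := p ^ k) (x := α) (Nat.Coprime.pow_left k hαp.symm)
  refine ⟨(g ^ p ^ k) ^ m, Subgroup.pow_mem _ (Subgroup.pow_mem _ (Subgroup.mem_zpowers g) _) _,
    Nat.Coprime.of_dvd_left (orderOf_pow_dvd m) hk, fun x hx => ?_⟩
  rw [← pow_mul, ← hpow _ x hx, pow_mul, hm]

theorem hyp_le_residual {H T : Subgroup G} (hTH : T ≤ H) :
    (fusionSystemOfSubgroup H T hTH).hyperfocalSubgroup p ≤ (pResidual p ↥H).map H.subtype := by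
  apply hyp_le_of_coprime
  intro P α hα hαp x hx
  obtain ⟨hPT, -, g, hg, h1⟩ := (mor_subgroup hTH).1 hα
  obtain ⟨h, hh, hhp, h2⟩ := coprime_aut_lift hαp h1
  have hhH : h ∈ H := (Subgroup.zpowers_le.2 hg) hh
  have hxH : x ∈ H := hTH (hPT hx)
  haveI hn := CfsgH3.pResidual_normal' p ↥H
  have h3 : (⟨h, hhH⟩ : ↥H) ∈ pResidual p ↥H := by
    apply Subgroup.subset_closure
    show Nat.Coprime (orderOf (⟨h, hhH⟩ : ↥H)) p
    rwa [Subgroup.orderOf_mk]
  refine ⟨⟨x, hxH⟩⁻¹ * ⟨h, hhH⟩ * ⟨x, hxH⟩ * ⟨h, hhH⟩⁻¹, ?_, ?_⟩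
  · apply Subgroup.mul_mem _ _ (Subgroup.inv_mem _ h3)
    have := hn.conj_mem _ h3 (⟨x, hxH⟩ : ↥H)⁻¹
    rwa [inv_inv] at this
  · rw [h2 x hx]
    show x⁻¹ * h * x * h⁻¹ = x⁻¹ * (h * x * h⁻¹)
    group

theorem foc_eq_of_residual {H T : Subgroup G} (hT : IsSyl p T H) (hH : pResidual p ↥H = ⊤) :
    T ≤ (fusionSystemOfSubgroup H T hT.1).focalSubgroup := by
  obtain ⟨-, Q, hQ⟩ := isSyl_iff_sylow.1 hT
  have h1 := CfsgH3.focal_eq_of_pResidual hH Q
  intro t ht
  have h2 : (⟨t, hT.1 ht⟩ : ↥H) ∈ (Q : Subgroup ↥H).focalSubgroup := by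
    rw [h1, hQ]; exact ht
  have h3 : (Q : Subgroup ↥H).focalSubgroup ≤ ((fusionSystemOfSubgroup H T hT.1).focalSubgroup).comap H.subtype := by
    rw [Subgroup.focalSubgroup_def, Subgroup.closure_le]
    rintro _ ⟨hg, x, hx, u, rfl⟩
    rw [hQ] at hg hx
    have hx' : (x : G) ∈ T := hx
    have hux : (u : G) * (x : G)⁻¹ * (u : G)⁻¹ ∈ T := by
      have h4 : ((⁅x, u⁆ : ↥H) : G) ∈ T := hg
      have h5 := T.mul_mem (T.inv_mem hx') h4
      rw [commutatorElement_def] at h5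
      have h6 : (x : G)⁻¹ * ((x * u * x⁻¹ * u⁻¹ : ↥H) : G) = (u : G) * (x : G)⁻¹ * (u : G)⁻¹ := by
        simp only [Subgroup.coe_mul, Subgroup.coe_inv]; group
      rwa [h6] at h5
    have hm : Mor (fusionSystemOfSubgroup H T hT.1) (Subgroup.zpowers (x : G)⁻¹) (cj (u : G)) := by
      refine (mor_subgroup hT.1).2 ⟨Subgroup.zpowers_le.2 (T.inv_mem hx'), ?_, u, u.2, fun y _ => rfl⟩
      intro y hy
      obtain ⟨k, rfl⟩ := Subgroup.mem_zpowers_iff.1 hy
      have h7 : cj (u : G) ((x : G)⁻¹ ^ k) = ((u : G) * (x : G)⁻¹ * (u : G)⁻¹) ^ k := by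
        show (u : G) * (x : G)⁻¹ ^ k * (u : G)⁻¹ = _
        rw [conj_zpow]
      rw [h7]
      exact T.zpow_mem hux k
    have h8 := foc_mem hm (Subgroup.mem_zpowers (x : G)⁻¹)
    show ((⁅x, u⁆ : ↥H) : G) ∈ (fusionSystemOfSubgroup H T hT.1).focalSubgroup
    have h9 : ((⁅x, u⁆ : ↥H) : G) = ((x : G)⁻¹)⁻¹ * cj (u : G) (x : G)⁻¹ := by
      rw [commutatorElement_def]
      show ((x * u * x⁻¹ * u⁻¹ : ↥H) : G) = ((x : G)⁻¹)⁻¹ * ((u : G) * (x : G)⁻¹ * (u : G)⁻¹)
      simp only [Subgroup.coe_mul, Subgroup.coe_inv]; group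
    rw [h9]; exact h8
  exact h3 h2

theorem hyp_eq_of_foc {Ω : Type u} [Group Ω] {S : Subgroup Ω} {F : FusionSystem S} [Finite S] (hS : IsPGroup p S)
    (hF : F.IsSaturated p) (h : S ≤ F.focalSubgroup) : F.hyperfocalSubgroup p = S := by
  apply le_antisymm hyp_le
  rw [foc_eq hS hF] at h
  haveI : Group.IsNilpotent ↥S := hS.isNilpotent
  have h1 : (F.hyperfocalSubgroup p).subgroupOf S ⊔ frattini ↥S = ⊤ := by
    rw [eq_top_iff]
    rintro s -
    have h2 : (s : Ω) ∈ ((F.hyperfocalSubgroup p).subgroupOf S ⊔ frattini ↥S).map S.subtype := by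
      rw [Subgroup.map_sup, Subgroup.subgroupOf_map_subtype, inf_eq_left.2 (hyp_le (F := F) (p := p))]
      have h3 : ⁅S, S⁆ ≤ (frattini ↥S).map S.subtype := by
        have h4 : ⁅S, S⁆ = (commutator ↥S).map S.subtype := by
          rw [commutator_def, Subgroup.map_commutator, ← MonoidHom.range_eq_map, Subgroup.range_subtype]
        rw [h4]
        exact Subgroup.map_mono CfsgH1.commutator_le_frattini
      exact (sup_le_sup_left h3 _) (h s.2)
    obtain ⟨y, hy, hys⟩ := h2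
    have : y = s := Subtype.ext hys
    rwa [← this]
  have h2 := CfsgH1.eq_top_of_sup_frattini le_rfl h1
  exact Subgroup.subgroupOf_eq_top.1 h2

theorem grp_sub {S H T : Subgroup G} (hTH : T ≤ H) (hTS : T ≤ S) :
    (fusionSystemOfSubgroup H T hTH).IsSubsystemOf (groupFusionSystem S) := by
  apply isSubsystemOf_of_mor
  intro P f hf
  obtain ⟨h1, h2, g, -, h3⟩ := (mor_subgroup hTH).1 hf
  exact mor_group.2 ⟨h1.trans hTS, fun x hx => hTS (h2 x hx), g, h3⟩

/-- Hyperfocal subgroup theorem -/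
theorem grp_hyp (S : Sylow p G) : (groupFusionSystem (S : Subgroup G)).hyperfocalSubgroup p = (S : Subgroup G) ⊓ pResidual p G := by
  haveI hn := CfsgH3.pResidual_normal' p G
  apply le_antisymm
  · refine le_inf hyp_le ?_
    apply hyp_le_of_coprime
    intro P α hα hαp x hx
    obtain ⟨hPT, -, g, h1⟩ := mor_group.1 hα
    obtain ⟨h, hh, hhp, h2⟩ := coprime_aut_lift hαp h1
    have h3 : h ∈ pResidual p G := Subgroup.subset_closure hhp
    rw [h2 x hx]
    have h4 : x⁻¹ * (h * x * h⁻¹) = (x⁻¹ * h * x⁻¹⁻¹) * h⁻¹ := by group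
    rw [h4]
    exact Subgroup.mul_mem _ (hn.conj_mem _ h3 _) (Subgroup.inv_mem _ h3)
  · have hSyl : IsSyl p ((S : Subgroup G) ⊓ pResidual p G) (pResidual p G) := by
      have h1 : IsSyl p (S : Subgroup G) ⊤ := isSyl_sylow S
      exact h1.inf_normal le_top (by rw [Subgroup.normalizer_eq_top])
    have h1 := foc_eq_of_residual hSyl (CfsgH3.pResidual_pResidual p G)
    have hsat := subgroup_saturated (p := p) hSyl.1 hSyl
    have h2 := hyp_eq_of_foc hSyl.2.1 hsat h1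
    have h3 := hyp_mono (p := p) (grp_sub (S := (S : Subgroup G)) hSyl.1 inf_le_left)
    rw [h2] at h3
    exact h3

end CfsgH8
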