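import Cfsg.Agent.H8.PPow1
import Cfsg.Agent.H8.FusFac3
import Cfsg.Agent.H8.FusMod

set_option autoImplicit false
set_option linter.style.haveILetI false
set_option linter.unusedSectionVars false
set_option linter.unusedVariables false

/-! Hyperfocal subgroups and strongly closed subgroups. -/

namespace CfsgH8
open Cfsg Cfsg.FusionSystem

universe u v

variable {Ω : Type u} [Group Ω] {S T P Q : Subgroup Ω} {F : FusionSystem S} {p : ℕ} {f : Ω → Ω}

/-- `p'`-automorphisms lift modulo a strongly closed subgroup -/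
theorem lift_coprime [Finite S] [hp : Fact p.Prime] (hS : IsPGroup p S) (hF : F.IsSaturated p) (hT : F.StronglyClosed T)
    {α : MulAut P} (hα : Mor F P (av α)) (hαp : Nat.Coprime (orderOf α) p) :
    ∃ ψ : MulAut ↥(P ⊔ T), Mor F (P ⊔ T) (av ψ) ∧ Nat.Coprime (orderOf ψ) p ∧ ∀ x ∈ P, (av α x)⁻¹ * av ψ x ∈ T := by
  have hPS := hα.le
  have hTS := hT.1
  have hPT : P ⊔ T ≤ S := sup_le hPS hTS
  haveI : Finite ↥(P ⊔ T) := finite_of_le hPT
  haveI : Finite (MulAut ↥(P ⊔ T)) := finite_mulAut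
  haveI := finite_of_le hPS
  have hTn := stronglyClosed_le_normalizer hT
  obtain ⟨-, g, hg, h1⟩ := modMor_of_mor hS hF hT P _ hα
  have hgT : ∀ x ∈ T, g x ∈ T := fun x hx => (stronglyClosed_iff.1 hT).2 _ g hg x (Subgroup.mem_sup_right hx) hx
  have hgm : ∀ x ∈ P ⊔ T, g x ∈ P ⊔ T := by
    apply forall_mem_sup hg.mulOn
    · intro x hx
      have h2 : g x = av α x * ((av α x)⁻¹ * g x) := by group
      rw [h2]
      exact Subgroup.mul_mem _ (Subgroup.mem_sup_left (av_mem _ hx)) (Subgroup.mem_sup_right (h1 x hx))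
    · intro x hx
      exact Subgroup.mem_sup_right (hgT x hx)
  have himg : img g (P ⊔ T) = P ⊔ T := eq_img_of_card_le g hg.mulOn hgm hg.injOn le_rfl
  set ψ₀ := autOf hg.mulOn hg.injOn himg with hψ₀
  have hψ₀' : ∀ x ∈ P ⊔ T, av ψ₀ x = g x := fun x hx => av_autOf _ _ _ hx
  have hψ₀F : ψ₀ ∈ F.autGroup (P ⊔ T) := autOf_mem hg himg
  have hn : ∀ s ∈ S, ∀ t ∈ T, s⁻¹ * t * s ∈ T := fun s hs t ht => by
    have := (Subgroup.mem_normalizer_iff.1 (hTn (S.inv_mem hs)) t).1 ht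
    rwa [inv_inv] at this
  have hpow : ∀ n : ℕ, ∀ x ∈ P, (av (α ^ n) x)⁻¹ * av (ψ₀ ^ n) x ∈ T := by
    intro n
    induction n with
    | zero => intro x hx; rw [pow_zero, pow_zero, av_one hx, av_one (Subgroup.mem_sup_left hx), inv_mul_cancel]; exact T.one_mem
    | succ n ih =>
      intro x hx
      have h2 := ih x hx
      have h3 : av (α ^ n) x ∈ P := av_mem _ hx
      rw [pow_succ', pow_succ', av_mul _ _ hx, av_mul _ _ (Subgroup.mem_sup_left hx)]
      have h4 : av (ψ₀ ^ n) x = av (α ^ n) x * ((av (α ^ n) x)⁻¹ * av (ψ₀ ^ n) x) := by group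
      rw [h4, mulOn_av ψ₀ _ (Subgroup.mem_sup_left h3) _ (Subgroup.mem_sup_right h2), hψ₀' _ (Subgroup.mem_sup_left h3),
        hψ₀' _ (Subgroup.mem_sup_right h2), ← mul_assoc]
      exact T.mul_mem (h1 _ h3) (hgT _ h2)
  obtain ⟨k, hk⟩ := exists_pow_coprime (p := p) ψ₀
  obtain ⟨m, hm⟩ := exists_pow_eq_self_of_coprime (n := p ^ k) (x := α) (Nat.Coprime.pow_left k hαp.symm)
  refine ⟨(ψ₀ ^ p ^ k) ^ m, (mem_autGroup hPT).1 (Subgroup.pow_mem _ (Subgroup.pow_mem _ hψ₀F _) _),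
    Nat.Coprime.of_dvd_left (orderOf_pow_dvd m) hk, fun x hx => ?_⟩
  have h5 := hpow (p ^ k * m) x hx
  rwa [pow_mul, pow_mul, hm] at h5

/-- S5198 -/
theorem hyp_act [Finite S] [hp : Fact p.Prime] (hS : IsPGroup p S) (hF : F.IsSaturated p) (hT : F.StronglyClosed T) :
    ∀ x ∈ F.hyperfocalSubgroup p, ∃ α ∈ OpAut F p T ⊔ Inn T, ∀ t ∈ T, av α t = x * t * x⁻¹ := by
  have hTS := hT.1
  have hTn := stronglyClosed_le_normalizer hT
  haveI : Finite T := finite_of_le hTS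
  let K : Subgroup Ω :=
    { carrier := {x | ∃ α ∈ OpAut F p T ⊔ Inn T, ∀ t ∈ T, av α t = x * t * x⁻¹}
      one_mem' := ⟨1, Subgroup.one_mem _, fun t ht => by rw [av_one ht]; group⟩
      mul_mem' := by
        rintro a b ⟨α, hα, h1⟩ ⟨β, hβ, h2⟩
        refine ⟨α * β, Subgroup.mul_mem _ hα hβ, fun t ht => ?_⟩
        rw [av_mul _ _ ht, h1 _ (av_mem _ ht), h2 t ht]; group
      inv_mem' := by
        rintro a ⟨α, hα, h1⟩
        refine ⟨α⁻¹, Subgroup.inv_mem _ hα, fun t ht => ?_⟩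
        have h2 := h1 _ (av_mem α⁻¹ ht)
        rw [av_inv' _ ht] at h2
        have h3 : a⁻¹ * t * a⁻¹⁻¹ = a⁻¹ * (a * av α⁻¹ t * a⁻¹) * a⁻¹⁻¹ := by rw [← h2]
        rw [h3]; group }
  have hTK : T ≤ K := by
    intro x hx
    refine ⟨cjAut T x (Subgroup.le_normalizer hx), Subgroup.mem_sup_right (mem_Inn.2 ⟨x, hx, fun y hy => av_cjAut _ hy⟩), fun t ht => av_cjAut _ ht⟩
  have h1 : F.hyperfocalSubgroup p ≤ K := by
    apply hyp_le_of_coprime
    intro P α hα hαp x hx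
    obtain ⟨ψ, hψ, hψp, h2⟩ := lift_coprime hS hF hT hα hαp
    have hPS := hα.le
    have hPT : P ⊔ T ≤ S := sup_le hPS hTS
    have h3 : x⁻¹ * av ψ x ∈ K := by
      obtain ⟨θ, hθ, hθ'⟩ := OpAut_restr (Q := T) le_sup_right hPT hψ hψp
        (fun y hy => (stronglyClosed_iff.1 hT).2 _ _ hψ y (Subgroup.mem_sup_right hy) hy)
      -- conjugation by x on T
      have hxS : x ∈ S := hPS hx
      set c := cjAut T x (hTn hxS) with hc
      have hcF : c ∈ F.autGroup T := (mem_autGroup hTS).2 ((mor_cj hTS hxS).congr fun y hy => (av_cjAut (hTn hxS) hy).symm)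
      have hnorm : c⁻¹ * θ * c ∈ OpAut F p T := by
        obtain ⟨θ', hθ'', hθe⟩ := hθ
        have hn : (pResidual p (F.autGroup T)).Normal := pResidual_normal'
        have h4 := hn.conj_mem θ' hθ'' (⟨c, hcF⟩ : F.autGroup T)⁻¹
        refine ⟨_, h4, ?_⟩
        rw [← hθe]
        simp
      refine ⟨c⁻¹ * θ * c * θ⁻¹, Subgroup.mem_sup_left (Subgroup.mul_mem _ hnorm (Subgroup.inv_mem _ hθ)), fun t ht => ?_⟩
      have hθi : av θ⁻¹ t ∈ T := av_mem _ ht
      have h5 : av c (av θ⁻¹ t) = x * av θ⁻¹ t * x⁻¹ := av_cjAut (hTn hxS) hθi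
      have h6 : x * av θ⁻¹ t * x⁻¹ ∈ T := by rw [← h5]; exact av_mem _ hθi
      have h7 : av θ (x * av θ⁻¹ t * x⁻¹) = av ψ x * t * (av ψ x)⁻¹ := by
        rw [hθ' _ h6, mulOn_av ψ _ (Subgroup.mul_mem _ (Subgroup.mem_sup_left hx) (Subgroup.mem_sup_right hθi)) _
          (Subgroup.inv_mem _ (Subgroup.mem_sup_left hx)), mulOn_av ψ _ (Subgroup.mem_sup_left hx) _ (Subgroup.mem_sup_right hθi),
          (mulOn_av ψ).map_inv (Subgroup.mem_sup_left hx), ← hθ' _ hθi, av_inv' _ ht]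
      have h8 : av ψ x * t * (av ψ x)⁻¹ ∈ T := by rw [← h7]; exact av_mem _ h6
      rw [av_mul _ _ ht, av_mul _ _ hθi, av_mul _ _ (av_mem _ hθi), h5, h7]
      -- c⁻¹ y = x⁻¹ y x
      have h9 : x⁻¹ * (av ψ x * t * (av ψ x)⁻¹) * x ∈ T := by
        have := (Subgroup.mem_normalizer_iff.1 (hTn (S.inv_mem hxS)) _).1 h8
        rwa [inv_inv] at this
      have h10 : av c (x⁻¹ * (av ψ x * t * (av ψ x)⁻¹) * x) = av ψ x * t * (av ψ x)⁻¹ := by
        rw [av_cjAut (hTn hxS) h9]; group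
      rw [← h10, av_inv _ h9]
      group
    have h4 : x⁻¹ * av α x = x⁻¹ * av ψ x * ((av α x)⁻¹ * av ψ x)⁻¹ := by group
    rw [h4]
    exact K.mul_mem h3 (K.inv_mem (hTK (h2 x hx)))
  exact fun x hx => h1 hx

section fac
variable {Ω' : Type v} [Group Ω'] {S' : Subgroup Ω'} {t : Ω → Ω'} {E : FusionSystem S'}

/-- S5256 -/
theorem hyp_fac [Finite S] [hp : Fact p.Prime] (hS : IsPGroup p S) (hF : F.IsSaturated p) (hT : F.StronglyClosed T)
    (h : Fac F T t E) : E.hyperfocalSubgroup p = img t (F.hyperfocalSubgroup p) := by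
  have hTS := hT.1
  have hmulH : MulOn (F.hyperfocalSubgroup p) t := h.mul.mono hyp_le
  apply le_antisymm
  · apply hyp_le_of_coprime
    intro P' α' hα' hαp' y hy
    have hP'S := hα'.le
    set Q := pre S t P' with hQ
    have hQS : Q ≤ S := pre_le h.mul
    have h0Q : T ≤ Q := h.le_pre
    have himg : CfsgH8.img t Q = P' := h.img_pre hP'S
    haveI := finite_autGroup F Q
    have h1 : α' ∈ E.autGroup P' := (mem_autGroup hP'S).2 hα'
    have key : ∀ (P'' : Subgroup Ω') (e : P'' = P') (β : MulAut P''), β ∈ E.autGroup P'' → Nat.Coprime (orderOf β) p →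
        P'' = CfsgH8.img t Q → ∀ y ∈ P'', y⁻¹ * av β y ∈ CfsgH8.img t (F.hyperfocalSubgroup p) := by
      rintro P'' - β hβ hβp rfl y hy
      rw [← h.qAut_range hT h0Q hQS] at hβ
      obtain ⟨γ, rfl⟩ := hβ
      obtain ⟨k, hk⟩ := exists_pow_coprime (p := p) γ
      obtain ⟨m, hm⟩ := exists_pow_eq_self_of_coprime (n := p ^ k) (x := h.qAut hT h0Q hQS γ) (Nat.Coprime.pow_left k hβp.symm)
      have h2 : h.qAut hT h0Q hQS ((γ ^ p ^ k) ^ m) = h.qAut hT h0Q hQS γ := by rw [map_pow, map_pow, hm]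
      obtain ⟨x, hx, rfl⟩ := (mem_img (h.mul.mono hQS)).1 hy
      have h3 := h.av_qAut hT h0Q hQS ((γ ^ p ^ k) ^ m) hx
      rw [h2] at h3
      rw [h3]
      have h4 : Nat.Coprime (orderOf ((γ ^ p ^ k) ^ m)) p := Nat.Coprime.of_dvd_left (orderOf_pow_dvd m) hk
      have h5 : (((γ ^ p ^ k) ^ m : F.autGroup Q) : MulAut Q) ∈ OpAut F p Q := by
        apply mem_OpAut ((γ ^ p ^ k) ^ m).2
        rwa [Subgroup.orderOf_coe]
      have h6 := hyp_mem hQS h5 hx
      have h7 := mem_img_of_mem t h6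
      rw [h.mul _ (S.inv_mem (hQS hx)) _ (hQS (av_mem _ hx)), h.mul.map_inv (hQS hx)] at h7
      exact h7
    exact key P' rfl α' h1 hαp' himg.symm y hy
  · refine img_le.2 ?_
    have h1 : F.hyperfocalSubgroup p ≤ pre S t (E.hyperfocalSubgroup p) := by
      apply hyp_le_of_coprime
      intro P α hα hαp x hx
      obtain ⟨ψ, hψ, hψp, h2⟩ := lift_coprime hS hF hT hα hαp
      have hPS := hα.le
      have hPT : P ⊔ T ≤ S := sup_le hPS hTS
      haveI := finite_autGroup F (P ⊔ T)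
      have hψF : ψ ∈ F.autGroup (P ⊔ T) := (mem_autGroup hPT).2 hψ
      refine (mem_pre h.mul).2 ⟨S.mul_mem (S.inv_mem (hPS hx)) (hα.mem_S hx), ?_⟩
      have h3 : h.qAut hT le_sup_right hPT ⟨ψ, hψF⟩ ∈ E.autGroup (CfsgH8.img t (P ⊔ T)) := by
        rw [← h.qAut_range hT le_sup_right hPT]; exact ⟨_, rfl⟩
      have h4 : Nat.Coprime (orderOf (h.qAut hT le_sup_right hPT ⟨ψ, hψF⟩)) p := by
        refine Nat.Coprime.of_dvd_left (orderOf_map_dvd _ _) ?_
        rwa [Subgroup.orderOf_mk]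
      have h5 := hyp_mem (h.img_le hPT) (mem_OpAut h3 h4) (mem_img_of_mem t (Subgroup.mem_sup_left hx : x ∈ P ⊔ T))
      rw [h.av_qAut hT le_sup_right hPT _ (Subgroup.mem_sup_left hx)] at h5
      have h6 : t (av α x) = t (av ψ x) := (h.eq_iff (hα.mem_S hx) (hψ.mem_S (Subgroup.mem_sup_left hx))).2 (h2 x hx)
      rw [h.mul _ (S.inv_mem (hPS hx)) _ (hα.mem_S hx), h.mul.map_inv (hPS hx), h6]
      exact h5
    intro x hx
    exact ((mem_pre h.mul).1 (h1 hx)).2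

end fac

end CfsgH8
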