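import Cfsg.Agent.H8.JVGrp
import Cfsg.Agent.H8.JCen

set_option autoImplicit false
set_option linter.style.haveILetI false
set_option linter.unusedSectionVars false
set_option linter.unusedVariables false

/-! Factorization `F = ⟨C_F(℧¹ Z(S)), N_F(J(S))⟩`. -/

namespace CfsgH8
open Cfsg Cfsg.FusionSystem
open scoped commutatorElement

universe u v

/-- `℧¹(Z(S))` -/
def VZ {Ω : Type*} [Group Ω] (p : ℕ) (S : Subgroup Ω) : Subgroup Ω := powerClosure p 1 (S ⊓ Subgroup.centralizer (S : Set Ω))

theorem mem_VZ {Ω : Type*} [Group Ω] {p : ℕ} {S : Subgroup Ω} {x : Ω} :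
    x ∈ VZ p S ↔ ∃ y ∈ S, (∀ s ∈ S, s * y = y * s) ∧ y ^ p = x := by
  constructor
  · intro hx
    apply exists_pow_of_closure
    refine Subgroup.closure_mono ?_ hx
    rintro _ ⟨y, hy, rfl⟩
    exact ⟨y, hy, by simp⟩
  · rintro ⟨y, hy, hyc, rfl⟩
    apply Subgroup.subset_closure
    exact ⟨y, ⟨hy, Subgroup.mem_centralizer_iff.2 hyc⟩, by simp⟩

theorem VZ_le {Ω : Type*} [Group Ω] {p : ℕ} {S : Subgroup Ω} : VZ p S ≤ S := by
  intro x hx
  obtain ⟨y, hy, -, rfl⟩ := mem_VZ.1 hx
  exact S.pow_mem hy p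

theorem VZ_central {Ω : Type*} [Group Ω] {p : ℕ} {S : Subgroup Ω} : ∀ x ∈ VZ p S, ∀ s ∈ S, s * x = x * s := by
  intro x hx s hs
  obtain ⟨y, hy, hyc, rfl⟩ := mem_VZ.1 hx
  exact (show Commute s y from hyc s hs).pow_right p

/-- `C_Q(J(Q)) ≤ J(Q)` -/
theorem JF_cent {Q : Type u} [Group Q] [Finite Q] {x : Q} (hx : ∀ w ∈ JF Q, x * w = w * x) : x ∈ JF Q := by
  obtain ⟨A, hA⟩ := exists_MFA (⊤ : Subgroup Q)
  have hAJ : A ≤ JF Q := by
    show A ≤ thompsonSubgroupA Q
    unfold thompsonSubgroupA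
    rw [CfsgH7.maxAb_eq]
    exact le_sSup hA
  have h1 : Subgroup.zpowers x ≤ A := by
    apply MFA_absorb hA le_top
    · rintro _ ⟨k, rfl⟩ _ ⟨l, rfl⟩
      show x ^ k * x ^ l = x ^ l * x ^ k
      rw [← zpow_add, ← zpow_add, add_comm]
    · rintro a ha _ ⟨k, rfl⟩
      have h2 : Commute x a := hx a (hAJ ha)
      exact (h2.zpow_left k).eq.symm
  exact hAJ (h1 (Subgroup.mem_zpowers x))

theorem WS_JF_cent {Ω : Type u} [Group Ω] {R : Subgroup Ω} [Finite R] {x : Ω} (hxR : x ∈ R)
    (hx : ∀ w ∈ WS JF R, x * w = w * x) : x ∈ WS JF R := by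
  refine ⟨⟨x, hxR⟩, ?_, rfl⟩
  show (⟨x, hxR⟩ : ↥R) ∈ JF ↥R
  apply JF_cent
  intro w hw
  exact Subtype.ext (hx w ⟨w, hw, rfl⟩)

theorem jv_fus {p : ℕ} [Fact p.Prime] : ∀ n : ℕ, ∀ {Ω : Type u} [Group Ω] {S : Subgroup Ω} [Finite S] (F : FusionSystem S),
    IsPGroup p S → F.IsSaturated p → (mset F).ncard = n → ∀ {T : Subgroup Ω} (E : FusionSystem T), S ≤ T →
      (∀ P f, NKMor F (WS JF S) ⊤ P f → Mor E P f) →
      (∀ P f, Mor F (P ⊔ VZ p S) f → (∀ y ∈ VZ p S, f y = y) → Mor E P f) → ∀ P f, Mor F P f → Mor E P f := by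
  intro n
  induction n using Nat.strong_induction_on with
  | _ n ih =>
  intro Ω _ S _ F hS hF hn T E hST hJE hVE
  have hWS : WS JF S ≤ S := WS_le JF S
  have hWSn := le_normalizer_WS JF JF_iso hS
  set E' := (resData E hST).fs with hE'
  have hJE' : ∀ P f, NKMor F (WS JF S) ⊤ P f → Mor E' P f := by
    intro P f hf
    exact mor_res.2 ⟨hf.mor.le, fun x hx => hf.mor.mem_S hx, hJE P f hf⟩
  have hVE' : ∀ P f, Mor F (P ⊔ VZ p S) f → (∀ y ∈ VZ p S, f y = y) → Mor E' P f := by
    intro P f hf h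
    have hfP := hf.mono (Q := P) le_sup_left
    exact mor_res.2 ⟨hfP.le, fun x hx => hfP.mem_S hx, hVE P f hf h⟩
  suffices hsuf : ∀ P f, Mor F P f → Mor E' P f from fun P f hf => (mor_res.1 (hsuf P f hf)).2.2
  have hcoreN := core_normal F
  by_cases hC : centralizerIn S F.core ≤ F.core
  · -- constrained
    have hcon : F.IsConstrained p := by
      refine ⟨hF, F.core, hcoreN, hcoreN.1, fun Q hQ => ?_⟩
      obtain ⟨f, hf, rfl⟩ := isConj_iff.1 hQ
      rw [stronglyClosed_img_eq (IsNormal.stronglyClosed hcoreN) le_rfl hf]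
      exact hC
    obtain ⟨L, _, j, hL⟩ := model_exists hS hcon
    haveI := hL.1
    have hr := hL.2.1
    have hfi := fiso_of_realized hr
    obtain ⟨T', hT'⟩ := hL.2.2.1
    have e1 : WS JF j.range = img (extF j) (WS JF S) := by
      rw [WS_range JF JF_iso hS hr.1, img_extF_eq (WS_le JF S)]
      congr 1
      exact (Subgroup.comap_map_eq_self_of_injective S.subtype_injective _).symm
    have hmemr : ∀ x ∈ S, extF j x ∈ j.range := fun x hx => by rw [extF_of_mem _ hx]; exact ⟨_, rfl⟩
    have key := jv_group JF JF_iso (fun G _ _ P hP => J_quad G P hP) _ L T'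
      (fun P' g => ∀ P f, P ≤ S → img (extF j) P = P' → Mor F P f → (∀ x ∈ P, extF j (f x) = g * extF j x * g⁻¹) → Mor E' P f)
      rfl hL.2.2.2 ?_ ?_ ?_
    · intro P f hf
      obtain ⟨g, hg⟩ := realized_elt hr hf
      refine key (img (extF j) P) ?_ g ?_ P f hf.le rfl hf hg
      · rw [hT']
        exact img_le.2 fun x hx => hmemr x (hf.le hx)
      · intro x hx
        obtain ⟨a, ha, rfl⟩ := (mem_img ((mulOn_extF j).mono hf.le)).1 hx
        rw [← hg a ha, hT']
        exact hmemr _ (hf.mem_S ha)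
    · -- composition
      intro P' g h hP' hg hhg h1 h2 P f hP hPP' hf hfg
      obtain ⟨f₁, hf₁, hf₁g⟩ := realized_mor hr g hP (fun x hx => by
        rw [← hT']
        apply hg
        rw [← hPP']
        exact mem_img_of_mem _ hx)
      have hE1 := h1 P f₁ hP hPP' hf₁ hf₁g
      have hf₁S : img f₁ P ≤ S := img_le.2 fun x hx => hf₁.mem_S hx
      obtain ⟨f₂, hf₂, hf₂g⟩ := realized_mor hr h hf₁S (fun y hy => by
        obtain ⟨x, hx, rfl⟩ := (mem_img hf₁.mulOn).1 hy
        rw [hf₁g x hx]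
        have h3 := hhg (extF j x) (by rw [← hPP']; exact mem_img_of_mem _ hx)
        rw [hT'] at h3
        have e : h * (g * extF j x * g⁻¹) * h⁻¹ = h * g * extF j x * (h * g)⁻¹ := by group
        rw [e]; exact h3)
      have hE2 := h2 (img f₁ P) f₂ hf₁S (by
        rw [← img_comp hf₁.mulOn, ← hPP', ← img_comp ((mulOn_extF j).mono hP)]
        exact img_congr fun x hx => hf₁g x hx) hf₂ hf₂g
      have hcomp : Mor E' P (f₂ ∘ f₁) := hE2.comp hE1 (fun x hx => mem_img_of_mem _ hx)
      refine hcomp.congr fun x hx => ?_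
      apply hfi.inj (hf₂.mem_S (mem_img_of_mem _ hx)) (hf.mem_S hx)
      show extF j (f₂ (f₁ x)) = extF j (f x)
      rw [hf₂g _ (mem_img_of_mem _ hx), hf₁g x hx, hfg x hx]
      group
    · -- normalizer of `J`
      intro P' hP' g hg hgP P f hP hPP' hf hfg
      rw [hT', e1] at hg
      have hgW : ∀ x ∈ WS JF S, g * extF j x * g⁻¹ ∈ img (extF j) (WS JF S) := fun x hx =>
        (Subgroup.mem_normalizer_iff.1 hg _).1 (mem_img_of_mem _ hx)
      have hrange : ∀ x ∈ P ⊔ WS JF S, g * extF j x * g⁻¹ ∈ j.range := by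
        have hm : MulOn (P ⊔ WS JF S) (fun x => g * extF j x * g⁻¹) := by
          intro x hx y hy
          have := (mulOn_extF j) x ((sup_le hP hWS) hx) y ((sup_le hP hWS) hy)
          show g * extF j (x * y) * g⁻¹ = _
          rw [this]; group
        apply forall_mem_sup hm
        · intro x hx
          show g * extF j x * g⁻¹ ∈ _
          rw [← hfg x hx]
          exact hmemr _ (hf.mem_S hx)
        · intro x hx
          have := hgW x hx
          rw [← img_range]
          exact img_mono _ hWS this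
      obtain ⟨k, hk, hkg⟩ := realized_mor hr g (sup_le hP hWS) hrange
      have himg : img k (WS JF S) = WS JF S := by
        haveI : Finite (WS JF S) := finite_of_le hWS
        have hk' := hk.mono (Q := WS JF S) le_sup_right
        apply eq_img_of_card_le k hk'.mulOn _ hk'.injOn le_rfl
        intro x hx
        have h1 := hgW x hx
        rw [← hkg x (Subgroup.mem_sup_right hx)] at h1
        obtain ⟨y, hy, hyx⟩ := (mem_img (hfi.mul.mono hWS)).1 h1
        rwa [← hfi.inj (hWS hy) (hk'.mem_S hx) hyx]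
      refine (hJE' P k (nkmor_of_stab hWS hWSn hk himg)).congr fun x hx => ?_
      apply hfi.inj (hk.mem_S (Subgroup.mem_sup_left hx)) (hf.mem_S hx)
      rw [hkg x (Subgroup.mem_sup_left hx), hfg x hx]
    · -- centralizer
      intro P' hP' g hg hgP P f hP hPP' hf hfg
      have hfix : ∀ x ∈ VZ p S, g * extF j x * g⁻¹ = extF j x := by
        intro x hx
        obtain ⟨y, hy, hyc, rfl⟩ := mem_VZ.1 hx
        rw [(mulOn_extF j).map_pow hy]
        apply hg
        · rw [hT']; exact hmemr y hy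
        · intro t ht
          rw [hT'] at ht
          obtain ⟨s, rfl⟩ := ht
          have h1 : extF j (s : Ω) = j s := extF_coe _ _
          rw [← h1, ← (mulOn_extF j) _ s.2 _ hy, ← (mulOn_extF j) _ hy _ s.2, hyc s s.2]
      have hVS : VZ p S ≤ S := VZ_le
      have hrange : ∀ x ∈ P ⊔ VZ p S, g * extF j x * g⁻¹ ∈ j.range := by
        have hm : MulOn (P ⊔ VZ p S) (fun x => g * extF j x * g⁻¹) := by
          intro x hx y hy
          have := (mulOn_extF j) x ((sup_le hP hVS) hx) y ((sup_le hP hVS) hy)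
          show g * extF j (x * y) * g⁻¹ = _
          rw [this]; group
        apply forall_mem_sup hm
        · intro x hx
          show g * extF j x * g⁻¹ ∈ _
          rw [← hfg x hx]
          exact hmemr _ (hf.mem_S hx)
        · intro x hx
          show g * extF j x * g⁻¹ ∈ _
          rw [hfix x hx]
          exact hmemr x (hVS hx)
      obtain ⟨k, hk, hkg⟩ := realized_mor hr g (sup_le hP hVS) hrange
      refine (hVE' P k hk fun y hy => ?_).congr fun x hx => ?_
      · apply hfi.inj (hk.mem_S (Subgroup.mem_sup_right hy)) (hVS hy)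
        rw [hkg y (Subgroup.mem_sup_right hy), hfix y hy]
      · apply hfi.inj (hk.mem_S (Subgroup.mem_sup_left hx)) (hf.mem_S hx)
        rw [hkg x (Subgroup.mem_sup_left hx), hfg x hx]
  · -- not constrained
    refine gen_core JF JF_iso hS ?_ F hF E' hcoreN hC hJE' ?_
    · intro R hR x hxR hx
      haveI : Finite R := finite_of_le hR
      exact WS_JF_cent hxR hx
    · intro U hU hQU N hN hNJ
      have hRS : normalizerIn S U ≤ S := inf_le_left
      haveI : Finite (normalizerIn S U) := finite_of_le hRS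
      have hRp := hS.to_le hRS
      have hNs := normalizerSystem_saturated hS hF hU N hN
      have hNF : ∀ P f, Mor N P f → Mor F P f := fun P f hf => mor_of_norm hN hf
      refine ih _ ?_ N hRp hNs rfl E' hRS hNJ ?_
      · rw [← hn]
        apply mset_lt hNF
        intro hall
        have : F.IsNormal U := normal_of_nkmor hU.1 fun P f hf => (mor_isNormalizerSystem hN).1 (hall P f hf)
        exact not_le_of_gt hQU (IsNormal.le_core this)
      · intro P f hf hfix
        have hVV : VZ p S ≤ VZ p (normalizerIn S U) := by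
          intro x hx
          obtain ⟨y, hy, hyc, rfl⟩ := mem_VZ.1 hx
          refine mem_VZ.2 ⟨y, ?_, fun s hs => hyc s (hRS hs), rfl⟩
          apply centralizerIn_le_normalizerIn
          exact mem_centralizerIn.2 ⟨hy, fun s hs => (hyc s (hU.1 hs)).symm⟩
        exact hVE' P f ((hNF _ _ hf).mono (sup_le_sup_left hVV P)) (fun y hy => hfix y (hVV hy))

end CfsgH8
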