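import Cfsg.Agent.H8.GenCore

set_option autoImplicit false
set_option linter.style.haveILetI false
set_option linter.unusedSectionVars false
set_option linter.unusedVariables false

/-! Factorization `⟨C(℧¹ Z(T)), N(W(T))⟩`: groups. -/

namespace CfsgH8
open Cfsg Cfsg.FusionSystem
open scoped commutatorElement

universe u v

section frat
variable {p : ℕ} [Fact p.Prime] {G : Type*} [Group G] [Finite G]

theorem isSyl_sup {D T₀ X : Subgroup G} (hD : D.Normal) (hT : IsSyl p T₀ D) (hX : IsPGroup p ↥(T₀ ⊔ X)) :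
    IsSyl p (T₀ ⊔ X) (D ⊔ X) := by
  refine ⟨sup_le_sup_right hT.1 X, hX, ?_⟩
  have h1 : (T₀ ⊔ X) ⊔ D = D ⊔ X := by
    apply le_antisymm
    · exact sup_le (sup_le_sup_right hT.1 X) le_sup_left
    · exact sup_le le_sup_right (le_sup_right.trans le_sup_left)
  rw [← h1, relIndex_sup_of_le_normalizer (by rw [Subgroup.normalizer_eq_top]; exact le_top)]
  exact fun h => hT.2.2 (h.trans (Subgroup.relIndex_dvd_of_le_left D le_sup_left))

/-- the Frattini argument for fusion -/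
theorem frat_fus (T : Sylow p G) {D : Subgroup G} (hD : D.Normal) {P : Subgroup G} (hP : P ≤ T) {g : G}
    (hg : ∀ x ∈ P, g * x * g⁻¹ ∈ (T : Subgroup G)) :
    ∃ n ∈ Subgroup.normalizer (((T : Subgroup G) ⊓ D : Subgroup G) : Set G), ∃ d ∈ D, g = d * n ∧
      ∀ x ∈ P, n * x * n⁻¹ ∈ (T : Subgroup G) := by
  have hTs : IsSyl p (T : Subgroup G) ⊤ := isSyl_sylow T
  set T₀ := (T : Subgroup G) ⊓ D with hT₀
  have hT₀s : IsSyl p T₀ D := hTs.inf_normal le_top (by rw [Subgroup.normalizer_eq_top])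
  set X := img (cj g) P with hX
  have hXT : X ≤ T := img_le.2 hg
  have h1 : IsSyl p (T₀ ⊔ X) (D ⊔ X) := isSyl_sup hD hT₀s (T.isPGroup'.to_le (sup_le inf_le_left hXT))
  have h2' : img (cj g) T₀ ≤ D := img_le.2 fun x hx => hD.conj_mem _ hx.2 g
  have hTp : IsPGroup p ↥(T₀ ⊔ P) := T.isPGroup'.to_le (sup_le inf_le_left hP)
  have himg : img (cj g) (T₀ ⊔ P) = img (cj g) T₀ ⊔ X := img_sup (mulOn_cj _ _)
  have hpg : ∀ A : Subgroup G, IsPGroup p A → IsPGroup p ↥(img (cj g) A) := fun A hA =>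
    hA.of_equiv (isoOf (mulOn_cj g A) (injOn_cj g A))
  have h3 : IsSyl p (img (cj g) T₀) D := by
    apply hT₀s.of_card_ge h2' (hpg _ (T.isPGroup'.to_le inf_le_left))
    rw [card_img_cj]
  have h2 : IsSyl p (img (cj g) T₀ ⊔ X) (D ⊔ X) := isSyl_sup hD h3 (by rw [← himg]; exact hpg _ hTp)
  obtain ⟨a, ha, hae⟩ := h2.exists_conj_eq h1
  obtain ⟨d, hd, x, hx, rfl⟩ := (CfsgH1.mem_sup_of_le_normalizer' (H := X) (K := D) (by
    rw [Subgroup.normalizer_eq_top]; exact le_top)).1 ha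
  have hTn : ∀ t ∈ (T : Subgroup G), ∀ y ∈ T₀, t * y * t⁻¹ ∈ T₀ := fun t ht y hy =>
    ⟨(T : Subgroup G).mul_mem ((T : Subgroup G).mul_mem ht hy.1) ((T : Subgroup G).inv_mem ht), hD.conj_mem _ hy.2 t⟩
  -- `x` normalizes `T₀ X`
  have hxn : ∀ y ∈ T₀ ⊔ X, x⁻¹ * y * x ∈ T₀ ⊔ X := by
    intro y hy
    have : x⁻¹ * y * x = (x⁻¹ : G) * y * (x⁻¹)⁻¹ := by group
    exact (T₀ ⊔ X).mul_mem ((T₀ ⊔ X).mul_mem ((T₀ ⊔ X).inv_mem (Subgroup.mem_sup_right hx)) hy) (Subgroup.mem_sup_right hx)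
  -- elements of `A₂` are conjugated by `d⁻¹` into `A₁`
  have key : ∀ z ∈ img (cj g) T₀ ⊔ X, d⁻¹ * z * d ∈ T₀ ⊔ X := by
    intro z hz
    rw [← hae] at hz
    obtain ⟨y, hy, rfl⟩ := (mem_img (mulOn_cj _ _)).1 hz
    show d⁻¹ * (d * x * y * (d * x)⁻¹) * d ∈ _
    have : d⁻¹ * (d * x * y * (d * x)⁻¹) * d = x * y * x⁻¹ := by group
    rw [this]
    exact (T₀ ⊔ X).mul_mem ((T₀ ⊔ X).mul_mem (Subgroup.mem_sup_right hx) hy) ((T₀ ⊔ X).inv_mem (Subgroup.mem_sup_right hx))
  have hTX : T₀ ⊔ X ≤ T := sup_le inf_le_left hXT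
  refine ⟨d⁻¹ * g, ?_, d, hd, by group, fun y hy => ?_⟩
  · rw [mem_normalizer_iff_img]
    haveI : Finite T₀ := inferInstance
    refine eq_img_of_card_le (cj (d⁻¹ * g)) (mulOn_cj _ _) (fun y hy => ?_) (injOn_cj _ _) le_rfl
    have h4 := key (g * y * g⁻¹) (Subgroup.mem_sup_left (mem_img_of_mem (cj g) hy))
    have e : cj (d⁻¹ * g) y = d⁻¹ * (g * y * g⁻¹) * d := by show d⁻¹ * g * y * (d⁻¹ * g)⁻¹ = _; group
    refine ⟨?_, ?_⟩
    · show cj (d⁻¹ * g) y ∈ (T : Subgroup G)
      rw [e]; exact hTX h4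
    · show cj (d⁻¹ * g) y ∈ D
      exact hD.conj_mem _ hy.2 _
  · have h4 := key (g * y * g⁻¹) (Subgroup.mem_sup_right (mem_img_of_mem (cj g) hy))
    have e : d⁻¹ * g * y * (d⁻¹ * g)⁻¹ = d⁻¹ * (g * y * g⁻¹) * d := by group
    rw [e]
    exact hTX h4

end frat

variable {p : ℕ} [Fact p.Prime] (W : ∀ (Q : Type u) [Group Q], Subgroup Q)
variable (hW2 : ∀ (Q R : Type u) [Group Q] [Group R] [Finite Q], IsPGroup p Q → ∀ φ : Q ≃* R, (W Q).map φ.toMonoidHom = W R)

include hW2 in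
/-- generation of fusion by `C(℧¹ Z(T))` and `N(W(T))` -/
theorem jv_group (hq : ∀ (G : Type u) [Group G] [Finite G] (P : Sylow p G), ¬ (WS W (P : Subgroup G)).Normal →
      ∃ g : G, g ∈ (P : Subgroup G) ∧ g ∉ Cfsg.pCore p G ∧
        ⁅⁅(Subgroup.center ↥(Cfsg.pCore p G)).map (Cfsg.pCore p G).subtype, Subgroup.zpowers g⁆, Subgroup.zpowers g⁆ = ⊥) :
    ∀ n : ℕ, ∀ (G : Type u) [Group G] [Finite G] (T : Sylow p G) (Φ : Subgroup G → G → Prop), Nat.card G = n →
      Subgroup.centralizer ((pCore p G : Subgroup G) : Set G) ≤ pCore p G →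
      (∀ (P : Subgroup G) (g h : G), P ≤ (T : Subgroup G) → (∀ x ∈ P, g * x * g⁻¹ ∈ (T : Subgroup G)) →
        (∀ x ∈ P, (h * g) * x * (h * g)⁻¹ ∈ (T : Subgroup G)) → Φ P g → Φ (img (cj g) P) h → Φ P (h * g)) →
      (∀ P : Subgroup G, P ≤ (T : Subgroup G) → ∀ g ∈ Subgroup.normalizer (WS W (T : Subgroup G) : Set G),
        (∀ x ∈ P, g * x * g⁻¹ ∈ (T : Subgroup G)) → Φ P g) →
      (∀ P : Subgroup G, P ≤ (T : Subgroup G) → ∀ g : G,
        (∀ y ∈ (T : Subgroup G), (∀ t ∈ (T : Subgroup G), t * y = y * t) → g * y ^ p * g⁻¹ = y ^ p) →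
        (∀ x ∈ P, g * x * g⁻¹ ∈ (T : Subgroup G)) → Φ P g) →
      ∀ P : Subgroup G, P ≤ (T : Subgroup G) → ∀ g : G, (∀ x ∈ P, g * x * g⁻¹ ∈ (T : Subgroup G)) → Φ P g := by
  intro n
  induction n using Nat.strong_induction_on with
  | _ n ih =>
  intro G _ _ T Φ hn hC hcomp hJ hV
  by_cases hnorm : (WS W (T : Subgroup G)).Normal
  · intro P hP g hg
    apply hJ P hP g _ hg
    rw [Subgroup.normalizer_eq_top]
    trivial
  by_contra hcon
  have hOT : pCore p G ≤ (T : Subgroup G) := by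
    haveI : (pCore p G).Normal := inferInstance
    exact (pCore_isPGroup (p := p) (G := G)).le_sylow_of_normal T
  -- proper subgroups
  have hsub : ∀ H : Subgroup G, (T : Subgroup G) ≤ H → H ≠ ⊤ → ∀ P : Subgroup G, P ≤ (T : Subgroup G) → ∀ h ∈ H,
      (∀ x ∈ P, h * x * h⁻¹ ∈ (T : Subgroup G)) → Φ P h := by
    intro H hTH hH P hP h hh hPh
    have hcard : Nat.card H < n := by
      rw [← hn]
      refine lt_of_le_of_ne (Subgroup.card_le_card_group H) fun he => hH ?_
      exact Subgroup.eq_top_of_card_eq H he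
    set T' : Sylow p ↥H := T.subtype hTH with hT'
    have hT'm : ∀ x : ↥H, x ∈ (T' : Subgroup ↥H) ↔ (x : G) ∈ (T : Subgroup G) := fun x => Iff.rfl
    have hOH : pCore p G ≤ H := hOT.trans hTH
    have hO : (pCore p G).subgroupOf H ≤ pCore p ↥H := by
      apply le_pCore
      · infer_instance
      · exact (pCore_isPGroup (p := p) (G := G)).comap_subtype
    have himgs : ∀ (A : Subgroup ↥H) (g : ↥H), (img (cj g) A).map H.subtype = img (cj (g : G)) (A.map H.subtype) := by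
      intro A g
      ext x
      constructor
      · rintro ⟨y, hy, rfl⟩
        obtain ⟨a, ha, rfl⟩ := (mem_img (mulOn_cj _ _)).1 hy
        exact mem_img_of_mem (cj (g : G)) (x := (a : G)) ⟨a, ha, rfl⟩
      · intro hx
        obtain ⟨b, ⟨a, ha, rfl⟩, rfl⟩ := (mem_img (mulOn_cj _ _)).1 hx
        exact ⟨cj g a, mem_img_of_mem (cj g) ha, rfl⟩
    have hmapT : ∀ A : Subgroup ↥H, A ≤ (T' : Subgroup ↥H) → A.map H.subtype ≤ (T : Subgroup G) := by
      rintro A hA _ ⟨x, hx, rfl⟩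
      exact hA hx
    have key := ih _ hcard ↥H T' (fun A g => Φ (A.map H.subtype) (g : G)) rfl (by
        intro x hx
        apply hO
        show (x : G) ∈ pCore p G
        apply hC
        rw [Subgroup.mem_centralizer_iff]
        intro y hy
        have := Subgroup.mem_centralizer_iff.1 hx ⟨y, hOH hy⟩ (hO hy)
        exact congrArg Subtype.val this) (by
        intro A g k hA hg hk h1 h2
        have h2' : Φ ((img (cj g) A).map H.subtype) (k : G) := h2
        rw [himgs] at h2'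
        refine hcomp _ (g : G) (k : G) (hmapT A hA) ?_ ?_ h1 h2'
        · rintro _ ⟨x, hx, rfl⟩
          exact hg x hx
        · rintro _ ⟨x, hx, rfl⟩
          exact hk x hx) (by
        intro A hA g hg hgA
        refine hJ _ (hmapT A hA) (g : G) ?_ ?_
        · rw [← WS_subtype W hW2 T hTH, Subgroup.mem_normalizer_iff]
          intro x
          constructor
          · rintro ⟨y, hy, rfl⟩
            exact ⟨g * y * g⁻¹, (Subgroup.mem_normalizer_iff.1 hg y).1 hy, rfl⟩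
          · rintro ⟨y, hy, hyx⟩
            refine ⟨g⁻¹ * y * g, ?_, ?_⟩
            · rw [SetLike.mem_coe, Subgroup.mem_normalizer_iff.1 hg]
              have : g * (g⁻¹ * y * g) * g⁻¹ = y := by group
              rw [this]; exact hy
            · have hyx' : (y : G) = g * x * (g : G)⁻¹ := hyx
              show (g : G)⁻¹ * y * g = x
              rw [hyx']; group
        · rintro _ ⟨x, hx, rfl⟩
          exact hgA x hx) (by
        intro A hA g hg hgA
        refine hV _ (hmapT A hA) (g : G) ?_ ?_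
        · intro y hy hyc
          exact congrArg Subtype.val (hg ⟨y, hTH hy⟩ hy fun t ht => Subtype.ext (hyc t ht))
        · rintro _ ⟨x, hx, rfl⟩
          exact hgA x hx) (P.subgroupOf H) (fun x hx => hP hx) ⟨h, hh⟩ (fun x hx => hPh x hx)
    have e : (P.subgroupOf H).map H.subtype = P := by
      rw [Subgroup.subgroupOf_map_subtype, inf_eq_left]
      exact hP.trans hTH
    have key' : Φ ((P.subgroupOf H).map H.subtype) h := key
    rwa [e] at key'
  set M := Subgroup.centralizer ({z : G | ∃ y ∈ (T : Subgroup G), (∀ t ∈ (T : Subgroup G), t * y = y * t) ∧ z = y ^ p}) with hM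
  have hMiff : ∀ g : G, g ∈ M ↔ ∀ y ∈ (T : Subgroup G), (∀ t ∈ (T : Subgroup G), t * y = y * t) → g * y ^ p * g⁻¹ = y ^ p := by
    intro g
    rw [hM, Subgroup.mem_centralizer_iff]
    constructor
    · intro h y hy hyc
      rw [mul_inv_eq_iff_eq_mul]
      exact (h _ ⟨y, hy, hyc, rfl⟩).symm
    · rintro h _ ⟨y, hy, hyc, rfl⟩
      have := h y hy hyc
      rw [mul_inv_eq_iff_eq_mul] at this
      exact this.symm
  have hMtop : M ≠ ⊤ := fun h => hcon fun P hP g hg => hV P hP g ((hMiff g).1 (by rw [h]; trivial)) hg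
  have hTM : (T : Subgroup G) ≤ M := by
    intro t ht
    rw [hMiff]
    intro y hy hyc
    rw [mul_inv_eq_iff_eq_mul]
    exact ((show Commute t y from hyc t ht).pow_right p)
  have hfr : ∀ D : Subgroup G, D.Normal → D ≤ M → (T : Subgroup G) ⊓ D ≤ pCore p G := by
    intro D hDn hDM
    have hDT : D ⊔ (T : Subgroup G) ≠ ⊤ := fun h => hMtop (by rw [eq_top_iff, ← h]; exact sup_le hDM hTM)
    have hTN : (T : Subgroup G) ≤ Subgroup.normalizer (((T : Subgroup G) ⊓ D : Subgroup G) : Set G) := by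
      intro t ht
      rw [mem_normalizer_iff_img]
      haveI : Finite ↥((T : Subgroup G) ⊓ D) := inferInstance
      refine eq_img_of_card_le (cj t) (mulOn_cj _ _) (fun y hy => ?_) (injOn_cj _ _) le_rfl
      exact ⟨(T : Subgroup G).mul_mem ((T : Subgroup G).mul_mem ht hy.1) ((T : Subgroup G).inv_mem ht), hDn.conj_mem _ hy.2 t⟩
    by_cases hNtop : Subgroup.normalizer (((T : Subgroup G) ⊓ D : Subgroup G) : Set G) = ⊤
    · apply le_pCore
      · exact Subgroup.normalizer_eq_top_iff.1 hNtop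
      · exact T.isPGroup'.to_le inf_le_left
    · exfalso
      apply hcon
      intro P hP g hg
      obtain ⟨n, hn, d, hd, rfl, hPn⟩ := frat_fus T hDn hP hg
      refine hcomp P n d hP hPn hg (hsub _ hTN hNtop P hP n hn hPn) ?_
      refine hsub _ le_sup_right hDT _ (img_le.2 hPn) d (Subgroup.mem_sup_left hd) ?_
      intro x hx
      obtain ⟨a, ha, rfl⟩ := (mem_img (mulOn_cj _ _)).1 hx
      have e : d * cj n a * d⁻¹ = (d * n) * a * (d * n)⁻¹ := by show d * (n * a * n⁻¹) * d⁻¹ = _; group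
      rw [e]
      exact hg a ha
  obtain ⟨g, hgT, hgO, hgq⟩ := hq G T hnorm
  set V := (Subgroup.center ↥(Cfsg.pCore p G)).map (Cfsg.pCore p G).subtype with hVdef
  haveI hVn : V.Normal := by
    rw [hVdef]
    infer_instance
  have hVab : ∀ a ∈ V, ∀ b ∈ V, a * b = b * a := by
    rintro _ ⟨a, ha, rfl⟩ _ ⟨b, hb, rfl⟩
    exact congrArg Subtype.val (Subgroup.mem_center_iff.1 ha b).symm
  have hyV : ∀ y ∈ (T : Subgroup G), (∀ t ∈ (T : Subgroup G), t * y = y * t) → y ∈ V := by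
    intro y hyT hyc
    have h1 : y ∈ pCore p G := by
      apply hC
      rw [Subgroup.mem_centralizer_iff]
      exact fun x hx => hyc x (hOT hx)
    refine ⟨⟨y, h1⟩, ?_, rfl⟩
    show (⟨y, h1⟩ : ↥(pCore p G)) ∈ Subgroup.center _
    rw [Subgroup.mem_center_iff]
    exact fun x => Subtype.ext (hyc x (hOT x.2))
  -- the centralizer of `V`
  have hD1 : (T : Subgroup G) ⊓ Subgroup.centralizer (V : Set G) ≤ pCore p G := by
    apply hfr
    · infer_instance
    · intro x hx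
      rw [hMiff]
      intro y hy hyc
      rw [mul_inv_eq_iff_eq_mul]
      exact (Subgroup.mem_centralizer_iff.1 hx _ (V.pow_mem (hyV y hy hyc) p)).symm
  have hcO : pCore p G ≤ Subgroup.centralizer (V : Set G) := by
    intro x hx
    rw [Subgroup.mem_centralizer_iff]
    rintro _ ⟨a, ha, rfl⟩
    exact congrArg Subtype.val (Subgroup.mem_center_iff.1 ha ⟨x, hx⟩).symm
  -- the centralizer of the `p`-th powers
  have hD2n : (Subgroup.centralizer ((fun v : G => v ^ p) '' (V : Set G))).Normal := by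
    refine ⟨fun x hx g => ?_⟩
    rw [Subgroup.mem_centralizer_iff] at hx ⊢
    rintro _ ⟨v, hv, rfl⟩
    have h1 := hx _ ⟨g⁻¹ * v * g, by simpa using hVn.conj_mem _ hv g⁻¹, rfl⟩
    simp only at h1 ⊢
    have h2 : (g⁻¹ * v * g) ^ p = g⁻¹ * v ^ p * g := by
      have := conj_pow (i := p) (a := g⁻¹) (b := v)
      rwa [inv_inv] at this
    rw [h2] at h1
    calc v ^ p * (g * x * g⁻¹) = g * ((g⁻¹ * v ^ p * g) * x) * g⁻¹ := by group
      _ = g * (x * (g⁻¹ * v ^ p * g)) * g⁻¹ := by rw [h1]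
      _ = _ := by group
  have hD2 : (T : Subgroup G) ⊓ Subgroup.centralizer ((fun v : G => v ^ p) '' (V : Set G)) ≤ pCore p G := by
    apply hfr _ hD2n
    intro x hx
    rw [hMiff]
    intro y hy hyc
    rw [mul_inv_eq_iff_eq_mul]
    exact (Subgroup.mem_centralizer_iff.1 hx _ ⟨y, hyV y hy hyc, rfl⟩).symm
  -- powers of `g` centralize `V`
  have key : ∀ k : ℕ, g ^ p ^ k ∈ Subgroup.centralizer (V : Set G) → g ∈ Subgroup.centralizer (V : Set G) := by
    intro k
    induction k with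
    | zero => intro h; rwa [pow_zero, pow_one] at h
    | succ k ihk =>
      intro h
      apply ihk
      apply hcO
      apply hD2
      refine ⟨(T : Subgroup G).pow_mem hgT _, ?_⟩
      show g ^ p ^ k ∈ Subgroup.centralizer _
      rw [Subgroup.mem_centralizer_iff]
      rintro _ ⟨v, hv, rfl⟩
      refine (quad_pth hVab (g := g ^ p ^ k) ?_ ?_ hv).symm
      · rw [eq_bot_iff, ← hgq]
        have h1 : Subgroup.zpowers (g ^ p ^ k) ≤ Subgroup.zpowers g := by
          rw [Subgroup.zpowers_le]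
          exact Subgroup.pow_mem _ (Subgroup.mem_zpowers g) _
        exact Subgroup.commutator_mono (Subgroup.commutator_mono le_rfl h1) h1
      · intro v hv
        rw [← pow_mul, ← pow_succ]
        exact (Subgroup.mem_centralizer_iff.1 h v hv).symm
  obtain ⟨k, hk⟩ := T.isPGroup' ⟨g, hgT⟩
  have hk' : g ^ p ^ k = 1 := congrArg Subtype.val hk
  exact hgO (hD1 ⟨hgT, key k (by rw [hk']; exact Subgroup.one_mem _)⟩)

end CfsgH8
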