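import Cfsg.Agent.H8.FusSimple
import Cfsg.Agent.H8.FusNormal2
import Cfsg.Agent.H9.SLt4
import Cfsg.Agent.S0809
import Cfsg.Agent.S0261

/-! # The 2-fusion system of `PSL(2,q)` -/

set_option autoImplicit false
open Cfsg Subgroup

namespace CfsgH8

/-- "dihedral shape": `S` is covered by a cyclic subgroup `⟨a⟩` and a coset of involutions. -/
def DihShape {G : Type*} [Group G] (S : Subgroup G) (a b : G) : Prop :=
  a ∈ S ∧ b ∈ S ∧ b * b = 1 ∧ a * a ≠ 1 ∧ (∀ x ∈ S, x ∈ zpowers a ∨ (x * x = 1 ∧ ∃ i : ℤ, x = b * a ^ i)) ∧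
    ∀ i : ℤ, (b * a ^ i) * (b * a ^ i) = 1

theorem card_mulAut_cyclic_two {N : Type*} [Group N] [Finite N] [IsCyclic N] (hN : IsPGroup 2 N) :
    ∃ k, Nat.card (MulAut N) = 2 ^ k := by
  obtain ⟨m, hm⟩ := hN.exists_card_eq
  rw [IsCyclic.card_mulAut, hm]
  rcases Nat.eq_zero_or_pos m with h | h
  · subst h; exact ⟨0, by simp⟩
  · exact ⟨m - 1, by rw [Nat.totient_prime_pow Nat.prime_two h]; simp⟩

theorem dih_odd_centralizes {G : Type*} [Group G] [Finite G] {S : Subgroup G} (hS : IsPGroup 2 S) {a b : G} (h : DihShape S a b)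
    {g : G} (hg : g ∈ normalizer (S : Set G)) (hodd : (orderOf g).Coprime 2) : ∀ x ∈ S, g * x * g⁻¹ = x := by
  obtain ⟨haS, hbS, hbb, haa, hcov, hinv⟩ := h
  have hgS : ∀ x, x ∈ S → g * x * g⁻¹ ∈ S := fun x hx => (mem_normalizer_iff.1 hg x).1 hx
  have hgSi : ∀ x, x ∈ S → g⁻¹ * x * g ∈ S := fun x hx => by
    have := (mem_normalizer_iff.1 (inv_mem hg) x).1 hx
    rwa [inv_inv] at this
  -- g normalizes `⟨a⟩`
  have h1 : g * a * g⁻¹ ∈ zpowers a := by
    rcases hcov _ (hgS a haS) with h | ⟨h, -⟩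
    · exact h
    · exfalso; apply haa
      have : g * a * g⁻¹ * (g * a * g⁻¹) = g * (a * a) * g⁻¹ := by group
      rw [this] at h
      have h2 : a * a = g⁻¹ * 1 * g := by rw [← h]; group
      rw [h2]; group
  have h1' : g⁻¹ * a * g ∈ zpowers a := by
    rcases hcov _ (hgSi a haS) with h | ⟨h, -⟩
    · exact h
    · exfalso; apply haa
      have : g⁻¹ * a * g * (g⁻¹ * a * g) = g⁻¹ * (a * a) * g := by group
      rw [this] at h
      have h2 : a * a = g * 1 * g⁻¹ := by rw [← h]; group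
      rw [h2]; group
  have hgA : g ∈ normalizer ((zpowers a : Subgroup G) : Set G) := by
    rw [mem_normalizer_iff]
    intro x
    constructor
    · intro hx
      obtain ⟨i, rfl⟩ := mem_zpowers_iff.1 hx
      rw [← conj_zpow]
      exact zpow_mem h1 i
    · intro hx
      obtain ⟨i, hi⟩ := mem_zpowers_iff.1 hx
      have : x = (g⁻¹ * a * g) ^ i := by
        have e : (g⁻¹ * a * g) ^ i = g⁻¹ * a ^ i * g := by
          have := @conj_zpow G _ i g⁻¹ a
          rwa [inv_inv] at this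
        rw [e, hi]; group
      rw [this]
      exact zpow_mem h1' i
  have hAp : IsPGroup 2 (zpowers a : Subgroup G) := hS.to_le (zpowers_le.2 haS)
  obtain ⟨k, hk⟩ := card_mulAut_cyclic_two hAp
  have hga : g * a * g⁻¹ = a := by
    let φ : normalizer ((zpowers a : Subgroup G) : Set G) →* MulAut (zpowers a : Subgroup G) :=
      normalizerMonoidHom (zpowers a)
    have h3 : (φ ⟨g, hgA⟩) = 1 := by
      have h4 : orderOf (φ ⟨g, hgA⟩) ∣ orderOf g := by
        have := orderOf_map_dvd φ ⟨g, hgA⟩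
        rwa [orderOf_mk] at this
      have h5 : orderOf (φ ⟨g, hgA⟩) ∣ 2 ^ k := by rw [← hk]; exact orderOf_dvd_natCard _
      have h6 : (orderOf g).Coprime (2 ^ k) := Nat.Coprime.pow_right k hodd
      rw [← orderOf_eq_one_iff]
      exact Nat.eq_one_of_dvd_coprimes h6 h4 h5
    have h4 := congrArg (fun f : MulAut (zpowers a : Subgroup G) => ((f ⟨a, mem_zpowers a⟩ : zpowers a) : G)) h3
    exact h4
  have hgai : ∀ i : ℤ, g * a ^ i * g⁻¹ = a ^ i := fun i => by rw [← conj_zpow, hga]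
  -- the coset
  have hgb : g * b * g⁻¹ = b := by
    rcases hcov _ (hgS b hbS) with h | ⟨-, i, hi⟩
    · obtain ⟨i, hi⟩ := mem_zpowers_iff.1 h
      have h7 := hgai i
      rw [hi] at h7
      have : g * b * g⁻¹ = b := by
        have h8 : g * (g * b * g⁻¹) * g⁻¹ = g * b * g⁻¹ := h7
        have h9 : g⁻¹ * (g * (g * b * g⁻¹) * g⁻¹) * g = g⁻¹ * (g * b * g⁻¹) * g := by rw [h8]
        have e1 : g⁻¹ * (g * (g * b * g⁻¹) * g⁻¹) * g = g * b * g⁻¹ := by group
        have e2 : g⁻¹ * (g * b * g⁻¹) * g = b := by group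
        rw [e1, e2] at h9; exact h9
      exact this
    · have key : ∀ n : ℕ, g ^ n * b * (g ^ n)⁻¹ = b * a ^ (i * n) := by
        intro n
        induction n with
        | zero => simp
        | succ n ih =>
          have : g ^ (n + 1) * b * (g ^ (n + 1))⁻¹ = g * (g ^ n * b * (g ^ n)⁻¹) * g⁻¹ := by
            rw [pow_succ']; group
          rw [this, ih]
          have e2 : g * (b * a ^ (i * n)) * g⁻¹ = (g * b * g⁻¹) * (g * a ^ (i * n) * g⁻¹) := by group
          rw [e2, hgai, hi, mul_assoc, ← zpow_add]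
          congr 2
          push_cast; ring
      have h7 := key (orderOf g)
      rw [pow_orderOf_eq_one, inv_one, one_mul, mul_one] at h7
      have h8 : (a ^ i) ^ orderOf g = 1 := by
        rw [← zpow_natCast, ← zpow_mul]
        exact (mul_eq_left.1 h7.symm)
      obtain ⟨m, hm⟩ := (IsPGroup.iff_orderOf.1 hS) ⟨a ^ i, zpow_mem haS i⟩
      rw [orderOf_mk] at hm
      have h9 : orderOf (a ^ i) ∣ orderOf g := orderOf_dvd_of_pow_eq_one h8
      have h10 : orderOf (a ^ i) = 1 := by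
        apply Nat.eq_one_of_dvd_coprimes (Nat.Coprime.pow_right m hodd) h9
        rw [hm]
      rw [hi, orderOf_eq_one_iff.1 h10, mul_one]
  intro x hx
  rcases hcov x hx with h | ⟨-, i, rfl⟩
  · obtain ⟨i, rfl⟩ := mem_zpowers_iff.1 h
    exact hgai i
  · have : g * (b * a ^ i) * g⁻¹ = (g * b * g⁻¹) * (g * a ^ i * g⁻¹) := by group
    rw [this, hgb, hgai]

end CfsgH8

namespace CfsgH8.PSLD
open CfsgH7 CfsgH9.SLt Matrix CfsgH8
variable {F : Type*} [Field F] [Fintype F]

theorem exists_dihShape (h2 : (2 : F) ≠ 0) (S : Sylow 2 (ProjectiveSpecialLinearGroup (Fin 2) F))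
    (h8 : 8 ∣ Nat.card (S : Subgroup (ProjectiveSpecialLinearGroup (Fin 2) F))) :
    ∃ a b, DihShape (S : Subgroup (ProjectiveSpecialLinearGroup (Fin 2) F)) a b := by
  classical
  obtain ⟨P, hP⟩ := Sylow.mapSurjective_surjective (pr_surjective (F := F)) 2 S
  have hPS : ((P : Subgroup (SL2 F)).map (pr (F := F))) = (S : Subgroup (ProjectiveSpecialLinearGroup (Fin 2) F)) := by
    rw [← Sylow.coe_mapSurjective pr_surjective P, hP]
  have hF : Odd (Fintype.card F) := by
    rw [← Nat.not_even_iff_odd]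
    intro he
    apply h2
    have hchar : ringChar F = 2 := by
      have := FiniteField.even_card_iff_char_two (F := F)
      rw [this, ← Nat.even_iff]
      exact he
    have : CharP F 2 := by rw [← hchar]; exact ringChar.charP F
    exact CharTwo.two_eq_zero
  obtain ⟨k, hk, ⟨e⟩⟩ := Cfsg.Agent.S0261.result hF P
  have : NeZero (2 ^ k) := ⟨by positivity⟩
  -- the size of `k`
  have hm1 : ∀ u : P, (e u) = QuaternionGroup.a (2 ^ k : ZMod (2 * 2 ^ k)) → (u : SL2 F) = m1 := by
    intro u hu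
    apply inv_unique h2
    · have : u * u = 1 := by
        apply e.injective
        rw [map_mul, hu, QuaternionGroup.a_mul_a, map_one, QuaternionGroup.one_def]
        congr 1
        have : ((2 * 2 ^ k : ℕ) : ZMod (2 * 2 ^ k)) = 0 := ZMod.natCast_self _
        push_cast at this
        rw [← this]; ring
      exact congrArg Subtype.val this
    · intro h
      have : u = 1 := Subtype.ext h
      rw [this, map_one, QuaternionGroup.one_def] at hu
      have h3 : (0 : ZMod (2 * 2 ^ k)) = 2 ^ k := by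
        injection hu
      have h4 : ((2 ^ k : ℕ) : ZMod (2 * 2 ^ k)) = 0 := by push_cast; exact h3.symm
      rw [ZMod.natCast_eq_zero_iff] at h4
      have := Nat.le_of_dvd (by positivity) h4
      have : 0 < 2 ^ k := by positivity
      omega
  have hk2 : 2 ≤ k := by
    by_contra hcon
    have hk1 : k = 1 := by omega
    have hcard : Nat.card (P : Subgroup (SL2 F)) = 8 := by
      rw [Nat.card_congr e.toEquiv, Nat.card_eq_fintype_card, QuaternionGroup.card, hk1]; norm_num
    have hle : Nat.card (S : Subgroup (ProjectiveSpecialLinearGroup (Fin 2) F)) ∣ Nat.card (P : Subgroup (SL2 F)) := by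
      rw [← hPS]; exact card_map_dvd (P : Subgroup (SL2 F)) pr
    have hcard2 : Nat.card (S : Subgroup (ProjectiveSpecialLinearGroup (Fin 2) F)) = 8 := by
      rw [hcard] at hle
      exact Nat.dvd_antisymm hle h8
    -- the map `P → S` is bijective, but `m1 ∈ P` is in the kernel
    have hsurj : Function.Surjective (fun u : P => (⟨pr (u : SL2 F), by rw [← hPS]; exact ⟨u, u.2, rfl⟩⟩ :
        (S : Subgroup (ProjectiveSpecialLinearGroup (Fin 2) F)))) := by
      rintro ⟨x, hx⟩
      rw [← hPS] at hx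
      obtain ⟨u, hu, rfl⟩ := hx
      exact ⟨⟨u, hu⟩, rfl⟩
    have hinj := (hsurj.bijective_of_nat_card_le (by rw [hcard2]; exact hcard.le)).1
    have h3 := hm1 (e.symm (QuaternionGroup.a (2 ^ k))) (by simp)
    have h4 : e.symm (QuaternionGroup.a (2 ^ k)) = 1 := by
      apply hinj
      apply Subtype.ext
      show pr ((e.symm (QuaternionGroup.a (2 ^ k)) : P) : SL2 F) = pr ((1 : P) : SL2 F)
      rw [h3, pr_m1]; exact (map_one pr).symm
    rw [h4] at h3
    exact m1_ne_one h2 h3.symm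
  have haa : ∀ u : P, (∃ i, e u = QuaternionGroup.xa i) → pr (u : SL2 F) * pr (u : SL2 F) = 1 := by
    rintro u ⟨i, hi⟩
    have h3 : e (u * u) = QuaternionGroup.a (2 ^ k) := by
      rw [map_mul, hi, QuaternionGroup.xa_mul_xa]
      congr 1
      push_cast; ring
    have h4 := hm1 _ h3
    rw [← map_mul]
    have h5 : ((u * u : P) : SL2 F) = (u : SL2 F) * (u : SL2 F) := rfl
    rw [← h5, h4, pr_m1]
  set A : P := e.symm (QuaternionGroup.a 1) with hA
  set B : P := e.symm (QuaternionGroup.xa 0) with hB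
  have hmemS : ∀ u : P, pr (u : SL2 F) ∈ (S : Subgroup (ProjectiveSpecialLinearGroup (Fin 2) F)) := fun u => by
    rw [← hPS]; exact ⟨u, u.2, rfl⟩
  have hpow : ∀ n : ℕ, e (A ^ n) = QuaternionGroup.a n := by
    intro n
    rw [map_pow, hA, MulEquiv.apply_symm_apply, QuaternionGroup.a_one_pow]
  have hBA : ∀ n : ℕ, e (B * A ^ n) = QuaternionGroup.xa n := by
    intro n
    rw [map_mul, hpow, hB, MulEquiv.apply_symm_apply, QuaternionGroup.xa_mul_a, zero_add]
  have hBAz : ∀ i : ℤ, ∃ j, e (B * A ^ i) = QuaternionGroup.xa j := by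
    intro i
    have hn : ∃ n : ℕ, A ^ i = A ^ n := by
      have hmem : A ^ i ∈ Submonoid.powers A := by
        rw [mem_powers_iff_mem_zpowers]
        exact zpow_mem (mem_zpowers A) i
      obtain ⟨n, hn⟩ := hmem
      exact ⟨n, hn.symm⟩
    obtain ⟨n, hn⟩ := hn
    exact ⟨n, by rw [hn, hBA]⟩
  refine ⟨pr (A : SL2 F), pr (B : SL2 F), hmemS A, hmemS B, haa B ⟨0, by rw [hB, MulEquiv.apply_symm_apply]⟩, ?_, ?_, ?_⟩
  · intro h
    rw [← map_mul, pr_eq_one] at h
    rcases isPM_cases h with h | h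
    · have h3 : A * A = 1 := Subtype.ext h
      have h4 := hpow 2
      rw [pow_two, h3, map_one, QuaternionGroup.one_def] at h4
      have h5 : (0 : ZMod (2 * 2 ^ k)) = ((2 : ℕ) : ZMod (2 * 2 ^ k)) := by injection h4
      have h6 := (ZMod.natCast_eq_zero_iff 2 _).1 h5.symm
      have h7 := Nat.le_of_dvd (by norm_num) h6
      have : 2 ^ 2 ≤ 2 ^ k := Nat.pow_le_pow_right (by norm_num) hk2
      omega
    · have h3 := hm1 (e.symm (QuaternionGroup.a (2 ^ k))) (by simp)
      have h4 : A * A = e.symm (QuaternionGroup.a (2 ^ k)) := Subtype.ext (by rw [h3]; exact h)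
      have h5 := hpow 2
      rw [pow_two, h4, MulEquiv.apply_symm_apply] at h5
      have h6 : (2 ^ k : ZMod (2 * 2 ^ k)) = ((2 : ℕ) : ZMod (2 * 2 ^ k)) := by injection h5
      have h7 : ((2 ^ k : ℕ) : ZMod (2 * 2 ^ k)) = ((2 : ℕ) : ZMod (2 * 2 ^ k)) := by push_cast; exact_mod_cast h6
      rw [ZMod.natCast_eq_natCast_iff'] at h7
      have : 2 ^ 2 ≤ 2 ^ k := Nat.pow_le_pow_right (by norm_num) hk2
      rw [Nat.mod_eq_of_lt (by omega), Nat.mod_eq_of_lt (by omega)] at h7
      omega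
  · intro x hx
    rw [← hPS] at hx
    obtain ⟨u, hu, rfl⟩ := hx
    rcases hc : e ⟨u, hu⟩ with i | i
    · left
      have : (⟨u, hu⟩ : P) = A ^ (i.val) := by
        apply e.injective
        rw [hc, hpow]; congr 1; exact (ZMod.natCast_zmod_val i).symm
      have h3 : u = (A : SL2 F) ^ i.val := congrArg Subtype.val this
      rw [h3, map_pow]
      exact ⟨(i.val : ℤ), zpow_natCast _ _⟩
    · right
      refine ⟨haa ⟨u, hu⟩ ⟨i, hc⟩, i.val, ?_⟩
      have : (⟨u, hu⟩ : P) = B * A ^ (i.val) := by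
        apply e.injective
        rw [hc, hBA]; congr 1; exact (ZMod.natCast_zmod_val i).symm
      have h3 : u = (B : SL2 F) * (A : SL2 F) ^ i.val := congrArg Subtype.val this
      rw [h3, map_mul, map_pow, zpow_natCast]
  · intro i
    have := haa (B * A ^ i) (hBAz i)
    have h3 : pr ((B * A ^ i : P) : SL2 F) = pr (B : SL2 F) * pr (A : SL2 F) ^ i := by
      have h4 : ((B * A ^ i : P) : SL2 F) = (B : SL2 F) * (A : SL2 F) ^ i := rfl
      rw [h4, map_mul, map_zpow]
    rw [h3] at this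
    exact this

theorem eight_dvd (hodd : Fintype.card F % 2 = 1) (h16 : 16 ∣ Fintype.card F ^ 2 - 1)
    (S : Sylow 2 (ProjectiveSpecialLinearGroup (Fin 2) F)) :
    8 ∣ Nat.card (S : Subgroup (ProjectiveSpecialLinearGroup (Fin 2) F)) := by
  have h2 : (2 : F) ≠ 0 := two_ne_zero_of_card (Nat.odd_iff.2 hodd)
  have h3 := card_PSL2 (F := F) h2
  rw [card_SL2] at h3
  obtain ⟨c, hc⟩ := h16
  have hq : 1 ≤ Fintype.card F := Fintype.card_pos
  have h4 : Fintype.card F * (Fintype.card F - 1) * (Fintype.card F + 1) = Fintype.card F * (Fintype.card F ^ 2 - 1) := by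
    obtain ⟨r, hr⟩ : ∃ r, Fintype.card F = r + 1 := ⟨Fintype.card F - 1, by omega⟩
    rw [hr]
    have : (r + 1) ^ 2 - 1 = r * (r + 2) := by
      have : (r + 1) ^ 2 = r * (r + 2) + 1 := by ring
      omega
    rw [this, Nat.add_sub_cancel]; ring
  have h5 : 8 ∣ Nat.card (ProjectiveSpecialLinearGroup (Fin 2) F) := by
    refine ⟨Fintype.card F * c, ?_⟩
    apply Nat.eq_of_mul_eq_mul_left (show 0 < 2 by norm_num)
    rw [h3, h4, hc]; ring
  have h6 := S.pow_dvd_card_of_pow_dvd_card (n := 3) (by simpa using h5)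
  simpa using h6

theorem dih_simple (hodd : Fintype.card F % 2 = 1) (h16 : 16 ∣ Fintype.card F ^ 2 - 1)
    (S : Sylow 2 (ProjectiveSpecialLinearGroup (Fin 2) F)) :
    (groupFusionSystem (S : Subgroup (ProjectiveSpecialLinearGroup (Fin 2) F))).IsSimple 2 := by
  have h2 : (2 : F) ≠ 0 := two_ne_zero_of_card (Nat.odd_iff.2 hodd)
  have h8 := eight_dvd hodd h16 S
  obtain ⟨a, b, hab⟩ := exists_dihShape h2 S h8
  have hSp : IsPGroup 2 (S : Subgroup (ProjectiveSpecialLinearGroup (Fin 2) F)) := S.2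
  have hinv : ∀ x y : ProjectiveSpecialLinearGroup (Fin 2) F, orderOf x = 2 → orderOf y = 2 → IsConj x y := by
    obtain ⟨i, j, hi, hj, hij⟩ := exists_q8 (F := F)
    have hi4 : Nat.card (zpowers i) = 4 := by
      rw [Nat.card_zpowers]
      have h4 : i ^ 4 = 1 := by
        rw [show (4 : ℕ) = 2 * 2 from rfl, pow_mul, pow_two, pow_two, hi, m1_mul_m1]
      have h5 : orderOf i ∣ 2 ^ 2 := orderOf_dvd_of_pow_eq_one h4
      have h6 : ¬ orderOf i ∣ 2 ^ 1 := by
        intro h
        have := orderOf_dvd_iff_pow_eq_one.mp h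
        rw [pow_one, pow_two, hi] at this
        exact m1_ne_one h2 this
      obtain ⟨k, hk1, hk2⟩ := (Nat.dvd_prime_pow Nat.prime_two).mp h5
      have h7 : k = 2 := by
        by_contra hk
        exact h6 (by rw [hk2]; exact pow_dvd_pow 2 (by omega))
      rw [hk2, h7]; norm_num
    exact (Cfsg.Agent.S0809.result rfl (Nat.odd_iff.2 hodd) (zpowers i) hi4).2.2.2
  have hS1 : (S : Subgroup (ProjectiveSpecialLinearGroup (Fin 2) F)) ≠ ⊥ := by
    intro h
    rw [h, card_bot] at h8
    omega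
  obtain ⟨haS, hbS, hbb, haa, hcov, hcos⟩ := hab
  refine simple_criterion 2 S hS1 ?_ ?_
  · intro T hT
    obtain ⟨hTS, hT2⟩ := group_stronglyClosed_iff.1 hT
    by_cases hT1 : T = ⊥
    · exact Or.inl hT1
    right
    apply le_antisymm hTS
    -- an involution in `T`
    obtain ⟨t, ht, hto⟩ : ∃ t ∈ T, orderOf t = 2 := by
      have : Nontrivial T := (nontrivial_iff_ne_bot T).2 hT1
      have hTp : IsPGroup 2 T := hSp.to_le hTS
      obtain ⟨n, hn0, hn⟩ := hTp.nontrivial_iff_card.1 inferInstance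
      obtain ⟨t, ht⟩ := exists_prime_orderOf_dvd_card' (G := T) 2 (by rw [hn]; exact dvd_pow_self 2 hn0.ne')
      exact ⟨t, t.2, (orderOf_coe t).trans ht⟩
    have hall : ∀ x ∈ (S : Subgroup (ProjectiveSpecialLinearGroup (Fin 2) F)), x * x = 1 → x ∈ T := by
      intro x hx hxx
      by_cases hx1 : x = 1
      · rw [hx1]; exact one_mem T
      have hxo : orderOf x = 2 := orderOf_eq_prime (by rw [pow_two]; exact hxx) hx1
      obtain ⟨g, hg⟩ := _root_.isConj_iff.1 (hinv t x hto hxo)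
      rw [← hg]
      exact hT2 t ht g (by rw [hg]; exact hx)
    have hbT := hall b hbS hbb
    intro x hx
    rcases hcov x hx with h | ⟨h, -⟩
    · obtain ⟨i, rfl⟩ := mem_zpowers_iff.1 h
      have h1 := hall (b * a ^ i) (mul_mem hbS hx) (hcos i)
      have : a ^ i = b⁻¹ * (b * a ^ i) := by group
      rw [this]
      exact mul_mem (inv_mem hbT) h1
    · exact hall x hx h
  · apply le_antisymm
    · intro α hα
      obtain ⟨g, -, hg⟩ := mem_autInducedBy'.1 hα
      have hgN : g ∈ normalizer ((S : Subgroup (ProjectiveSpecialLinearGroup (Fin 2) F)) : Set _) := by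
        rw [mem_normalizer_iff]
        intro x
        constructor
        · intro hx
          rw [← hg ⟨x, hx⟩]; exact (α ⟨x, hx⟩).2
        · intro hx
          have h1 := hg (α.symm ⟨g * x * g⁻¹, hx⟩)
          rw [MulEquiv.apply_symm_apply] at h1
          have h2 : x = (α.symm ⟨g * x * g⁻¹, hx⟩ : ↥(S : Subgroup (ProjectiveSpecialLinearGroup (Fin 2) F))) := by
            have h3 : g * x * g⁻¹ = g * ((α.symm ⟨g * x * g⁻¹, hx⟩ : ↥(S : Subgroup (ProjectiveSpecialLinearGroup (Fin 2) F))) : ProjectiveSpecialLinearGroup (Fin 2) F) * g⁻¹ := h1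
            have := mul_left_cancel (mul_right_cancel h3)
            exact this
          rw [h2]; exact SetLike.coe_mem _
      -- split `g`
      have ho : orderOf g ≠ 0 := (orderOf_pos g).ne'
      set n := orderOf g with hn
      obtain ⟨j, m, hm2, hjm⟩ := Nat.exists_eq_two_pow_mul_odd ho
      have hcop : Nat.Coprime m (2 ^ j) := Nat.Coprime.pow_right j (Nat.coprime_two_right.2 hm2)
      have hpos : 0 < 2 ^ j := by positivity
      have hmpos : 0 < m := hm2.pos
      have ho1 : orderOf (g ^ m) = 2 ^ j := by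
        rw [orderOf_pow, ← hn, hjm, Nat.gcd_mul_left_left, Nat.mul_div_cancel _ hmpos]
      have ho2 : orderOf (g ^ 2 ^ j) = m := by
        rw [orderOf_pow, ← hn, hjm, Nat.gcd_mul_right_left, Nat.mul_div_cancel_left _ hpos]
      have hcent := dih_odd_centralizes hSp ⟨haS, hbS, hbb, haa, hcov, hcos⟩ (pow_mem hgN (2 ^ j))
        (by rw [ho2]; exact Nat.coprime_two_right.2 hm2)
      have hbez : (m : ℤ) * Nat.gcdA m (2 ^ j) + ((2 ^ j : ℕ) : ℤ) * Nat.gcdB m (2 ^ j) = 1 := by
        rw [← Nat.gcd_eq_gcd_ab, Nat.coprime_iff_gcd_eq_one.1 hcop]; rfl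
      set k := (g ^ m) ^ (Nat.gcdA m (2 ^ j)) with hk
      have hgk : g = k * (g ^ 2 ^ j) ^ (Nat.gcdB m (2 ^ j)) := by
        rw [hk, ← zpow_natCast g m, ← _root_.zpow_mul, ← zpow_natCast g (2 ^ j), ← _root_.zpow_mul, ← _root_.zpow_add, hbez, zpow_one]
      have hcent2 : ∀ x ∈ (S : Subgroup (ProjectiveSpecialLinearGroup (Fin 2) F)),
          (g ^ 2 ^ j) ^ (Nat.gcdB m (2 ^ j)) * x * ((g ^ 2 ^ j) ^ (Nat.gcdB m (2 ^ j)))⁻¹ = x := by
        intro x hx
        have hc : Commute (g ^ 2 ^ j) x := by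
          have := hcent x hx
          exact mul_inv_eq_iff_eq_mul.1 this
        have hc2 : Commute ((g ^ 2 ^ j) ^ (Nat.gcdB m (2 ^ j))) x := hc.zpow_left _
        rw [hc2.eq, mul_assoc, mul_inv_cancel, mul_one]
      have hle := le_iSup₂_of_le (f := fun (R : Subgroup (ProjectiveSpecialLinearGroup (Fin 2) F))
        (_ : (groupFusionSystem (S : Subgroup (ProjectiveSpecialLinearGroup (Fin 2) F))).IsFullyNormalized R ∧
          (groupFusionSystem (S : Subgroup (ProjectiveSpecialLinearGroup (Fin 2) F))).IsRadical 2 R ∧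
          (groupFusionSystem (S : Subgroup (ProjectiveSpecialLinearGroup (Fin 2) F))).IsCentric R) =>
          autInducedBy (Subgroup.closure {g : ProjectiveSpecialLinearGroup (Fin 2) F |
            g ∈ Subgroup.normalizer (R : Set (ProjectiveSpecialLinearGroup (Fin 2) F)) ∧ ∃ k : ℕ, orderOf g = 2 ^ k})
            (S : Subgroup (ProjectiveSpecialLinearGroup (Fin 2) F)))
        (S : Subgroup (ProjectiveSpecialLinearGroup (Fin 2) F)) ⟨fullyNormalized_top _,
        radical_top hSp (group_saturated (isSyl_sylow S)), centric_top _⟩ le_rfl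
      refine hle ?_
      refine mem_autInducedBy'.2 ⟨k, subset_closure ⟨zpow_mem (pow_mem hgN m) _, ?_⟩, ?_⟩
      · have h1 : orderOf k ∣ 2 ^ j := by
          rw [← ho1]
          exact orderOf_dvd_of_mem_zpowers (zpow_mem (mem_zpowers _) _)
        obtain ⟨l, -, hl⟩ := (Nat.dvd_prime_pow Nat.prime_two).1 h1
        exact ⟨l, hl⟩
      · intro x
        have h1 : k * (x : ProjectiveSpecialLinearGroup (Fin 2) F) * k⁻¹ =
            k * ((g ^ 2 ^ j) ^ (Nat.gcdB m (2 ^ j)) * x * ((g ^ 2 ^ j) ^ (Nat.gcdB m (2 ^ j)))⁻¹) * k⁻¹ := by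
          rw [hcent2 x x.2]
        rw [h1]
        have h2 : k * ((g ^ 2 ^ j) ^ (Nat.gcdB m (2 ^ j)) * x * ((g ^ 2 ^ j) ^ (Nat.gcdB m (2 ^ j)))⁻¹) * k⁻¹ =
            (k * (g ^ 2 ^ j) ^ (Nat.gcdB m (2 ^ j))) * x * (k * (g ^ 2 ^ j) ^ (Nat.gcdB m (2 ^ j)))⁻¹ := by group
        rw [h2, ← hgk]
        exact hg x
    · refine iSup₂_le fun R _ => ?_
      intro α hα
      obtain ⟨g, -, hg⟩ := mem_autInducedBy'.1 hα
      exact mem_autInducedBy'.2 ⟨g, mem_top g, hg⟩

end CfsgH8.PSLD
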