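import Cfsg.Agent.H8.PStabF

set_option autoImplicit false
set_option linter.style.haveILetI false
set_option linter.unusedSectionVars false
set_option linter.unusedVariables false

/-! `p`-stability of a group and of its fusion system. -/

namespace CfsgH8
open Cfsg Cfsg.FusionSystem
open scoped commutatorElement

universe u v w

variable {Ω : Type u} [Group Ω] {S P Q R A : Subgroup Ω} {F : FusionSystem S} {p : ℕ} {f g : Ω → Ω}

theorem cjHom_ker (Q : Subgroup Ω) : (cjHom Q).ker = (Subgroup.centralizer (Q : Set Ω)).subgroupOf (Subgroup.normalizer (Q : Set Ω)) := by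
  ext g
  rw [MonoidHom.mem_ker, Subgroup.mem_subgroupOf, Subgroup.mem_centralizer_iff]
  constructor
  · intro h x hx
    have h1 := av_cjHom g hx
    rw [h, av_one hx] at h1
    rw [eq_comm, mul_inv_eq_iff_eq_mul] at h1
    exact h1.symm
  · intro h
    apply aut_ext; intro x hx
    rw [av_cjHom g hx, av_one hx, mul_inv_eq_iff_eq_mul]
    exact (h x hx).symm

/-- the quotient of the normalizer by the centralizer -/
noncomputable def quoEquiv (Q : Subgroup Ω) : ↥(Subgroup.normalizer (Q : Set Ω)) ⧸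
    (Subgroup.centralizer (Q : Set Ω)).subgroupOf (Subgroup.normalizer (Q : Set Ω)) ≃* (cjHom Q).range :=
  (QuotientGroup.quotientMulEquivOfEq (cjHom_ker Q).symm).trans (QuotientGroup.quotientKerEquivRange (cjHom Q))

theorem quoEquiv_mk (Q : Subgroup Ω) (g : ↥(Subgroup.normalizer (Q : Set Ω))) :
    ((quoEquiv Q (QuotientGroup.mk g) : (cjHom Q).range) : MulAut ↥Q) = cjHom Q g := rfl

theorem mem_pCore_equiv {G : Type*} [Group G] {H : Type*} [Group H] [Finite G] [Finite H] [Fact p.Prime] (e : G ≃* H) {x : G} (hx : x ∈ pCore p G) :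
    e x ∈ pCore p H := by
  have h : (pCore p G).Normal := pCore_normal p _
  have h1 : ((pCore p G).map e.toMonoidHom).Normal := h.map _ e.surjective
  exact le_pCore h1 (pCore_isPGroup.map _) ⟨x, hx, rfl⟩

theorem mem_pCore_equiv_iff {G : Type*} [Group G] {H : Type*} [Group H] [Finite G] [Finite H] [Fact p.Prime] (e : G ≃* H) {x : G} :
    e x ∈ pCore p H ↔ x ∈ pCore p G := by
  refine ⟨fun h => ?_, mem_pCore_equiv e⟩
  have := mem_pCore_equiv e.symm h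
  rwa [MulEquiv.symm_apply_apply] at this

theorem quad_iff_comm [Finite Ω] (g : ↥(Subgroup.normalizer (Q : Set Ω))) :
    Quad (cjHom Q g) ↔ ⁅⁅Q, Subgroup.zpowers (g : Ω)⁆, Subgroup.zpowers (g : Ω)⁆ = ⊥ := by
  have key : ∀ a : ↥Q, (cjHom Q g) a = ⟨(g : Ω) * a * (g : Ω)⁻¹, (Subgroup.mem_normalizer_iff.1 g.2 a).1 a.2⟩ := by
    intro a
    apply Subtype.ext
    have := av_cjHom g a.2
    rw [av_coe] at this
    exact this
  constructor
  · intro h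
    rw [Subgroup.commutator_eq_bot_iff_le_centralizer, Subgroup.commutator_le]
    intro a ha y hy
    have hy' := (mem_powers_iff_mem_zpowers).2 hy
    obtain ⟨k, rfl⟩ := hy'
    have h1 := quad_pow h (⟨a, ha⟩⁻¹ : ↥Q) k
    have h2 : ((cjHom Q g ^ k) (⟨a, ha⟩⁻¹ : ↥Q) : Ω) = (g : Ω) ^ k * a⁻¹ * ((g : Ω) ^ k)⁻¹ := by
      rw [← map_pow]
      have := av_cjHom (g ^ k) (P := Q) (Q.inv_mem ha)
      rw [av_of_mem _ (Q.inv_mem ha)] at this
      exact this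
    have h3 : ⁅a, (g : Ω) ^ k⁆ = a * ((g : Ω) ^ k * a⁻¹ * ((g : Ω) ^ k)⁻¹) := by
      rw [commutatorElement_def]; group
    show ⁅a, (g : Ω) ^ k⁆ ∈ _
    rw [h3, ← h2, h1]
    have h4 : a * ((((⟨a, ha⟩⁻¹ : ↥Q) * ((⟨a, ha⟩⁻¹ : ↥Q)⁻¹ * (cjHom Q g) (⟨a, ha⟩⁻¹ : ↥Q)) ^ k : ↥Q)) : Ω)
        = ((((⟨a, ha⟩⁻¹ : ↥Q)⁻¹ * (cjHom Q g) (⟨a, ha⟩⁻¹ : ↥Q)) : ↥Q) : Ω) ^ k := by
      simp
    rw [h4]
    apply Subgroup.pow_mem
    rw [Subgroup.mem_centralizer_iff]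
    rintro _ ⟨m, rfl⟩
    have h5 : (g : Ω) * ((((⟨a, ha⟩⁻¹ : ↥Q)⁻¹ * (cjHom Q g) (⟨a, ha⟩⁻¹ : ↥Q)) : ↥Q) : Ω) =
       ((((⟨a, ha⟩⁻¹ : ↥Q)⁻¹ * (cjHom Q g) (⟨a, ha⟩⁻¹ : ↥Q)) : ↥Q) : Ω) * (g : Ω) := by
      have h6 := h (⟨a, ha⟩⁻¹ : ↥Q)
      have h7 := congrArg (fun z : ↥Q => (z : Ω)) h6
      simp only [key, Subgroup.coe_mul, Subgroup.coe_inv, Subgroup.coe_one, inv_inv] at h7 ⊢
      have h8 : ((g : Ω) * a * (g : Ω)⁻¹) * ((g : Ω) * ((g : Ω) * a⁻¹ * (g : Ω)⁻¹) * (g : Ω)⁻¹) = a * ((g : Ω) * a⁻¹ * (g : Ω)⁻¹) := by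
        have h9 : ((g : Ω) * a * (g : Ω)⁻¹ * a⁻¹) * (((g : Ω) * a * (g : Ω)⁻¹) * ((g : Ω) * ((g : Ω) * a⁻¹ * (g : Ω)⁻¹) * (g : Ω)⁻¹)) = 1 := by
          rw [← h7]; simp only [mul_assoc]
        rw [eq_inv_of_mul_eq_one_right h9]
        group
      have h10 : (g : Ω) * (a * ((g : Ω) * a⁻¹ * (g : Ω)⁻¹)) * (g : Ω)⁻¹ = a * ((g : Ω) * a⁻¹ * (g : Ω)⁻¹) := by
        refine Eq.trans ?_ h8
        simp only [mul_assoc, inv_mul_cancel_left]
      exact mul_inv_eq_iff_eq_mul.1 h10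
    exact ((Commute.zpow_left (show Commute (g : Ω) _ from h5) m)).eq
  · intro h a
    rw [Subgroup.commutator_eq_bot_iff_le_centralizer, Subgroup.commutator_le] at h
    have h1 := h (a⁻¹ : ↥Q) (a⁻¹ : ↥Q).2 g (Subgroup.mem_zpowers _)
    rw [Subgroup.mem_centralizer_iff] at h1
    have h2 := h1 g (Subgroup.mem_zpowers _)
    apply Subtype.ext
    simp only [key, Subgroup.coe_mul, Subgroup.coe_inv, Subgroup.coe_one, commutatorElement_def, inv_inv] at h2 ⊢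
    have h3 : (g : Ω) * ((a : Ω)⁻¹ * (g : Ω) * a * (g : Ω)⁻¹) * (g : Ω)⁻¹ = (a : Ω)⁻¹ * (g : Ω) * a * (g : Ω)⁻¹ := by
      rw [h2]; simp only [mul_assoc, mul_inv_cancel, mul_one]
    have h4 : (g : Ω) * (a : Ω)⁻¹ * (g : Ω)⁻¹ * ((g : Ω) * ((g : Ω) * a * (g : Ω)⁻¹) * (g : Ω)⁻¹) = (a : Ω)⁻¹ * (g : Ω) * a * (g : Ω)⁻¹ := by
      refine Eq.trans ?_ h3
      simp only [mul_assoc, inv_mul_cancel_left]
    have h5 : (g : Ω) * (a : Ω)⁻¹ * (g : Ω)⁻¹ * a * ((g : Ω) * (a : Ω)⁻¹ * (g : Ω)⁻¹) * ((g : Ω) * ((g : Ω) * a * (g : Ω)⁻¹) * (g : Ω)⁻¹) =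
      (g : Ω) * (a : Ω)⁻¹ * (g : Ω)⁻¹ * a * ((g : Ω) * (a : Ω)⁻¹ * (g : Ω)⁻¹ * ((g : Ω) * ((g : Ω) * a * (g : Ω)⁻¹) * (g : Ω)⁻¹)) := by
      simp only [mul_assoc]
    rw [h5, h4]
    group

theorem quad_group [Finite Ω] [hp : Fact p.Prime] (Q : Subgroup Ω) : QSat (groupFusionSystem (⊤ : Subgroup Ω)) p Q ↔
    ∀ (g : Ω) (hg : g ∈ Subgroup.normalizer (Q : Set Ω)),
    ⁅⁅Q, Subgroup.zpowers g⁆, Subgroup.zpowers g⁆ = ⊥ →
      (QuotientGroup.mk (s := (Subgroup.centralizer (Q : Set Ω)).subgroupOf (Subgroup.normalizer (Q : Set Ω)))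
          (⟨g, hg⟩ : ↥(Subgroup.normalizer (Q : Set Ω)))) ∈
        pCore p (↥(Subgroup.normalizer (Q : Set Ω)) ⧸
          (Subgroup.centralizer (Q : Set Ω)).subgroupOf (Subgroup.normalizer (Q : Set Ω))) := by
  rw [QSat, group_autGroup le_top]
  constructor
  · intro h g hg hcomm
    have h1 := h (cjHom Q ⟨g, hg⟩) ⟨_, rfl⟩ ((quad_iff_comm ⟨g, hg⟩).2 hcomm)
    rw [← mem_pCore_equiv_iff (quoEquiv Q)]
    obtain ⟨y, hy, hy1⟩ := h1
    have : quoEquiv Q (QuotientGroup.mk (⟨g, hg⟩ : ↥(Subgroup.normalizer (Q : Set Ω)))) = y := Subtype.ext hy1.symm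
    rwa [this]
  · rintro h _ ⟨g, rfl⟩ hquad
    have h1 := h g g.2 ((quad_iff_comm g).1 hquad)
    rw [← mem_pCore_equiv_iff (quoEquiv Q)] at h1
    exact ⟨_, h1, rfl⟩

theorem group_pstable [Finite Ω] [hp : Fact p.Prime] (T : Sylow p Ω) : IsNormalizerPStable p Ω ↔
    ∀ Q : Subgroup Ω, (groupFusionSystem (T : Subgroup Ω)).IsFullyNormalized Q → QSat (groupFusionSystem (T : Subgroup Ω)) p Q := by
  have key : ∀ Q : Subgroup Ω, Q ≤ T → (QSat (groupFusionSystem (T : Subgroup Ω)) p Q ↔ QSat (groupFusionSystem (⊤ : Subgroup Ω)) p Q) := by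
    intro Q hQ
    rw [QSat, QSat, group_autGroup hQ, group_autGroup le_top]
  constructor
  · intro h Q hQ
    rw [key Q hQ.1, quad_group]
    exact h Q (T.isPGroup'.to_le hQ.1)
  · intro h Q hQ
    show ∀ (g : Ω) (hg : g ∈ Subgroup.normalizer (Q : Set Ω)), _
    rw [← quad_group]
    obtain ⟨T', hT'⟩ := hQ.exists_le_sylow
    obtain ⟨g, hg⟩ := MulAction.exists_smul_eq Ω T' T
    have h1 : img (cj g) Q ≤ T := by
      rw [img_le]
      intro x hx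
      rw [← hg]
      exact Subgroup.smul_mem_pointwise_smul _ _ _ (hT' hx)
    have h2 : Mor (groupFusionSystem (⊤ : Subgroup Ω)) Q (cj g) := mor_group.2 ⟨le_top, fun _ _ => trivial, g, fun _ _ => rfl⟩
    exact QSat.conj ((key _ h1).1 (qsat_all h h1)) h2

end CfsgH8
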