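import Cfsg.Agent.H8.FusSat2
import Cfsg.Agent.H8.Syl
import Cfsg.Agent.H8.FusMk
import Cfsg.Prelude.Def_FusionComponents

set_option autoImplicit false
set_option linter.style.haveILetI false
set_option linter.unusedSectionVars false
set_option linter.unusedVariables false

/-! Direct products of fusion systems. -/

namespace CfsgH8
open Cfsg Cfsg.FusionSystem

variable {Ω₁ Ω₂ : Type*} [Group Ω₁] [Group Ω₂] {S₁ : Subgroup Ω₁} {S₂ : Subgroup Ω₂}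
  {F₁ : FusionSystem S₁} {F₂ : FusionSystem S₂} {P Q R : Subgroup (Ω₁ × Ω₂)} {f g : Ω₁ × Ω₂ → Ω₁ × Ω₂}

/-- first projection -/
abbrev pr1 (P : Subgroup (Ω₁ × Ω₂)) : Subgroup Ω₁ := P.map (MonoidHom.fst Ω₁ Ω₂)
/-- second projection -/
abbrev pr2 (P : Subgroup (Ω₁ × Ω₂)) : Subgroup Ω₂ := P.map (MonoidHom.snd Ω₁ Ω₂)

theorem mem_pr1 {x : Ω₁ × Ω₂} (h : x ∈ P) : x.1 ∈ pr1 P := ⟨x, h, rfl⟩
theorem mem_pr2 {x : Ω₁ × Ω₂} (h : x ∈ P) : x.2 ∈ pr2 P := ⟨x, h, rfl⟩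

/-- morphisms of the product -/
def PrMor (F₁ : FusionSystem S₁) (F₂ : FusionSystem S₂) (P : Subgroup (Ω₁ × Ω₂)) (f : Ω₁ × Ω₂ → Ω₁ × Ω₂) : Prop :=
  P ≤ S₁.prod S₂ ∧ ∃ f1, Mor F₁ (pr1 P) f1 ∧ ∃ f2, Mor F₂ (pr2 P) f2 ∧ ∀ x ∈ P, f x = (f1 x.1, f2 x.2)

theorem prMor_mulOn (h : PrMor F₁ F₂ P f) : MulOn P f := by
  obtain ⟨h0, f1, h1, f2, h2, h3⟩ := h
  intro x hx y hy
  rw [h3 _ (mul_mem hx hy), h3 x hx, h3 y hy]
  exact Prod.ext (h1.mulOn _ (mem_pr1 hx) _ (mem_pr1 hy)) (h2.mulOn _ (mem_pr2 hx) _ (mem_pr2 hy))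

theorem prMor_injOn (h : PrMor F₁ F₂ P f) : Set.InjOn f P := by
  obtain ⟨h0, f1, h1, f2, h2, h3⟩ := h
  intro x hx y hy hxy
  rw [h3 x hx, h3 y hy] at hxy
  have e := Prod.ext_iff.1 hxy
  exact Prod.ext (h1.injOn (mem_pr1 hx) (mem_pr1 hy) e.1) (h2.injOn (mem_pr2 hx) (mem_pr2 hy) e.2)

theorem pr1_img {f1 : Ω₁ → Ω₁} {f2 : Ω₂ → Ω₂} (hf : MulOn P f) (h1 : MulOn (pr1 P) f1) (h : ∀ x ∈ P, f x = (f1 x.1, f2 x.2)) :
    pr1 (img f P) = img f1 (pr1 P) := by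
  apply le_antisymm
  · rintro _ ⟨y, hy, rfl⟩
    obtain ⟨x, hx, rfl⟩ := (mem_img hf).1 hy
    show (f x).1 ∈ _
    rw [h x hx]
    exact mem_img_of_mem _ (mem_pr1 hx)
  · rw [img_le]
    rintro _ ⟨x, hx, rfl⟩
    exact ⟨f x, mem_img_of_mem _ hx, by rw [h x hx]; rfl⟩

theorem pr2_img {f1 : Ω₁ → Ω₁} {f2 : Ω₂ → Ω₂} (hf : MulOn P f) (h1 : MulOn (pr2 P) f2) (h : ∀ x ∈ P, f x = (f1 x.1, f2 x.2)) :
    pr2 (img f P) = img f2 (pr2 P) := by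
  apply le_antisymm
  · rintro _ ⟨y, hy, rfl⟩
    obtain ⟨x, hx, rfl⟩ := (mem_img hf).1 hy
    show (f x).2 ∈ _
    rw [h x hx]
    exact mem_img_of_mem _ (mem_pr2 hx)
  · rw [img_le]
    rintro _ ⟨x, hx, rfl⟩
    exact ⟨f x, mem_img_of_mem _ hx, by rw [h x hx]; rfl⟩

theorem pr1_le (h : P ≤ S₁.prod S₂) : pr1 P ≤ S₁ := by
  rintro _ ⟨x, hx, rfl⟩
  exact (h hx).1

theorem pr2_le (h : P ≤ S₁.prod S₂) : pr2 P ≤ S₂ := by
  rintro _ ⟨x, hx, rfl⟩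
  exact (h hx).2

/-- the product system -/
noncomputable def prData (F₁ : FusionSystem S₁) (F₂ : FusionSystem S₂) : FSData (S₁.prod S₂) where
  M P f := PrMor F₁ F₂ P f
  congr := by
    rintro P f g ⟨h0, f1, h1, f2, h2, h3⟩ hfg
    exact ⟨h0, f1, h1, f2, h2, fun x hx => by rw [← hfg x hx, h3 x hx]⟩
  le h := h.1
  mem := by
    rintro P f ⟨h0, f1, h1, f2, h2, h3⟩ x hx
    rw [h3 x hx]
    exact ⟨h1.mem_S (mem_pr1 hx), h2.mem_S (mem_pr2 hx)⟩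
  mul := prMor_mulOn
  inj := prMor_injOn
  conj := by
    intro P g hP hg
    exact ⟨hP, _, mor_cj (pr1_le hP) hg.1, _, mor_cj (pr2_le hP) hg.2, fun x hx => rfl⟩
  comp := by
    rintro P Q f g ⟨h0, f1, h1, f2, h2, h3⟩ ⟨k0, g1, k1, g2, k2, k3⟩ hfg
    refine ⟨h0, _, k1.comp h1 ?_, _, k2.comp h2 ?_, fun x hx => ?_⟩
    · rintro _ ⟨x, hx, rfl⟩
      have := hfg x hx
      rw [h3 x hx] at this
      exact mem_pr1 this
    · rintro _ ⟨x, hx, rfl⟩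
      have := hfg x hx
      rw [h3 x hx] at this
      exact mem_pr2 this
    · show g (f x) = _
      rw [k3 _ (hfg x hx), h3 x hx]
      rfl
  inv := by
    intro P f hf
    have hm := prMor_mulOn hf
    have hi := prMor_injOn hf
    obtain ⟨h0, f1, h1, f2, h2, h3⟩ := hf
    refine ⟨?_, invF f1 (pr1 P), ?_, invF f2 (pr2 P), ?_, ?_⟩
    · rw [img_le]
      intro x hx
      rw [h3 x hx]
      exact ⟨h1.mem_S (mem_pr1 hx), h2.mem_S (mem_pr2 hx)⟩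
    · rw [pr1_img hm h1.mulOn h3]; exact h1.inv
    · rw [pr2_img hm h2.mulOn h3]; exact h2.inv
    · intro y hy
      obtain ⟨x, hx, rfl⟩ := (mem_img hm).1 hy
      rw [invF_f hi hx, h3 x hx]
      exact Prod.ext (h1.invF_f (mem_pr1 hx)).symm (h2.invF_f (mem_pr2 hx)).symm

theorem product_iff {E : FusionSystem (S₁.prod S₂)} : IsProductSystem F₁ F₂ E ↔ ∀ P f, Mor E P f ↔ PrMor F₁ F₂ P f := by
  constructor
  · intro h P f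
    constructor
    · rintro ⟨φ, hφ, hφf⟩
      obtain ⟨h0, φ₁, h1, φ₂, h2, h3⟩ := (h P φ).1 hφ
      refine ⟨h0, _, mor_of_hom h1, _, mor_of_hom h2, fun x hx => ?_⟩
      rw [← hφf ⟨x, hx⟩, h3 ⟨x, hx⟩ (mem_pr1 hx) (mem_pr2 hx), extF_of_mem _ (mem_pr1 hx), extF_of_mem _ (mem_pr2 hx)]
    · intro hf
      have hm := prMor_mulOn hf
      obtain ⟨h0, f1, h1, f2, h2, h3⟩ := hf
      refine ⟨hm.hom, (h P _).2 ⟨h0, _, h1.hom_mem, _, h2.hom_mem, fun x _ _ => h3 x x.2⟩, fun _ => rfl⟩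
  · intro h P φ
    rw [hom_iff, h P]
    constructor
    · rintro ⟨h0, f1, h1, f2, h2, h3⟩
      exact ⟨h0, _, h1.hom_mem, _, h2.hom_mem, fun x _ _ => by rw [← extF_coe (φ : P → Ω₁ × Ω₂) x, h3 x x.2]; rfl⟩
    · rintro ⟨h0, φ₁, h1, φ₂, h2, h3⟩
      refine ⟨h0, _, mor_of_hom h1, _, mor_of_hom h2, fun x hx => ?_⟩
      rw [extF_of_mem _ hx, h3 ⟨x, hx⟩ (mem_pr1 hx) (mem_pr2 hx), extF_of_mem _ (mem_pr1 hx), extF_of_mem _ (mem_pr2 hx)]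

theorem exists_product (F₁ : FusionSystem S₁) (F₂ : FusionSystem S₂) : ∃ E : FusionSystem (S₁.prod S₂), IsProductSystem F₁ F₂ E :=
  ⟨(prData F₁ F₂).fs, product_iff.2 fun P f => (prData F₁ F₂).mor_fs⟩

end CfsgH8
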