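import Cfsg.Agent.H8.Prod

set_option autoImplicit false
set_option linter.style.haveILetI false
set_option linter.unusedSectionVars false
set_option linter.unusedVariables false

/-! The direct product of saturated fusion systems is saturated. -/

namespace CfsgH8
open Cfsg Cfsg.FusionSystem

variable {Ω₁ Ω₂ : Type*} [Group Ω₁] [Group Ω₂] {S₁ : Subgroup Ω₁} {S₂ : Subgroup Ω₂}
  {F₁ : FusionSystem S₁} {F₂ : FusionSystem S₂} {P Q R : Subgroup (Ω₁ × Ω₂)} {f g : Ω₁ × Ω₂ → Ω₁ × Ω₂}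
  {E : FusionSystem (S₁.prod S₂)} {p : ℕ} [hp : Fact p.Prime]

theorem isPGroup_prod {G H : Type*} [Group G] [Group H] {A : Subgroup G} {B : Subgroup H} (hA : IsPGroup p A) (hB : IsPGroup p B) :
    IsPGroup p (A.prod B) := by
  rintro ⟨⟨a, b⟩, ha, hb⟩
  obtain ⟨k, hk⟩ := hA ⟨a, ha⟩
  obtain ⟨l, hl⟩ := hB ⟨b, hb⟩
  have hk' : a ^ p ^ k = 1 := congrArg Subtype.val hk
  have hl' : b ^ p ^ l = 1 := congrArg Subtype.val hl
  refine ⟨k + l, Subtype.ext (Prod.ext ?_ ?_)⟩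
  · show a ^ p ^ (k + l) = 1
    rw [pow_add, pow_mul, hk', one_pow]
  · show b ^ p ^ (k + l) = 1
    rw [pow_add, mul_comm, pow_mul, hl', one_pow]

theorem isSyl_prod {G H : Type*} [Group G] [Group H] {K1 H1 : Subgroup G} {K2 H2 : Subgroup H} (h1 : IsSyl p K1 H1) (h2 : IsSyl p K2 H2) :
    IsSyl p (K1.prod K2) (H1.prod H2) := by
  refine ⟨Subgroup.prod_mono h1.1 h2.1, isPGroup_prod h1.2.1 h2.2.1, ?_⟩
  have e : (K1.prod K2).relIndex (H1.prod H2) = K1.relIndex H1 * K2.relIndex H2 := by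
    unfold Subgroup.relIndex
    rw [← Subgroup.index_prod]
    have e1 : (K1.prod K2).subgroupOf (H1.prod H2) = ((K1.subgroupOf H1).prod (K2.subgroupOf H2)).comap (H1.prodEquiv H2).toMonoidHom := rfl
    rw [e1, Subgroup.index_comap_of_surjective _ (MulEquiv.surjective _)]
  rw [e, hp.out.dvd_mul]
  exact not_or.2 ⟨h1.2.2, h2.2.2⟩

theorem product_receptive [Finite S₁] [Finite S₂] (hE : ∀ P f, Mor E P f ↔ PrMor F₁ F₂ P f) (hP : P ≤ S₁.prod S₂)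
    (r1 : F₁.IsReceptive (pr1 P)) (r2 : F₂.IsReceptive (pr2 P)) : E.IsReceptive P := by
  refine isReceptive_iff.2 ⟨hP, fun R f hf hR => ?_⟩
  have hf' := (hE _ _).1 hf
  obtain ⟨h0, f1, h1, f2, h2, h3⟩ := hf'
  have e1 : img f1 (pr1 R) = pr1 P := by rw [← hR, pr1_img hf.mulOn h1.mulOn h3]
  have e2 : img f2 (pr2 R) = pr2 P := by rw [← hR, pr2_img hf.mulOn h2.mulOn h3]
  obtain ⟨g1, hg1, hg1'⟩ := (isReceptive_iff.1 r1).2 _ _ h1 e1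
  obtain ⟨g2, hg2, hg2'⟩ := (isReceptive_iff.1 r2).2 _ _ h2 e2
  have hconj : ∀ x ∈ Nf (S₁.prod S₂) R f hf.mulOn, ∀ y ∈ R, x * y * x⁻¹ ∈ R := by
    intro x hx y hy
    exact (Subgroup.mem_normalizer_iff.1 (mem_Nf.1 hx).2.1 y).1 hy
  have hinv : ∀ x ∈ Nf (S₁.prod S₂) R f hf.mulOn, ∀ y ∈ R, x⁻¹ * y * x ∈ R := by
    intro x hx y hy
    have := hconj x⁻¹ (inv_mem hx) y hy
    rwa [inv_inv] at this
  refine ⟨fun x => (g1 x.1, g2 x.2), (hE _ _).2 ⟨Nf_le_S, g1, hg1.mono ?_, g2, hg2.mono ?_, fun _ _ => rfl⟩, fun x hx => ?_⟩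
  · rintro _ ⟨x, hx, rfl⟩
    obtain ⟨hx1, hx2, s, hs, hx3⟩ := mem_Nf.1 hx
    refine mem_Nf.2 ⟨hx1.1, ?_, s.1, hs.1, ?_⟩
    · rw [Subgroup.mem_normalizer_iff]
      intro y
      constructor
      · rintro ⟨z, hz, rfl⟩
        exact ⟨_, hconj x hx z hz, rfl⟩
      · rintro ⟨z, hz, hzy⟩
        refine ⟨_, hinv x hx z hz, ?_⟩
        show x.1⁻¹ * z.1 * x.1 = y
        have hzy' : z.1 = x.1 * y * x.1⁻¹ := hzy
        rw [hzy']; group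
    · rintro _ ⟨z, hz, rfl⟩
      have := hx3 z hz
      rw [h3 _ (hconj x hx z hz), h3 z hz] at this
      exact (Prod.ext_iff.1 this).1
  · rintro _ ⟨x, hx, rfl⟩
    obtain ⟨hx1, hx2, s, hs, hx3⟩ := mem_Nf.1 hx
    refine mem_Nf.2 ⟨hx1.2, ?_, s.2, hs.2, ?_⟩
    · rw [Subgroup.mem_normalizer_iff]
      intro y
      constructor
      · rintro ⟨z, hz, rfl⟩
        exact ⟨_, hconj x hx z hz, rfl⟩
      · rintro ⟨z, hz, hzy⟩
        refine ⟨_, hinv x hx z hz, ?_⟩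
        show x.2⁻¹ * z.2 * x.2 = y
        have hzy' : z.2 = x.2 * y * x.2⁻¹ := hzy
        rw [hzy']; group
    · rintro _ ⟨z, hz, rfl⟩
      have := hx3 z hz
      rw [h3 _ (hconj x hx z hz), h3 z hz] at this
      exact (Prod.ext_iff.1 this).2
  · rw [h3 x hx, ← hg1' _ (mem_pr1 hx), ← hg2' _ (mem_pr2 hx)]

/-- pairs of automorphisms as maps -/
noncomputable def pav {Q1 : Subgroup Ω₁} {Q2 : Subgroup Ω₂} (a : MulAut Q1 × MulAut Q2) : Ω₁ × Ω₂ → Ω₁ × Ω₂ :=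
  fun x => (av a.1 x.1, av a.2 x.2)

/-- pairs stabilizing `P` -/
def Bst (F₁ : FusionSystem S₁) (F₂ : FusionSystem S₂) (Q1 : Subgroup Ω₁) (Q2 : Subgroup Ω₂) (P : Subgroup (Ω₁ × Ω₂))
    (h1 : pr1 P = Q1) (h2 : pr2 P = Q2) : Subgroup (MulAut Q1 × MulAut Q2) where
  carrier := {a | a.1 ∈ F₁.autGroup Q1 ∧ a.2 ∈ F₂.autGroup Q2 ∧ (∀ x ∈ P, pav a x ∈ P) ∧ ∀ x ∈ P, pav a⁻¹ x ∈ P}
  one_mem' := by
    have e : ∀ x ∈ P, pav (1 : MulAut Q1 × MulAut Q2) x = x := fun x hx =>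
      Prod.ext (av_one (h1 ▸ mem_pr1 hx)) (av_one (h2 ▸ mem_pr2 hx))
    refine ⟨one_mem _, one_mem _, fun x hx => ?_, fun x hx => ?_⟩
    · rw [e x hx]; exact hx
    · rw [inv_one, e x hx]; exact hx
  mul_mem' := by
    rintro a b ⟨a1, a2, a3, a4⟩ ⟨b1, b2, b3, b4⟩
    have e : ∀ a b : MulAut Q1 × MulAut Q2, ∀ x ∈ P, pav (a * b) x = pav a (pav b x) := fun a b x hx =>
      Prod.ext (av_mul _ _ (h1 ▸ mem_pr1 hx)) (av_mul _ _ (h2 ▸ mem_pr2 hx))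
    refine ⟨mul_mem a1 b1, mul_mem a2 b2, fun x hx => ?_, fun x hx => ?_⟩
    · rw [e _ _ x hx]; exact a3 _ (b3 x hx)
    · rw [mul_inv_rev, e _ _ x hx]; exact b4 _ (a4 x hx)
  inv_mem' := by
    rintro a ⟨a1, a2, a3, a4⟩
    exact ⟨inv_mem a1, inv_mem a2, a4, by rwa [inv_inv]⟩

variable {Q1 : Subgroup Ω₁} {Q2 : Subgroup Ω₂} {h1 : pr1 P = Q1} {h2 : pr2 P = Q2}

theorem pav_mulOn (h1 : pr1 P = Q1) (h2 : pr2 P = Q2) (a : MulAut Q1 × MulAut Q2) : MulOn P (pav a) := by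
  intro x hx y hy
  exact Prod.ext (mulOn_av a.1 _ (h1 ▸ mem_pr1 hx) _ (h1 ▸ mem_pr1 hy)) (mulOn_av a.2 _ (h2 ▸ mem_pr2 hx) _ (h2 ▸ mem_pr2 hy))

theorem pav_injOn (h1 : pr1 P = Q1) (h2 : pr2 P = Q2) (a : MulAut Q1 × MulAut Q2) : Set.InjOn (pav a) P := by
  intro x hx y hy hxy
  have e := Prod.ext_iff.1 hxy
  exact Prod.ext (injOn_av a.1 (h1 ▸ mem_pr1 hx) (h1 ▸ mem_pr1 hy) e.1) (injOn_av a.2 (h2 ▸ mem_pr2 hx) (h2 ▸ mem_pr2 hy) e.2)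

theorem pav_mul (h1 : pr1 P = Q1) (h2 : pr2 P = Q2) (a b : MulAut Q1 × MulAut Q2) {x : Ω₁ × Ω₂} (hx : x ∈ P) :
    pav (a * b) x = pav a (pav b x) :=
  Prod.ext (av_mul _ _ (h1 ▸ mem_pr1 hx)) (av_mul _ _ (h2 ▸ mem_pr2 hx))

theorem pav_one (h1 : pr1 P = Q1) (h2 : pr2 P = Q2) {x : Ω₁ × Ω₂} (hx : x ∈ P) : pav (1 : MulAut Q1 × MulAut Q2) x = x :=
  Prod.ext (av_one (h1 ▸ mem_pr1 hx)) (av_one (h2 ▸ mem_pr2 hx))

theorem pav_img (a : MulAut Q1 × MulAut Q2) (ha : a ∈ Bst F₁ F₂ Q1 Q2 P h1 h2) : img (pav a) P = P := by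
  apply le_antisymm
  · exact img_le.2 ha.2.2.1
  · intro x hx
    refine (mem_img (pav_mulOn h1 h2 a)).2 ⟨pav a⁻¹ x, ha.2.2.2 x hx, ?_⟩
    rw [← pav_mul h1 h2 _ _ hx, mul_inv_cancel, pav_one h1 h2 hx]

/-- the action of the stabilizer -/
noncomputable def bHom (F₁ : FusionSystem S₁) (F₂ : FusionSystem S₂) (h1 : pr1 P = Q1) (h2 : pr2 P = Q2) :
    Bst F₁ F₂ Q1 Q2 P h1 h2 →* MulAut P where
  toFun a := autOf (pav_mulOn h1 h2 a.1) (pav_injOn h1 h2 a.1) (pav_img (F₁ := F₁) (F₂ := F₂) (h1 := h1) (h2 := h2) a.1 a.2)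
  map_one' := by
    apply aut_ext; intro x hx
    rw [av_autOf _ _ _ hx, av_one hx]
    exact pav_one h1 h2 hx
  map_mul' a b := by
    apply aut_ext; intro x hx
    rw [av_mul _ _ hx, av_autOf _ _ _ hx, av_autOf _ _ _ hx, av_autOf _ _ _ (b.2.2.2.1 x hx)]
    exact pav_mul h1 h2 _ _ hx

theorem av_bHom (a : Bst F₁ F₂ Q1 Q2 P h1 h2) {x : Ω₁ × Ω₂} (hx : x ∈ P) : av (bHom F₁ F₂ h1 h2 a) x = pav a.1 x :=
  av_autOf (pav_mulOn h1 h2 a.1) (pav_injOn h1 h2 a.1) (pav_img (F₁ := F₁) (F₂ := F₂) (h1 := h1) (h2 := h2) a.1 a.2) hx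

theorem bHom_range (hE : ∀ P f, Mor E P f ↔ PrMor F₁ F₂ P f) (hP : P ≤ S₁.prod S₂) : (bHom F₁ F₂ h1 h2).range = E.autGroup P := by
  subst h1 h2
  ext α
  constructor
  · rintro ⟨a, rfl⟩
    rw [mem_autGroup hP, hE]
    exact ⟨hP, _, (mem_autGroup (pr1_le hP)).1 a.2.1, _, (mem_autGroup (pr2_le hP)).1 a.2.2.1, fun x hx => av_bHom a hx⟩
  · intro hα
    rw [mem_autGroup hP, hE] at hα
    have hm := mulOn_av α
    obtain ⟨-, f1, hf1, f2, hf2, h3⟩ := hα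
    have i1 : img f1 (pr1 P) = pr1 P := by rw [← pr1_img hm hf1.mulOn h3, img_av]
    have i2 : img f2 (pr2 P) = pr2 P := by rw [← pr2_img hm hf2.mulOn h3, img_av]
    let a : MulAut (pr1 P) × MulAut (pr2 P) := (autOf hf1.mulOn hf1.injOn i1, autOf hf2.mulOn hf2.injOn i2)
    have ea : ∀ x ∈ P, pav a x = av α x := by
      intro x hx
      rw [h3 x hx]
      exact Prod.ext (av_autOf hf1.mulOn hf1.injOn i1 (mem_pr1 hx)) (av_autOf hf2.mulOn hf2.injOn i2 (mem_pr2 hx))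
    have ha : a ∈ Bst F₁ F₂ (pr1 P) (pr2 P) P rfl rfl := by
      refine ⟨autOf_mem hf1 i1, autOf_mem hf2 i2, fun x hx => ?_, fun x hx => ?_⟩
      · rw [ea x hx]; exact av_mem _ hx
      · have : x = pav a (av α⁻¹ x) := by rw [ea _ (av_mem _ hx), av_inv' _ hx]
        rw [this, ← pav_mul rfl rfl _ _ (av_mem _ hx), inv_mul_cancel, pav_one rfl rfl (av_mem _ hx)]
        exact av_mem _ hx
    refine ⟨⟨a, ha⟩, ?_⟩
    apply aut_ext; intro x hx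
    rw [av_bHom _ hx]
    exact ea x hx

theorem bHom_syl (hP : P ≤ S₁.prod S₂) : 
    ((((autInducedBy S₁ Q1).prod (autInducedBy S₂ Q2)) ⊓ Bst F₁ F₂ Q1 Q2 P h1 h2).subgroupOf (Bst F₁ F₂ Q1 Q2 P h1 h2)).map (bHom F₁ F₂ h1 h2)
      = autInducedBy (S₁.prod S₂) P := by
  subst h1 h2
  ext α
  constructor
  · rintro ⟨a, ha, rfl⟩
    obtain ⟨⟨ha1, ha2⟩, -⟩ := ha
    obtain ⟨s1, hs1, hs1'⟩ := mem_autInducedBy.1 ha1
    obtain ⟨s2, hs2, hs2'⟩ := mem_autInducedBy.1 ha2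
    refine mem_autInducedBy.2 ⟨(s1, s2), ⟨hs1, hs2⟩, fun x hx => ?_⟩
    rw [av_bHom _ hx]
    exact Prod.ext (hs1' _ (mem_pr1 hx)) (hs2' _ (mem_pr2 hx))
  · intro hα
    obtain ⟨s, hs, hα'⟩ := mem_autInducedBy.1 hα
    have hc : ∀ x ∈ P, cj s x ∈ P := fun x hx => by
      show s * x * s⁻¹ ∈ P
      rw [← hα' x hx]; exact av_mem _ hx
    have hc' : ∀ x ∈ P, cj s⁻¹ x ∈ P := fun x hx => by
      have : x = s * (av α⁻¹ x) * s⁻¹ := by rw [← hα' _ (av_mem _ hx), av_inv' _ hx]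
      have h4 : cj s⁻¹ x = av α⁻¹ x := by
        show s⁻¹ * x * s⁻¹⁻¹ = _
        rw [this]
        have h5 : av α⁻¹ (s * av α⁻¹ x * s⁻¹) = av α⁻¹ x := by rw [← this]
        rw [h5]; group
      rw [h4]; exact av_mem _ hx
    have n1 : s.1 ∈ Subgroup.normalizer (pr1 P : Set Ω₁) := by
      rw [Subgroup.mem_normalizer_iff]
      intro y
      constructor
      · rintro ⟨z, hz, rfl⟩
        exact ⟨_, hc z hz, rfl⟩
      · rintro ⟨z, hz, hzy⟩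
        refine ⟨_, hc' z hz, ?_⟩
        show s.1⁻¹ * z.1 * s.1⁻¹⁻¹ = y
        have hzy' : z.1 = s.1 * y * s.1⁻¹ := hzy
        rw [hzy']; group
    have n2 : s.2 ∈ Subgroup.normalizer (pr2 P : Set Ω₂) := by
      rw [Subgroup.mem_normalizer_iff]
      intro y
      constructor
      · rintro ⟨z, hz, rfl⟩
        exact ⟨_, hc z hz, rfl⟩
      · rintro ⟨z, hz, hzy⟩
        refine ⟨_, hc' z hz, ?_⟩
        show s.2⁻¹ * z.2 * s.2⁻¹⁻¹ = y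
        have hzy' : z.2 = s.2 * y * s.2⁻¹ := hzy
        rw [hzy']; group
    let a : MulAut (pr1 P) × MulAut (pr2 P) := (cjAut _ s.1 n1, cjAut _ s.2 n2)
    have ea : ∀ x ∈ P, pav a x = av α x := by
      intro x hx
      rw [hα' x hx]
      exact Prod.ext (av_cjAut n1 (mem_pr1 hx)) (av_cjAut n2 (mem_pr2 hx))
    have a1 : a.1 ∈ autInducedBy S₁ (pr1 P) := mem_autInducedBy.2 ⟨s.1, hs.1, fun x hx => av_cjAut n1 hx⟩
    have a2 : a.2 ∈ autInducedBy S₂ (pr2 P) := mem_autInducedBy.2 ⟨s.2, hs.2, fun x hx => av_cjAut n2 hx⟩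
    have ha : a ∈ Bst F₁ F₂ (pr1 P) (pr2 P) P rfl rfl := by
      refine ⟨autInducedBy_le_autGroup (pr1_le hP) le_rfl a1, autInducedBy_le_autGroup (pr2_le hP) le_rfl a2, fun x hx => ?_, fun x hx => ?_⟩
      · rw [ea x hx]; exact av_mem _ hx
      · have : x = pav a (av α⁻¹ x) := by rw [ea _ (av_mem _ hx), av_inv' _ hx]
        rw [this, ← pav_mul rfl rfl _ _ (av_mem _ hx), inv_mul_cancel, pav_one rfl rfl (av_mem _ hx)]
        exact av_mem _ hx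
    refine ⟨⟨a, ha⟩, ⟨⟨a1, a2⟩, ha⟩, ?_⟩
    apply aut_ext; intro x hx
    rw [av_bHom _ hx]
    exact ea x hx

theorem product_saturated [Finite S₁] [Finite S₂] (hS1 : IsPGroup p S₁) (hS2 : IsPGroup p S₂) (hF1 : F₁.IsSaturated p) (hF2 : F₂.IsSaturated p)
    (hE : ∀ P f, Mor E P f ↔ PrMor F₁ F₂ P f) : E.IsSaturated p := by
  intro P hP
  haveI : Finite ↥(S₁.prod S₂) := Finite.of_equiv _ (S₁.prodEquiv S₂).symm.toEquiv
  obtain ⟨Q1, hQ1, q1a, q1r⟩ := hF1 _ (pr1_le hP)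
  obtain ⟨Q2, hQ2, q2a, q2r⟩ := hF2 _ (pr2_le hP)
  obtain ⟨g1, hg1, e1⟩ := isConj_iff.1 hQ1
  obtain ⟨g2, hg2, e2⟩ := isConj_iff.1 hQ2
  have hg : Mor E P (fun x => (g1 x.1, g2 x.2)) := (hE _ _).2 ⟨hP, g1, hg1, g2, hg2, fun _ _ => rfl⟩
  set P' := img (fun x : Ω₁ × Ω₂ => (g1 x.1, g2 x.2)) P with hP'
  have p1 : pr1 P' = Q1 := by rw [hP', pr1_img hg.mulOn hg1.mulOn (fun _ _ => rfl), e1]
  have p2 : pr2 P' = Q2 := by rw [hP', pr2_img hg.mulOn hg2.mulOn (fun _ _ => rfl), e2]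
  have hP'S : P' ≤ S₁.prod S₂ := hg.img_le_S
  haveI : Finite Q1 := finite_of_le q1a.1
  haveI : Finite Q2 := finite_of_le q2a.1
  haveI : Finite (MulAut Q1) := finite_mulAut
  haveI : Finite (MulAut Q2) := finite_mulAut
  obtain ⟨U, hU⟩ := exists_isSyl (p := p) (Bst F₁ F₂ Q1 Q2 P' p1 p2)
  have hT : IsSyl p ((autInducedBy S₁ Q1).prod (autInducedBy S₂ Q2)) ((F₁.autGroup Q1).prod (F₂.autGroup Q2)) :=
    isSyl_prod (fullyAutomized_iff.1 q1a).2 (fullyAutomized_iff.1 q2a).2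
  have hBA : Bst F₁ F₂ Q1 Q2 P' p1 p2 ≤ (F₁.autGroup Q1).prod (F₂.autGroup Q2) := fun a ha => ⟨ha.1, ha.2.1⟩
  obtain ⟨a, ha, haU⟩ := hT.exists_conj_le (hU.le.trans hBA) hU.isPGroup
  -- the new subgroup
  have hm := pav_mulOn p1 p2 a
  have hpa : Mor E P' (pav a) := by
    rw [hE]
    refine ⟨hP'S, av a.1, ?_, av a.2, ?_, fun x hx => rfl⟩
    · rw [p1]; exact (mem_autGroup q1a.1).1 ha.1
    · rw [p2]; exact (mem_autGroup q2a.1).1 ha.2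
  set P'' := img (pav a) P' with hP''
  have r1 : pr1 P'' = Q1 := by rw [hP'', pr1_img hm (p1 ▸ mulOn_av a.1) (fun _ _ => rfl), p1, img_av]
  have r2 : pr2 P'' = Q2 := by rw [hP'', pr2_img hm (p2 ▸ mulOn_av a.2) (fun _ _ => rfl), p2, img_av]
  have hP''S : P'' ≤ S₁.prod S₂ := hpa.img_le_S
  refine ⟨P'', isConj_trans (isConj_iff.2 ⟨_, hg, rfl⟩) (isConj_iff.2 ⟨_, hpa, rfl⟩), ?_, product_receptive hE hP''S (r1 ▸ q1r) (r2 ▸ q2r)⟩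
  rw [fullyAutomized_iff]
  refine ⟨hP''S, ?_⟩
  have hconj : ∀ b ∈ Bst F₁ F₂ Q1 Q2 P' p1 p2, a * b * a⁻¹ ∈ Bst F₁ F₂ Q1 Q2 P'' r1 r2 := by
    have key : ∀ b ∈ Bst F₁ F₂ Q1 Q2 P' p1 p2, ∀ y ∈ P'', pav (a * b * a⁻¹) y ∈ P'' := by
      intro b hb y hy
      obtain ⟨x, hx, rfl⟩ := (mem_img hm).1 hy
      rw [← pav_mul p1 p2 _ _ hx, inv_mul_cancel_right, pav_mul p1 p2 _ _ hx]
      exact mem_img_of_mem _ (hb.2.2.1 x hx)
    intro b hb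
    refine ⟨mul_mem (mul_mem ha.1 hb.1) (inv_mem ha.1), mul_mem (mul_mem ha.2 hb.2.1) (inv_mem ha.2), key b hb, ?_⟩
    have e : (a * b * a⁻¹)⁻¹ = a * b⁻¹ * a⁻¹ := by group
    rw [e]
    exact key _ (inv_mem hb)
  have hconj' : ∀ b ∈ Bst F₁ F₂ Q1 Q2 P'' r1 r2, a⁻¹ * b * a ∈ Bst F₁ F₂ Q1 Q2 P' p1 p2 := by
    have key : ∀ b ∈ Bst F₁ F₂ Q1 Q2 P'' r1 r2, ∀ x ∈ P', pav (a⁻¹ * b * a) x ∈ P' := by
      intro b hb x hx
      have h5 := hb.2.2.1 _ (mem_img_of_mem (pav a) hx)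
      obtain ⟨x', hx', h6⟩ := (mem_img hm).1 h5
      have h7 : pav (a⁻¹ * b * a) x = x' := by
        have e : a⁻¹ * b * a = a⁻¹ * (b * a) := mul_assoc _ _ _
        have h8 : pav (b * a) x = pav a x' := by rw [pav_mul p1 p2 _ _ hx, h6]
        rw [e]
        have h9 : pav (a⁻¹ * (b * a)) x = pav a⁻¹ (pav (b * a) x) := pav_mul p1 p2 _ _ hx
        rw [h9, h8, ← pav_mul p1 p2 _ _ hx', inv_mul_cancel, pav_one p1 p2 hx']
      rw [h7]; exact hx'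
    intro b hb
    refine ⟨mul_mem (mul_mem (inv_mem ha.1) hb.1) ha.1, mul_mem (mul_mem (inv_mem ha.2) hb.2.1) ha.2, key b hb, ?_⟩
    have e : (a⁻¹ * b * a)⁻¹ = a⁻¹ * b⁻¹ * a := by group
    rw [e]
    exact key _ (inv_mem hb)
  have hB : img (cj a) (Bst F₁ F₂ Q1 Q2 P' p1 p2) = Bst F₁ F₂ Q1 Q2 P'' r1 r2 := by
    apply le_antisymm
    · exact img_le.2 hconj
    · intro b hb
      refine (mem_img (mulOn_cj a _)).2 ⟨_, hconj' b hb, ?_⟩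
      simp only [cj]; group
  have hU' : IsSyl p (img (cj a) U) (Bst F₁ F₂ Q1 Q2 P'' r1 r2) := by
    rw [← hB]; exact isSyl_img (mulOn_cj _ _) (injOn_cj _ _) hU
  have hUle : img (cj a) U ≤ ((autInducedBy S₁ Q1).prod (autInducedBy S₂ Q2)) ⊓ Bst F₁ F₂ Q1 Q2 P'' r1 r2 :=
    le_inf (img_le.2 haU) hU'.le
  have hfin : IsSyl p (((autInducedBy S₁ Q1).prod (autInducedBy S₂ Q2)) ⊓ Bst F₁ F₂ Q1 Q2 P'' r1 r2) (Bst F₁ F₂ Q1 Q2 P'' r1 r2) :=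
    hU'.of_card_ge inf_le_right (hT.isPGroup.to_le inf_le_left) (Subgroup.card_le_of_le hUle)
  have := hfin.map_hom (bHom F₁ F₂ r1 r2)
  rwa [bHom_syl hP''S, bHom_range hE hP''S] at this

end CfsgH8
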