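import Cfsg.Agent.H8.Sub6
import Cfsg.Agent.H8.FusFac3
import Cfsg.Prelude.Def_FusionComponents

set_option autoImplicit false
set_option linter.style.haveILetI false

namespace CfsgH8

open Cfsg FusionSystem

variable {Ω : Type*} [Group Ω] {S : Subgroup Ω} {F : FusionSystem S}

theorem foc_bot_of_fac {Ω' : Type*} [Group Ω'] {S' : Subgroup Ω'} {t : Ω → Ω'} {E : FusionSystem S'}
    {Z : Subgroup Ω} (hZ : Z = ⊥) (hfac : Fac F Z t E) (hsc : F.StronglyClosed ⊥) (hEi : E = innerFusionSystem S')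
    (hab' : ∀ x ∈ S', ∀ y ∈ S', x * y = y * x) : F.focalSubgroup ≤ ⊥ := by
  subst hZ
  rw [focal_eq, Subgroup.closure_le]
  rintro y ⟨P, f, x, hx, hf, rfl⟩
  have hm := hfac.push hsc hf bot_le
  rw [hEi] at hm
  obtain ⟨-, g, hg, h3⟩ := mor_inner.1 hm
  have h4 := h3 (t x) ((mem_img (hfac.mul.mono hf.le)).2 ⟨x, hx, rfl⟩)
  rw [hfac.ind_spec hsc hf bot_le hx, hab' g hg _ (hfac.t_mem (hf.le hx)), mul_inv_cancel_right] at h4
  have h5 := (hfac.eq_iff (hf.mem_S hx) (hf.le hx)).1 h4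
  rw [Subgroup.mem_bot, inv_mul_eq_one] at h5
  rw [h5, inv_mul_cancel]
  exact one_mem _

theorem bot_closed : F.StronglyClosed ⊥ := by
  rw [stronglyClosed_iff]
  refine ⟨bot_le, fun P f hf x hx hx1 => ?_⟩
  rw [Subgroup.mem_bot] at hx1 ⊢
  rw [hx1, hf.mulOn.map_one]

theorem quasisimple_nonabelian [Finite S] {p : ℕ} [hp : Fact p.Prime] (hS : IsPGroup p S) (hq : F.Quasisimple p) :
    ¬ (∀ x ∈ S, ∀ y ∈ S, x * y = y * x) := by
  intro hab
  obtain ⟨hF, hhyp, hE⟩ := hq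
  have hfoc : S ≤ F.focalSubgroup := by
    have := hyp_le_foc (F := F) (p := p)
    rwa [hhyp] at this
  obtain ⟨h1, -⟩ := abelian_split hS hF hab
  have hcc := center_central F
  have hcS : F.center ≤ S := hcc.1
  have hc : F.center = ⊥ := by
    rw [eq_bot_iff, ← h1]
    exact le_inf le_rfl (hcS.trans hfoc)
  have hsc : F.StronglyClosed F.center := by
    rw [hc]
    exact bot_closed
  set θ := QuotientGroup.mk' ((F.center).subgroupOf S) with hθ
  obtain ⟨E, hfac⟩ := exists_fac (S' := (⊤ : Subgroup (S ⧸ (F.center).subgroupOf S))) F hsc (mulOn_extF θ)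
    (fun s hs => by
      rw [extF_of_mem _ hs, hθ]
      show ((⟨s, hs⟩ : S) : S ⧸ (F.center).subgroupOf S) = 1 ↔ _
      rw [QuotientGroup.eq_one_iff, Subgroup.mem_subgroupOf])
    (by rw [img_range, hθ, MonoidHom.range_eq_top]; exact QuotientGroup.mk'_surjective _)
  have hsim := hE E (isFactorSystem_iff.2 hfac)
  haveI : Finite (⊤ : Subgroup (S ⧸ (F.center).subgroupOf S)) := hfac.finite'
  have hS' : IsPGroup p (⊤ : Subgroup (S ⧸ (F.center).subgroupOf S)) :=
    (hS.to_quotient _).to_subgroup _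
  have hE' := hsim.1
  have hab' : ∀ x ∈ (⊤ : Subgroup (S ⧸ (F.center).subgroupOf S)), ∀ y ∈ (⊤ : Subgroup (S ⧸ (F.center).subgroupOf S)),
      x * y = y * x := by
    intro x _ y _
    obtain ⟨a, rfl⟩ := QuotientGroup.mk_surjective x
    obtain ⟨b, rfl⟩ := QuotientGroup.mk_surjective y
    rw [← QuotientGroup.mk_mul, ← QuotientGroup.mk_mul]
    congr 1
    exact Subtype.ext (hab _ a.2 _ b.2)
  obtain ⟨hcard, hinn⟩ := (abelian_simple_iff hS' hE' hab').1 hsim
  have hEi : E = innerFusionSystem (⊤ : Subgroup (S ⧸ (F.center).subgroupOf S)) := fus_ext hinn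
  have hfoc0 := foc_bot_of_fac hc hfac bot_closed hEi hab'
  have hS1 : S = ⊥ := eq_bot_iff.2 (hfoc.trans hfoc0)
  have : Nat.card (⊤ : Subgroup (S ⧸ (F.center).subgroupOf S)) = 1 := by
    have hSs : Subsingleton S := by
      rw [hS1]
      infer_instance
    rw [Nat.card_eq_one_iff_unique]
    refine ⟨⟨?_⟩, ⟨1⟩⟩
    rintro ⟨a, ha⟩ ⟨b, hb⟩
    refine Subtype.ext ?_
    obtain ⟨a, rfl⟩ := QuotientGroup.mk_surjective a
    obtain ⟨b, rfl⟩ := QuotientGroup.mk_surjective b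
    show (a : S ⧸ (F.center).subgroupOf S) = b
    rw [Subsingleton.elim a b]
  rw [this] at hcard
  exact hp.out.one_lt.ne hcard

end CfsgH8
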