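import Cfsg.Agent.H8.Sub2

set_option autoImplicit false
open Cfsg

/-! Fully normalized subgroups and subnormal subsystems. -/

namespace CfsgH8
open FusionSystem
universe u
variable {Ω : Type u} [Group Ω]

theorem subnormal_le {U V : Subgroup Ω} {C : FusionSystem U} {D : FusionSystem V} {p : ℕ}
    (h : C.IsSubnormalIn D p) : U ≤ V := by
  induction h with
  | refl F p => exact le_rfl
  | step h1 h2 ih => exact ih.trans (isInvariantIn_iff.1 h2.1.2.2).2.1.1

theorem fn_of_weakly {T S : Subgroup Ω} [Finite S] {E : FusionSystem T} {F : FusionSystem S} {p : ℕ} [Fact p.Prime] (hS : IsPGroup p S)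
    (hF : F.IsSaturated p) (h : E.IsInvariantIn F) {P : Subgroup Ω} (hPT : P ≤ T) (hP : F.IsFullyNormalized P) :
    E.IsFullyNormalized P := by
  obtain ⟨hsub, hsc, -⟩ := isInvariantIn_iff.1 h
  have hTS := (stronglyClosed_iff.1 hsc).1
  refine ⟨hPT, fun Q hQ => ?_⟩
  obtain ⟨g, hg, hgQ⟩ := isConj_iff.1 hQ
  have hFQ : F.IsConj P Q := isConj_iff.2 ⟨g, hg.toF hsub, hgQ⟩
  obtain ⟨f, hf, hfP, hfN⟩ := exists_map_to_fn hS hF hP (isConj_symm hFQ)
  have hle : normalizerIn T Q ≤ normalizerIn S Q := inf_le_inf_right _ hTS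
  have hf' := hf.mono hle
  have himg : img f (normalizerIn T Q) ≤ normalizerIn T P := by
    refine img_le.2 (fun x hx => ⟨?_, (mem_normalizerIn.1 (hfN x (hle hx))).2⟩)
    exact (stronglyClosed_iff.1 hsc).2 _ f hf' x hx (mem_normalizerIn.1 hx).1
  have : Finite ↥(normalizerIn T P) := finite_of_le (inf_le_left.trans hTS)
  rw [← hf'.card_img]
  exact Subgroup.card_le_of_le himg

theorem fn_of_subnormal {U V : Subgroup Ω} {C : FusionSystem U} {D : FusionSystem V} {p : ℕ}
    (h : C.IsSubnormalIn D p) : ∀ (hp : Fact p.Prime) (hfin : Finite V) (hV : IsPGroup p V), D.IsSaturated p →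
      ∀ P : Subgroup Ω, P ≤ U → D.IsFullyNormalized P → C.IsFullyNormalized P := by
  induction h with
  | refl F p => intro _ _ _ _ P _ h; exact h
  | step h1 h2 ih =>
    intro hp hfin hV hsat P hPU hP
    have hle := (isInvariantIn_iff.1 h2.1.2.2).2.1.1
    have hPT := hPU.trans (subnormal_le h1)
    exact ih hp (finite_of_le hle) (hV.to_le hle) h2.1.1 P hPU (fn_of_weakly hV hsat h2.1.2.2 hPT hP)

end CfsgH8
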