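import Mathlib

set_option autoImplicit false

/-! Unipotent elements of order `p`. -/

namespace CfsgH8
open Polynomial

theorem poly_id (p : ℕ) [Fact p.Prime] : ∃ w : ℤ[X], (1 + X) ^ p - 1 = X ^ p + (p : ℤ[X]) * (1 + X * w) * X := by
  have hp : p.Prime := Fact.out
  -- divisibility by p
  have h1 : ∃ v : ℤ[X], (1 + X : ℤ[X]) ^ p - 1 - X ^ p = C (p : ℤ) * v := by
    have : C (p : ℤ) ∣ (1 + X : ℤ[X]) ^ p - 1 - X ^ p := by
      rw [Polynomial.C_dvd_iff_dvd_coeff]
      intro i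
      have h2 : ((1 + X : ℤ[X]) ^ p - 1 - X ^ p).map (Int.castRingHom (ZMod p)) = 0 := by
        simp only [Polynomial.map_sub, Polynomial.map_pow, Polynomial.map_add, Polynomial.map_one, Polynomial.map_X]
        rw [add_pow_char]
        ring
      have h3 := congrArg (fun q => q.coeff i) h2
      simp only [coeff_map, coeff_zero] at h3
      exact (ZMod.intCast_zmod_eq_zero_iff_dvd _ p).1 (by simpa using h3)
    exact this
  obtain ⟨v, hv⟩ := h1
  -- v = X * v1
  have hpC : (C (p : ℤ) : ℤ[X]) ≠ 0 := by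
    rw [Ne, C_eq_zero]; exact_mod_cast hp.ne_zero
  have h2 : v.coeff 0 = 0 := by
    have := congrArg (fun q => q.eval 0) hv
    simp [hp.ne_zero] at this
    rw [coeff_zero_eq_eval_zero]
    exact this
  obtain ⟨v1, rfl⟩ := X_dvd_iff.2 h2
  -- v1.coeff 0 = 1
  have h3 : v1.coeff 0 = 1 := by
    have := congrArg (fun q => q.derivative.eval 0) hv
    simp [derivative_pow, hp.ne_zero] at this
    have hp1 : p - 1 ≠ 0 := by have := hp.two_le; omega
    rw [zero_pow hp1] at this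
    simp at this
    rw [coeff_zero_eq_eval_zero]
    have hp0 : (p : ℤ) ≠ 0 := by exact_mod_cast hp.ne_zero
    have h4 : (p : ℤ) * (eval 0 v1 - 1) = 0 := by
      linear_combination -this
    rcases mul_eq_zero.1 h4 with h | h
    · exact absurd h hp0
    · linarith
  have h4 : (v1 - 1).coeff 0 = 0 := by simp [h3]
  obtain ⟨w, hw⟩ := X_dvd_iff.2 h4
  refine ⟨w, ?_⟩
  have h5 : v1 = 1 + X * w := by rw [← hw]; ring
  rw [h5] at hv
  have h6 : (C (p : ℤ) : ℤ[X]) = (p : ℤ[X]) := by simp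
  rw [h6] at hv
  linear_combination hv

theorem unip_torsion {R : Type*} [Ring R] (p : ℕ) [Fact p.Prime] (n : ℕ) {x : R} (hx : x ^ p = 1)
    (hn : (x - 1) ^ (n * (p - 1) + 1) = 0) : (p : R) ^ n * (x - 1) = 0 := by
  have hp : p.Prime := Fact.out
  obtain ⟨w, hw⟩ := poly_id p
  set φ : ℤ[X] →+* R := (aeval (x - 1) : ℤ[X] →ₐ[ℤ] R).toRingHom with hφ
  have hX : φ X = x - 1 := by rw [hφ]; simp
  have h0 : φ (X ^ p + (p : ℤ[X]) * (1 + X * w) * X) = 0 := by
    rw [← hw, map_sub, map_pow, map_add, map_one, hX, add_sub_cancel, hx, sub_self]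
  have key : ∀ m : ℕ, φ (((p : ℤ[X]) * (1 + X * w)) ^ m * X) = φ ((-1) ^ m * X ^ (m * (p - 1) + 1)) := by
    intro m
    induction m with
    | zero => simp
    | succ m ih =>
      have e1 : ((p : ℤ[X]) * (1 + X * w)) ^ (m + 1) * X = ((p : ℤ[X]) * (1 + X * w)) * (((p : ℤ[X]) * (1 + X * w)) ^ m * X) := by
        ring
      rw [e1, map_mul, ih, ← map_mul]
      have e2 : ((p : ℤ[X]) * (1 + X * w)) * ((-1) ^ m * X ^ (m * (p - 1) + 1)) =
          (X ^ p + (p : ℤ[X]) * (1 + X * w) * X) * ((-1) ^ m * X ^ (m * (p - 1))) + (-1) ^ (m + 1) * X ^ (p + m * (p - 1)) := by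
        ring
      rw [e2, map_add, map_mul, h0, zero_mul, zero_add]
      congr 3
      obtain ⟨k, hk⟩ : ∃ k, p = k + 1 := ⟨p - 1, by have := hp.pos; omega⟩
      rw [hk]
      simp
      ring
  have h1 := key n
  rw [map_mul _ _ (X ^ _), map_pow φ X, hX, hn, mul_zero, mul_pow, map_mul, map_mul, hX] at h1
  -- unit
  have h2 : IsUnit (φ ((1 + X * w) ^ n)) := by
    rw [map_pow]
    apply IsUnit.pow
    rw [map_add, map_one]
    apply IsNilpotent.isUnit_one_add
    refine ⟨n * (p - 1) + 1, ?_⟩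
    rw [← map_pow, mul_pow, map_mul, map_pow, hX, hn, zero_mul]
  have h3 : φ ((1 + X * w) ^ n) * (φ ((p : ℤ[X]) ^ n) * (x - 1)) = 0 := by
    rw [← mul_assoc, ← map_mul, mul_comm, map_mul]
    exact h1
  have h4 := (h2.mul_right_eq_zero).1 h3
  rwa [map_pow, map_natCast] at h4

end CfsgH8
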