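import Mathlib

set_option autoImplicit false
set_option linter.style.haveILetI false
set_option linter.unusedSectionVars false
set_option linter.unusedVariables false

/-! Wreath product quotients from cocycles. -/

namespace CfsgH8

theorem ring_part {C : Type*} [CommGroup C] [Fintype C] {p : ℕ} [hp : Fact p.Prime] (hC : Fintype.card C = p)
    (B : AddSubgroup (MonoidAlgebra (ZMod p) C)) (hB : ∀ c : C, ∀ r ∈ B, MonoidAlgebra.single c 1 * r ∈ B)
    (b : MonoidAlgebra (ZMod p) C) (hb : b ∈ B) (hs : ∑ c, b.coeff c ≠ 0) : B = ⊤ := by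
  classical
  have hsm : ∀ (r : ZMod p) (y : MonoidAlgebra (ZMod p) C), y ∈ B → r • y ∈ B := by
    intro r y hy
    have : r • y = (r.val : ℕ) • y := by
      conv_lhs => rw [← ZMod.natCast_zmod_val r]
      exact Nat.cast_smul_eq_nsmul (ZMod p) r.val y
    rw [this]
    exact B.nsmul_mem hy _
  have hmul : ∀ (x : MonoidAlgebra (ZMod p) C) (r : MonoidAlgebra (ZMod p) C), r ∈ B → x * r ∈ B := by
    intro x
    refine MonoidAlgebra.induction_on (motive := fun x => ∀ r ∈ B, x * r ∈ B) x ?_ ?_ ?_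
    · intro m r hr
      exact hB m r hr
    · intro x y hx hy r hr
      rw [add_mul]
      exact B.add_mem (hx r hr) (hy r hr)
    · intro s x hx r hr
      rw [smul_mul_assoc]
      exact hsm _ _ (hx r hr)
  set σ := ∑ c, b.coeff c with hσ
  have hchar : CharP (MonoidAlgebra (ZMod p) C) p := by
    refine (CharP.charP_iff_prime_eq_zero hp.out).2 ?_
    have : (p : MonoidAlgebra (ZMod p) C) = algebraMap (ZMod p) _ (p : ZMod p) := (map_natCast _ _).symm
    rw [this, CharP.cast_eq_zero, map_zero]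
  have hexp : ExpChar (MonoidAlgebra (ZMod p) C) p := ExpChar.prime hp.out
  have hpow : b ^ p = MonoidAlgebra.single 1 σ := by
    have e : b = ∑ c, MonoidAlgebra.single c (b.coeff c) := by
      conv_lhs => rw [← MonoidAlgebra.sum_coeff_single b]
      exact Finsupp.sum_fintype _ _ (fun i => by simp)
    conv_lhs => rw [e]
    rw [sum_pow_char]
    have : ∀ c ∈ (Finset.univ : Finset C), (MonoidAlgebra.single c (b.coeff c) : MonoidAlgebra (ZMod p) C) ^ p = MonoidAlgebra.single 1 (b.coeff c) := by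
      intro c _
      rw [MonoidAlgebra.single_pow, ZMod.pow_card]
      congr 1
      rw [← hC, pow_card_eq_one]
    rw [Finset.sum_congr rfl this, hσ]
    exact (map_sum (MonoidAlgebra.singleAddHom (R := ZMod p) (1 : C)) _ _).symm
  rw [eq_top_iff]
  intro x _
  have hp1 : p = (p - 1) + 1 := (Nat.succ_pred_eq_of_pos hp.out.pos).symm
  have h1 : σ⁻¹ • x * b ^ (p - 1) * b = x := by
    rw [mul_assoc, ← pow_succ, ← hp1, hpow, smul_mul_assoc]
    have : x * MonoidAlgebra.single 1 σ = σ • x := by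
      rw [mul_comm]
      ext c
      simp
    rw [this, smul_smul, inv_mul_cancel₀ hs, one_smul]
  rw [← h1]
  exact hmul _ _ hb

section wreath
variable {G : Type*} [Group G] {p : ℕ} (M : Subgroup G) [hMn : M.Normal] (Q : G → (G ⧸ M) → Multiplicative (ZMod p))

/-- the monomial action -/
@[reducible] def bundleAct (hQ : ∀ a b i, Q (a * b) i = Q a ((b : G ⧸ M) * i) * Q b i) :
    MulAction G ((G ⧸ M) × Multiplicative (ZMod p)) where
  smul g x := ((g : G ⧸ M) * x.1, Q g x.1 * x.2)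
  one_smul x := by
    have h1 : Q 1 x.1 = 1 := by
      have := hQ 1 1 x.1
      rw [one_mul, QuotientGroup.mk_one, one_mul] at this
      exact mul_left_cancel (a := Q 1 x.1) (by rw [mul_one]; exact this.symm)
    show (((1 : G) : G ⧸ M) * x.1, Q 1 x.1 * x.2) = x
    rw [h1, QuotientGroup.mk_one, one_mul, one_mul]
  mul_smul a b x := by
    show (((a * b : G) : G ⧸ M) * x.1, Q (a * b) x.1 * x.2) = ((a : G ⧸ M) * ((b : G ⧸ M) * x.1), Q a ((b : G ⧸ M) * x.1) * (Q b x.1 * x.2))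
    rw [hQ, QuotientGroup.mk_mul, mul_assoc, mul_assoc]

theorem card_sylow_perm {p : ℕ} [hp : Fact p.Prime] (W : Sylow p (Equiv.Perm (Fin (p ^ 2)))) : Nat.card W = p ^ (p + 1) := by
  rw [W.card_eq_multiplicity]
  congr 1
  rw [Nat.card_eq_fintype_card, Fintype.card_perm, Fintype.card_fin, Nat.factorization_def _ hp.out]
  have h1 := sub_one_mul_padicValNat_factorial (p := p) (p ^ 2)
  have h2 : (p.digits (p ^ 2)).sum = 1 := by
    have := Nat.digits_base_pow_mul (b := p) (k := 2) (m := 1) hp.out.one_lt one_pos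
    rw [mul_one] at this
    rw [this, Nat.digits_of_lt p 1 one_ne_zero hp.out.one_lt]
    simp
  rw [h2] at h1
  have h3 : p ^ 2 - 1 = (p - 1) * (p + 1) := by
    obtain ⟨k, hk⟩ := Nat.exists_eq_add_of_lt hp.out.pos
    have : p = k + 1 := by omega
    subst this
    have : (k + 1) ^ 2 = k * (k + 2) + 1 := by ring
    rw [this]; simp
  rw [h3] at h1
  exact Nat.eq_of_mul_eq_mul_left (Nat.sub_pos_of_lt hp.out.one_lt) h1

theorem wreath_quot [Finite G] [hp : Fact p.Prime] (hG : IsPGroup p G)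
    (hM : M.index = p) (hQ : ∀ a b i, Q (a * b) i = Q a ((b : G ⧸ M) * i) * Q b i)
    [Fintype (G ⧸ M)] (a : G) (ha : a ∈ M) (h : ∏ i, Q a i ≠ 1) :
    ∃ (W : Sylow p (Equiv.Perm (Fin (p ^ 2)))) (f : G →* ↥(W : Subgroup (Equiv.Perm (Fin (p ^ 2))))), Function.Surjective f := by
  classical
  have hcC : Nat.card (G ⧸ M) = p := hM
  have hcyc : IsCyclic (G ⧸ M) := isCyclic_of_prime_card hcC
  letI : CommGroup (G ⧸ M) := IsCyclic.commGroup
  -- surjectivity onto functions
  have hQ1 : ∀ i, Q 1 i = 1 := by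
    intro i
    have := hQ 1 1 i
    rw [one_mul, QuotientGroup.mk_one, one_mul] at this
    exact mul_left_cancel (a := Q 1 i) (by rw [mul_one]; exact this.symm)
  have hinv : ∀ s i, Q s⁻¹ ((s : G ⧸ M) * i) * Q s i = 1 := by
    intro s i
    rw [← hQ, inv_mul_cancel, hQ1]
  have htriv : ∀ m ∈ M, (m : G ⧸ M) = 1 := fun m hm => (QuotientGroup.eq_one_iff m).2 hm
  let ε : Multiplicative (ZMod p) → ZMod p := Multiplicative.toAdd
  let B : AddSubgroup (MonoidAlgebra (ZMod p) (G ⧸ M)) :=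
    { carrier := {r | ∃ m ∈ M, ∀ i, r.coeff i = ε (Q m i)}
      zero_mem' := ⟨1, M.one_mem, fun i => by rw [hQ1]; rfl⟩
      add_mem' := by
        rintro x y ⟨m, hm, hx⟩ ⟨n, hn, hy⟩
        refine ⟨m * n, M.mul_mem hm hn, fun i => ?_⟩
        rw [hQ, htriv n hn, one_mul]
        show (x + y).coeff i = ε (Q m i) + ε (Q n i)
        rw [← hx, ← hy]; rfl
      neg_mem' := by
        rintro x ⟨m, hm, hx⟩
        refine ⟨m⁻¹, M.inv_mem hm, fun i => ?_⟩
        have h1 : Q m⁻¹ i = (Q m i)⁻¹ := by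
          have := hinv m i
          rw [htriv m hm, one_mul] at this
          exact eq_inv_of_mul_eq_one_left this
        rw [h1]
        show (-x).coeff i = - ε (Q m i)
        rw [← hx]; rfl }
  have hB : ∀ c : G ⧸ M, ∀ r ∈ B, MonoidAlgebra.single c 1 * r ∈ B := by
    rintro c r ⟨m, hm, hr⟩
    obtain ⟨s, rfl⟩ := QuotientGroup.mk_surjective c
    refine ⟨s * m * s⁻¹, hMn.conj_mem m hm s, fun i => ?_⟩
    have h1 : Q (s * m * s⁻¹) i = Q m ((s : G ⧸ M)⁻¹ * i) := by
      rw [hQ, hQ, htriv m hm, one_mul, QuotientGroup.mk_inv]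
      have := hinv s⁻¹ i
      rw [inv_inv, QuotientGroup.mk_inv] at this
      calc Q s ((s : G ⧸ M)⁻¹ * i) * Q m ((s : G ⧸ M)⁻¹ * i) * Q s⁻¹ i
          = Q m ((s : G ⧸ M)⁻¹ * i) * (Q s ((s : G ⧸ M)⁻¹ * i) * Q s⁻¹ i) := by
            rw [mul_comm (Q s _), mul_assoc]
        _ = _ := by rw [this, mul_one]
    rw [h1, MonoidAlgebra.coeff_single_mul_apply, one_mul]
    exact hr _
  let b : MonoidAlgebra (ZMod p) (G ⧸ M) := MonoidAlgebra.ofCoeff (Finsupp.equivFunOnFinite.symm fun i => ε (Q a i))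
  have hb : b ∈ B := ⟨a, ha, fun i => rfl⟩
  have hs : ∑ c, b.coeff c ≠ 0 := by
    intro h0
    apply h
    have : ε (∏ i, Q a i) = ∑ i, ε (Q a i) := toAdd_prod _ _
    have h1 : ε (∏ i, Q a i) = 0 := by rw [this]; exact h0
    exact h1
  have hBtop := ring_part (by rw [← Nat.card_eq_fintype_card]; exact hcC) B hB b hb hs
  have hsurj : ∀ v : (G ⧸ M) → Multiplicative (ZMod p), ∃ m ∈ M, ∀ i, Q m i = v i := by
    intro v
    have : MonoidAlgebra.ofCoeff (Finsupp.equivFunOnFinite.symm fun i => ε (v i)) ∈ B := by rw [hBtop]; trivial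
    obtain ⟨m, hm, hv⟩ := this
    exact ⟨m, hm, fun i => (hv i).symm⟩
  -- the permutation representation
  letI := bundleAct M Q hQ
  haveI : NeZero p := ⟨hp.out.ne_zero⟩
  have hsmul : ∀ (g : G) (x : (G ⧸ M) × Multiplicative (ZMod p)), g • x = ((g : G ⧸ M) * x.1, Q g x.1 * x.2) := fun _ _ => rfl
  have hcE : Fintype.card ((G ⧸ M) × Multiplicative (ZMod p)) = p ^ 2 := by
    rw [Fintype.card_prod, ← Nat.card_eq_fintype_card, hcC, Fintype.card_multiplicative, ZMod.card, sq]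
  let e : ((G ⧸ M) × Multiplicative (ZMod p)) ≃ Fin (p ^ 2) := Fintype.equivFinOfCardEq hcE
  let Φ : G →* Equiv.Perm (Fin (p ^ 2)) := (e.permCongrHom.toMonoidHom).comp (MulAction.toPermHom G _)
  have hΦ : ∀ g x, Φ g (e x) = e (g • x) := by
    intro g x
    show e (g • e.symm (e x)) = _
    rw [e.symm_apply_apply]
  have hrp : IsPGroup p Φ.range := hG.of_surjective Φ.rangeRestrict Φ.rangeRestrict_surjective
  obtain ⟨W, hW⟩ := hrp.exists_le_sylow
  have hcW := card_sylow_perm W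
  -- lower bound
  have hN1 : p ^ p ≤ Nat.card (M.map Φ) := by
    have h1 : Nat.card ((G ⧸ M) → Multiplicative (ZMod p)) = p ^ p := by
      rw [Nat.card_fun, hcC, Nat.card_eq_fintype_card, Fintype.card_multiplicative, ZMod.card]
    rw [← h1]
    refine Nat.card_le_card_of_surjective (fun σ : M.map Φ => fun i => (e.symm ((σ : Equiv.Perm (Fin (p ^ 2))) (e (i, 1)))).2) ?_
    intro v
    obtain ⟨m, hm, hv⟩ := hsurj v
    refine ⟨⟨Φ m, m, hm, rfl⟩, ?_⟩
    funext i
    show (e.symm (Φ m (e (i, 1)))).2 = v i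
    rw [hΦ, e.symm_apply_apply, hsmul, ← hv i, mul_one]
  have hN2 : M.map Φ ≤ Φ.range := by
    rintro _ ⟨m, -, rfl⟩; exact ⟨m, rfl⟩
  have hN3 : Nat.card (M.map Φ) < Nat.card Φ.range := by
    by_contra hcon
    have heq := Subgroup.eq_of_le_of_card_ge hN2 (not_lt.1 hcon)
    have hne : M ≠ ⊤ := by
      rintro rfl
      rw [Subgroup.index_top] at hM
      exact hp.out.one_lt.ne hM
    obtain ⟨s, -, hs⟩ := SetLike.exists_of_lt (lt_top_iff_ne_top.2 hne)
    have h1 : Φ s ∈ M.map Φ := by rw [heq]; exact ⟨s, rfl⟩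
    obtain ⟨m, hm, hms⟩ := h1
    have h2 := congrArg (fun σ : Equiv.Perm (Fin (p ^ 2)) => σ (e (1, 1))) hms
    simp only [hΦ, hsmul] at h2
    have h3 := (Prod.ext_iff.1 (e.injective h2)).1
    simp only [mul_one] at h3
    rw [htriv m hm] at h3
    exact hs ((QuotientGroup.eq_one_iff s).1 h3.symm)
  have hcr : Nat.card Φ.range = p ^ (p + 1) := by
    obtain ⟨k, hk⟩ := IsPGroup.iff_card.1 hrp
    have h1 : Nat.card Φ.range ≤ p ^ (p + 1) := by rw [← hcW]; exact Subgroup.card_le_of_le hW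
    have h2 : p ^ p < Nat.card Φ.range := lt_of_le_of_lt hN1 hN3
    rw [hk] at h1 h2 ⊢
    have h3 := (Nat.pow_lt_pow_iff_right hp.out.one_lt).1 h2
    have h4 := (Nat.pow_le_pow_iff_right hp.out.one_lt).1 h1
    congr 1; omega
  have hrW : Φ.range = W := Subgroup.eq_of_le_of_card_ge hW (by rw [hcr]; exact hcW.le)
  refine ⟨W, Φ.codRestrict W fun g => hW ⟨g, rfl⟩, ?_⟩
  rintro ⟨σ, hσ⟩
  rw [← hrW] at hσ
  obtain ⟨g, hg⟩ := hσ
  exact ⟨g, Subtype.ext hg⟩

end wreath

end CfsgH8
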