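import Cfsg.Agent.H8.Yos1
import Cfsg.Agent.H8.Offender

set_option autoImplicit false
set_option linter.style.haveILetI false
set_option linter.unusedSectionVars false
set_option linter.unusedVariables false

/-! Yoshida's argument for cocycles on `p`-group sets. -/

namespace CfsgH8

theorem cocycle_triv {H Y A : Type*} [Group H] [MulAction H Y] [CommGroup A] (q : H → Y → A)
    (hq : ∀ a b y, q (a * b) y = q a (b • y) * q b y) (h : ∀ a y, a • y = y → q a y = 1) :
    ∃ c : Y → A, ∀ a y, q a y * c y = c (a • y) := by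
  classical
  let r : Y → Y := fun x => Quotient.out (Quotient.mk (MulAction.orbitRel H Y) x)
  have hr1 : ∀ x, ∃ g : H, g • r x = x := by
    intro x
    have h1 : (MulAction.orbitRel H Y).r (r x) x := Quotient.mk_out (s := MulAction.orbitRel H Y) x
    have h2 : r x ∈ MulAction.orbit H x := h1
    obtain ⟨g, hg⟩ := h2
    refine ⟨g⁻¹, ?_⟩
    have : g • x = r x := hg
    rw [← this, ← mul_smul, inv_mul_cancel, one_smul]
  have hr2 : ∀ (g : H) x, r (g • x) = r x := by
    intro g x
    have h1 : (Quotient.mk (MulAction.orbitRel H Y) (g • x)) = Quotient.mk (MulAction.orbitRel H Y) x :=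
      Quotient.sound (show g • x ∈ MulAction.orbit H x from MulAction.mem_orbit _ _)
    show Quotient.out _ = Quotient.out _
    rw [h1]
  choose k hk using hr1
  refine ⟨fun y => q (k y) (r y), fun a y => ?_⟩
  have h1 : (k (a • y)) • r y = a • y := by
    have := hk (a • y)
    rwa [hr2] at this
  have h2 : (k (a • y) * (k y)⁻¹ * a⁻¹) • (a • y) = a • y := by
    rw [mul_smul, mul_smul, inv_smul_smul]
    have : (k y)⁻¹ • y = r y := by rw [inv_smul_eq_iff, hk]
    rw [this, h1]
  have h3 := h _ _ h2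
  have h4 : k (a • y) = (k (a • y) * (k y)⁻¹ * a⁻¹) * (a * k y) := by group
  show _ = q (k (a • y)) (r (a • y))
  rw [hr2, h4, hq, mul_smul, hk, h3, one_mul, hq, hk]

theorem prod_filter_inv {H Y A : Type*} [Group H] [MulAction H Y] [CommGroup A] [Fintype Y] (B : Y → Prop) [DecidablePred B] (c : Y → A) (g : H)
    (hB : ∀ y, B (g • y) ↔ B y) : ∏ y with B y, c (g • y) = ∏ y with B y, c y := by
  refine Finset.prod_nbij' (fun y => g • y) (fun y => g⁻¹ • y) ?_ ?_ ?_ ?_ ?_
  · intro y hy
    simp only [Finset.mem_filter, Finset.mem_univ, true_and] at hy ⊢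
    exact (hB y).2 hy
  · intro y hy
    simp only [Finset.mem_filter, Finset.mem_univ, true_and] at hy ⊢
    rw [← hB, smul_inv_smul]; exact hy
  · intro y _; simp
  · intro y _; simp
  · intro y _; rfl

section yos
variable {G : Type*} [Group G] [Finite G] {p : ℕ} [hp : Fact p.Prime] (hG : IsPGroup p G) {Y : Type*} [Fintype Y] [MulAction G Y]
  (q : G → Y → Multiplicative (ZMod p)) (hq : ∀ a b y, q (a * b) y = q a (b • y) * q b y) (z : G)
  (hz : ∀ (n : ℤ) (y : Y), ((z ^ p) ^ n) • y = y → q ((z ^ p) ^ n) y = 1)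
include hG hq hz

open Classical in
theorem yos_orbit (y₀ : Y) (hy₀ : ¬ ∀ g : G, g • y₀ = y₀) (h : ∏ y with y ∈ MulAction.orbit G y₀, q z y ≠ 1) :
    ∃ (W : Sylow p (Equiv.Perm (Fin (p ^ 2)))) (f : G →* ↥(W : Subgroup (Equiv.Perm (Fin (p ^ 2))))), Function.Surjective f := by
  have hst : MulAction.stabilizer G y₀ ≠ ⊤ := by
    intro h0
    apply hy₀
    intro g
    have : g ∈ MulAction.stabilizer G y₀ := by rw [h0]; trivial
    exact this
  obtain ⟨M, hMn, hM, hPM⟩ := exists_normal_index_p hG hst
  haveI := hMn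
  haveI : Fintype (G ⧸ M) := Fintype.ofFinite _
  have hrep : ∀ y, ∃ g : G, y ∈ MulAction.orbit G y₀ → g • y₀ = y := by
    intro y
    by_cases hy : y ∈ MulAction.orbit G y₀
    · obtain ⟨g, hg⟩ := hy
      exact ⟨g, fun _ => hg⟩
    · exact ⟨1, fun h => absurd h hy⟩
  choose r hr using hrep
  let π : Y → G ⧸ M := fun y => (r y : G ⧸ M)
  have horb : ∀ (s : G) y, s • y ∈ MulAction.orbit G y₀ ↔ y ∈ MulAction.orbit G y₀ := by
    intro s y
    constructor
    · intro hs
      have := MulAction.mem_orbit_of_mem_orbit s⁻¹ hs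
      rwa [inv_smul_smul] at this
    · intro hy
      exact MulAction.mem_orbit_of_mem_orbit s hy
  have hπ : ∀ (s : G) y, y ∈ MulAction.orbit G y₀ → π (s • y) = (s : G ⧸ M) * π y := by
    intro s y hy
    have h1 := hr y hy
    have h2 := hr (s • y) ((horb s y).2 hy)
    show (r (s • y) : G ⧸ M) = (s : G ⧸ M) * (r y : G ⧸ M)
    rw [← QuotientGroup.mk_mul, eq_comm, QuotientGroup.eq]
    apply hPM
    rw [MulAction.mem_stabilizer_iff, mul_smul, h2, mul_inv_rev, mul_smul, inv_smul_smul, inv_smul_eq_iff]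
    exact h1.symm
  let Q : G → (G ⧸ M) → Multiplicative (ZMod p) := fun s i => ∏ y with (y ∈ MulAction.orbit G y₀ ∧ π y = i), q s y
  have hQ : ∀ a b i, Q (a * b) i = Q a ((b : G ⧸ M) * i) * Q b i := by
    intro a b i
    show ∏ y with (y ∈ MulAction.orbit G y₀ ∧ π y = i), q (a * b) y = (∏ y with (y ∈ MulAction.orbit G y₀ ∧ π y = (b : G ⧸ M) * i), q a y) * 
      ∏ y with (y ∈ MulAction.orbit G y₀ ∧ π y = i), q b y
    have e1 : ∏ y with (y ∈ MulAction.orbit G y₀ ∧ π y = i), q (a * b) y = ∏ y with (y ∈ MulAction.orbit G y₀ ∧ π y = i), (q a (b • y) * q b y) :=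
      Finset.prod_congr rfl fun y _ => hq a b y
    rw [e1, Finset.prod_mul_distrib]
    congr 1
    refine Finset.prod_nbij' (fun y => b • y) (fun y => b⁻¹ • y) ?_ ?_ ?_ ?_ ?_
    · intro y hy
      simp only [Finset.mem_filter, Finset.mem_univ, true_and] at hy ⊢
      exact ⟨(horb b y).2 hy.1, by rw [hπ b y hy.1, hy.2]⟩
    · intro y hy
      simp only [Finset.mem_filter, Finset.mem_univ, true_and] at hy ⊢
      refine ⟨(horb _ y).2 hy.1, ?_⟩
      rw [hπ _ y hy.1, hy.2, QuotientGroup.mk_inv, inv_mul_cancel_left]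
    · intro y _; simp
    · intro y _; simp
    · intro y _; rfl
  have hprod : ∏ i, Q z i = ∏ y with y ∈ MulAction.orbit G y₀, q z y := by
    rw [← Finset.prod_fiberwise (s := Finset.univ.filter fun y => y ∈ MulAction.orbit G y₀) (g := π)]
    apply Finset.prod_congr rfl
    intro i _
    rw [Finset.filter_filter]
  by_cases hzM : z ∈ M
  · exact wreath_quot M Q hG hM hQ z hzM (by rw [hprod]; exact h)
  · exfalso
    apply h
    rw [← hprod]
    have hpow : ∀ (k : ℕ) i, Q (z ^ k) i = ∏ j ∈ Finset.range k, Q z ((z : G ⧸ M) ^ j * i) := by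
      intro k i
      induction k with
      | zero =>
        have := hQ 1 1 i
        rw [one_mul, QuotientGroup.mk_one, one_mul] at this
        rw [pow_zero, Finset.prod_range_zero]
        exact mul_left_cancel (a := Q 1 i) (by rw [mul_one]; exact this.symm)
      | succ k ih =>
        rw [pow_succ', hQ, ih, Finset.prod_range_succ, mul_comm, QuotientGroup.mk_pow]
    have hcC : Nat.card (G ⧸ M) = p := hM
    have hz1 : (z : G ⧸ M) ≠ 1 := fun h0 => hzM ((QuotientGroup.eq_one_iff z).1 h0)
    have hord : orderOf (z : G ⧸ M) = p := by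
      have h1 : orderOf (z : G ⧸ M) ∣ p := by rw [← hcC]; exact orderOf_dvd_natCard _
      rcases (Nat.dvd_prime hp.out).1 h1 with h2 | h2
      · exact absurd (orderOf_eq_one_iff.1 h2) hz1
      · exact h2
    have hall : ∏ i, Q z i = ∏ j ∈ Finset.range p, Q z ((z : G ⧸ M) ^ j * 1) := by
      have hinj : Set.InjOn (fun j : ℕ => (z : G ⧸ M) ^ j) (Finset.range p : Set ℕ) := by
        intro a ha b hb hab
        simp only [Finset.coe_range, Set.mem_Iio] at ha hb
        rw [← hord] at ha hb
        exact pow_injOn_Iio_orderOf ha hb hab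
      have himg : Finset.image (fun j : ℕ => (z : G ⧸ M) ^ j) (Finset.range p) = Finset.univ := by
        apply Finset.eq_univ_of_card
        rw [Finset.card_image_of_injOn hinj, Finset.card_range, ← Nat.card_eq_fintype_card, hcC]
      rw [← himg, Finset.prod_image hinj]
      simp
    rw [hall, ← hpow]
    -- the product over a block
    letI : MulAction ↥(Subgroup.zpowers (z ^ p)) Y := inferInstance
    obtain ⟨c, hc⟩ := cocycle_triv (H := ↥(Subgroup.zpowers (z ^ p))) (Y := Y) (fun a y => q a y) (fun a b y => hq a b y) (by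
      rintro ⟨a, ha⟩ y hay
      obtain ⟨n, rfl⟩ := ha
      exact hz n y hay)
    show ∏ y with (y ∈ MulAction.orbit G y₀ ∧ π y = 1), q (z ^ p) y = 1
    have e2 : ∀ y, q (z ^ p) y = c (z ^ p • y) * (c y)⁻¹ := by
      intro y
      rw [eq_mul_inv_iff_mul_eq]
      exact hc ⟨z ^ p, Subgroup.mem_zpowers _⟩ y
    have hzp : ((z ^ p : G) : G ⧸ M) = 1 := by rw [QuotientGroup.mk_pow, ← hord, pow_orderOf_eq_one]
    rw [Finset.prod_congr rfl (fun y _ => e2 y), Finset.prod_mul_distrib, Finset.prod_inv_distrib,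
      prod_filter_inv (H := G) (fun y => y ∈ MulAction.orbit G y₀ ∧ π y = 1) c (z ^ p), mul_inv_cancel]
    intro y
    rw [horb]
    constructor
    · rintro ⟨h1, h2⟩
      rw [hπ _ y h1, hzp, one_mul] at h2
      exact ⟨h1, h2⟩
    · rintro ⟨h1, h2⟩
      exact ⟨h1, by rw [hπ _ y h1, hzp, one_mul, h2]⟩

open Classical in
theorem yos_all (h : ∏ y, q z y ≠ ∏ y, if (∀ g : G, g • y = y) then q z y else 1) :
    ∃ (W : Sylow p (Equiv.Perm (Fin (p ^ 2)))) (f : G →* ↥(W : Subgroup (Equiv.Perm (Fin (p ^ 2))))), Function.Surjective f := by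
  by_contra hno
  apply h
  haveI : Fintype (MulAction.orbitRel.Quotient G Y) := Fintype.ofFinite _
  rw [← Finset.prod_fiberwise (s := (Finset.univ : Finset Y)) (g := fun y => (Quotient.mk (MulAction.orbitRel G Y) y : MulAction.orbitRel.Quotient G Y)),
    ← Finset.prod_fiberwise (s := (Finset.univ : Finset Y)) (g := fun y => (Quotient.mk (MulAction.orbitRel G Y) y : MulAction.orbitRel.Quotient G Y))
      (f := fun y => if (∀ g : G, g • y = y) then q z y else 1)]
  apply Finset.prod_congr rfl
  intro ω _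
  induction ω using Quotient.inductionOn with
  | _ y₀ =>
    have hmem : ∀ y, (Quotient.mk (MulAction.orbitRel G Y) y : MulAction.orbitRel.Quotient G Y) = Quotient.mk (MulAction.orbitRel G Y) y₀ ↔
        y ∈ MulAction.orbit G y₀ := fun y => Quotient.eq (r := MulAction.orbitRel G Y)
    by_cases hy₀ : ∀ g : G, g • y₀ = y₀
    · apply Finset.prod_congr rfl
      intro y hy
      simp only [Finset.mem_filter, Finset.mem_univ, true_and] at hy
      obtain ⟨g, hg⟩ := (hmem y).1 hy
      have : y = y₀ := by rw [← hg]; exact hy₀ g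
      rw [this, if_pos hy₀]
    · have e1 : (Finset.univ.filter fun y => (Quotient.mk (MulAction.orbitRel G Y) y : MulAction.orbitRel.Quotient G Y) = Quotient.mk (MulAction.orbitRel G Y) y₀)
          = Finset.univ.filter fun y => y ∈ MulAction.orbit G y₀ := by
        apply Finset.filter_congr
        intro y _; exact hmem y
      have e2 : ∏ y with y ∈ MulAction.orbit G y₀, q z y = 1 := by
        by_contra hne
        exact hno (yos_orbit hG q hq z hz y₀ hy₀ hne)
      rw [e1, e2]
      symm
      apply Finset.prod_eq_one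
      intro y hy
      simp only [Finset.mem_filter, Finset.mem_univ, true_and] at hy
      rw [if_neg]
      intro hfix
      apply hy₀
      obtain ⟨g, hg⟩ := hy
      have : y = y₀ := by
        have h1 := hfix g⁻¹
        have hg' : g • y₀ = y := hg
        rw [← hg', inv_smul_smul] at h1
        rw [← hg', ← h1]
      rw [← this]; exact hfix

end yos

end CfsgH8
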