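import Cfsg.Agent.H8.Yos2
import Cfsg.Agent.H8.TateThm
import Cfsg.Agent.H8.FusKSat

set_option autoImplicit false
set_option linter.style.haveILetI false
set_option linter.unusedSectionVars false
set_option linter.unusedVariables false

/-! Yoshida's theorem for fusion systems. -/

namespace CfsgH8
open Cfsg Cfsg.FusionSystem

universe u v

theorem exists_sep_comm {C : Type*} [CommGroup C] {p : ℕ} [hp : Fact p.Prime] (hC : ∀ c : C, c ^ p = 1) {x : C} (hx : x ≠ 1) :
    ∃ φ : C →* Multiplicative (ZMod p), φ x ≠ 1 := by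
  letI : Module (ZMod p) (Additive C) := AddCommGroup.zmodModule (n := p) (fun v => hC (Additive.toMul v))
  have hv : (Additive.ofMul x) ≠ 0 := fun h => hx h
  have h1 : ∃ φ : (Additive C) →ₗ[ZMod p] (ZMod p), φ (Additive.ofMul x) ≠ 0 := by
    by_contra hcon
    push Not at hcon
    exact hv ((Module.forall_dual_apply_eq_zero_iff (ZMod p) (Additive.ofMul x)).1 hcon)
  obtain ⟨φ, hφ⟩ := h1
  refine ⟨{ toFun := fun g => Multiplicative.ofAdd (φ (Additive.ofMul g))
            map_one' := by
              have : φ (Additive.ofMul (1 : C)) = 0 := map_zero φ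
              rw [this]; rfl
            map_mul' := fun a b => by
              have : φ (Additive.ofMul (a * b)) = φ (Additive.ofMul a) + φ (Additive.ofMul b) := map_add φ _ _
              rw [this]; rfl }, ?_⟩
  intro h
  exact hφ (Multiplicative.ofAdd.injective h)

theorem exists_sep {G : Type*} [Group G] {p : ℕ} [hp : Fact p.Prime] (W : Subgroup G) [W.Normal]
    (hc : ∀ a b : G, a⁻¹ * b⁻¹ * a * b ∈ W) (hpw : ∀ a : G, a ^ p ∈ W) {x : G} (hx : x ∉ W) :
    ∃ lam : G →* Multiplicative (ZMod p), (∀ w ∈ W, lam w = 1) ∧ lam x ≠ 1 := by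
  letI cg : CommGroup (G ⧸ W) :=
    { (inferInstance : Group (G ⧸ W)) with
      mul_comm := by
        intro a b
        obtain ⟨a, rfl⟩ := QuotientGroup.mk_surjective a
        obtain ⟨b, rfl⟩ := QuotientGroup.mk_surjective b
        rw [← QuotientGroup.mk_mul, ← QuotientGroup.mk_mul, QuotientGroup.eq]
        have := hc b a
        simpa [mul_assoc] using this }
  obtain ⟨φ, hφ⟩ := exists_sep_comm (C := G ⧸ W) (p := p) (by
    intro c
    obtain ⟨a, rfl⟩ := QuotientGroup.mk_surjective c
    rw [← QuotientGroup.mk_pow]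
    exact (QuotientGroup.eq_one_iff _).2 (hpw a)) (x := (x : G ⧸ W)) (fun h => hx ((QuotientGroup.eq_one_iff _).1 h))
  refine ⟨φ.comp (QuotientGroup.mk' W), fun w hw => ?_, hφ⟩
  show φ (w : G ⧸ W) = 1
  rw [(QuotientGroup.eq_one_iff w).2 hw]
  exact map_one φ

variable {Ω : Type u} [Group Ω] {S : Subgroup Ω} {F : FusionSystem S} {P Q R : Subgroup Ω} {f g : Ω → Ω}

theorem yoshida_core [Finite S] {p : ℕ} [hp : Fact p.Prime] (hS : IsPGroup p S) (hF : F.IsSaturated p)
    (lam : ↥S →* Multiplicative (ZMod p)) (hst : ∀ (f : Ω → Ω) (hf : Mor F S f) (a : ↥S), lam ⟨f a, hf.mem_S a.2⟩ = lam a)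
    (hne : ∃ z : ↥S, (z : Ω) ∈ F.focalSubgroup ∧ lam z ≠ 1) :
    ∃ (W : Sylow p (Equiv.Perm (Fin (p ^ 2)))) (f : ↥S →* ↥(W : Subgroup (Equiv.Perm (Fin (p ^ 2))))), Function.Surjective f := by
  classical
  -- an element of smallest order
  obtain ⟨z, ⟨hzf, hzl⟩, hmin⟩ := Set.Finite.exists_minimalFor (fun z : ↥S => orderOf z) {z : ↥S | (z : Ω) ∈ F.focalSubgroup ∧ lam z ≠ 1}
    (Set.toFinite _) hne
  have hmin' : ∀ y : ↥S, (y : Ω) ∈ F.focalSubgroup → orderOf y < orderOf z → lam y = 1 := by
    intro y hy hlt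
    by_contra hcon
    exact absurd (hmin ⟨hy, hcon⟩ hlt.le) (not_le.2 hlt)
  obtain ⟨X, _, _, hX⟩ := exists_BS hS hF
  -- the admissible function
  letI actR : MulAction ↥S X :=
    { smul := fun b x => ((1, b) : ↥S × ↥S) • x
      one_smul := fun x => one_smul _ x
      mul_smul := fun b c x => by
        show ((1, b * c) : ↥S × ↥S) • x = ((1, b) : ↥S × ↥S) • ((1, c) : ↥S × ↥S) • x
        rw [← mul_smul]; simp }
  obtain ⟨c, hc⟩ := exists_equivariant (G := ↥S) (X := X) (lam⁻¹) (by
    intro x b hb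
    have := hX.right_free b x hb
    rw [this, map_one])
  have hadm : Adm lam c := fun b x => hc b x
  -- the set of right classes
  let Y := Quotient (rS (S := S) X)
  haveI : Fintype Y := Fintype.ofFinite _
  have hlt : ∀ a : ↥S, ∀ x y : X, (rS (S := S) X).r x y → (rS (S := S) X).r (lt X a x) (lt X a y) := by
    rintro a x y ⟨b, rfl⟩
    exact ⟨b, (lt_comm a b x).symm⟩
  letI actY : MulAction ↥S Y :=
    { smul := fun a y => Quotient.map (sa := rS (S := S) X) (sb := rS (S := S) X) (lt X a) (fun x y h => hlt a x y h) y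
      one_smul := fun y => by
        induction y using Quotient.inductionOn with
        | _ x =>
          show Quotient.mk (rS (S := S) X) (lt X 1 x) = Quotient.mk _ x
          rw [lt_apply]; simp
      mul_smul := fun a b y => by
        induction y using Quotient.inductionOn with
        | _ x =>
          show Quotient.mk (rS (S := S) X) (lt X (a * b) x) = Quotient.mk _ (lt X a (lt X b x))
          rw [lt_apply, lt_apply, lt_apply, ← mul_smul]; simp }
  have hsm : ∀ (a : ↥S) (x : X), a • (Quotient.mk (rS (S := S) X) x : Y) = Quotient.mk (rS (S := S) X) (lt X a x) := fun _ _ => rfl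
  let q : ↥S → Y → Multiplicative (ZMod p) := fun a y => c (lt X a (Quotient.out y)) / c (Quotient.out y)
  have hqmk : ∀ (a : ↥S) (x : X), q a (Quotient.mk (rS (S := S) X) x) = c (lt X a x) / c x := by
    intro a x
    obtain ⟨b, hb⟩ : (rS (S := S) X).r (Quotient.out (Quotient.mk (rS (S := S) X) x)) x := Quotient.mk_out (s := rS (S := S) X) x
    have h1 := hadm.quot_inv a b (Quotient.out (Quotient.mk (rS (S := S) X) x))
    rw [hb] at h1
    exact h1.symm
  have hq : ∀ (a b : ↥S) (y : Y), q (a * b) y = q a (b • y) * q b y := by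
    intro a b y
    induction y using Quotient.inductionOn with
    | _ x =>
      rw [hsm, hqmk, hqmk, hqmk]
      have : lt X (a * b) x = lt X a (lt X b x) := by
        rw [lt_apply, lt_apply, lt_apply, ← mul_smul]; simp
      rw [this, div_mul_div_cancel]
  have hstab : ∀ (a : ↥S) (x : X), a • (Quotient.mk (rS (S := S) X) x : Y) = Quotient.mk (rS (S := S) X) x →
      ∃ b : ↥S, ((a, b) : ↥S × ↥S) • x = x ∧ q a (Quotient.mk (rS (S := S) X) x) = lam b := by
    intro a x h
    rw [hsm] at h
    obtain ⟨b, hb⟩ : (rS (S := S) X).r (lt X a x) x := Quotient.exact h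
    refine ⟨b, ?_, ?_⟩
    · rw [lt_apply, ← mul_smul] at hb
      simpa using hb
    · rw [hqmk]
      have h1 : lt X a x = ((1, b⁻¹) : ↥S × ↥S) • x := by
        conv_rhs => rw [← hb]
        rw [← mul_smul]; simp
      rw [h1, hadm, map_inv, inv_inv, mul_div_assoc, div_self', mul_one]
  -- the transfer of `z` is trivial
  have hT1 : ∏ y, q z y = 1 := by
    have h1 : ∀ a : ↥S, (a : Ω) ∈ F.focalSubgroup → TT c a = 1 := by
      have hTinv : ∀ (P : Subgroup Ω) (f : Ω → Ω) (hf : Mor F P f) (a : ↥S) (ha : (a : Ω) ∈ P), TT c (⟨f a, hf.mem_S ha⟩ : ↥S) = TT c a := by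
        intro P f hf a ha
        obtain ⟨Θ, hΘ⟩ := hX.stable hf
        have hΘ1 : ∀ (b : ↥S) x, Θ (((1, b) : ↥S × ↥S) • x) = ((1, b) : ↥S × ↥S) • Θ x := by
          intro b x
          rw [hΘ 1 b P.one_mem]
          congr 1
          exact Prod.ext (Subtype.ext hf.mulOn.map_one) rfl
        have hadm' : Adm lam (fun x => c (Θ x)) := fun b x => by
          show c (Θ (((1, b) : ↥S × ↥S) • x)) = _
          rw [hΘ1, hadm]
        rw [← TT_indep hadm' hadm a]
        unfold TT
        have h1 := PP_reindex (g := fun x => c (lt X ⟨f a, hf.mem_S ha⟩ x) / c x) (fun b x => hadm.quot_inv _ b x) Θ hΘ1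
        rw [← h1]
        apply PP_congr
        intro x
        show c (lt X ⟨f a, hf.mem_S ha⟩ (Θ x)) / c (Θ x) = c (Θ (lt X a x)) / c (Θ x)
        rw [lt_apply, lt_apply, hΘ a 1 ha]
      let T : ↥S →* Multiplicative (ZMod p) := MonoidHom.mk' (TT c) (TT_mul hadm)
      have hle : F.focalSubgroup ≤ (T.ker).map S.subtype := by
        rw [focal_eq, Subgroup.closure_le]
        rintro _ ⟨P, f, x, hx, hf, rfl⟩
        have hxS := hf.le hx
        refine ⟨(⟨x, hxS⟩ : ↥S)⁻¹ * ⟨f x, hf.mem_S hx⟩, ?_, rfl⟩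
        show T _ = 1
        rw [map_mul, map_inv]
        have := hTinv P f hf ⟨x, hxS⟩ hx
        show (TT c ⟨x, hxS⟩)⁻¹ * TT c ⟨f x, hf.mem_S hx⟩ = 1
        rw [this, inv_mul_cancel]
      intro a ha
      obtain ⟨a', ha', haa⟩ := hle ha
      have : a' = a := Subtype.ext haa
      rw [← this]; exact ha'
    have h2 := h1 z hzf
    unfold TT PP at h2
    convert h2 using 2
    congr 1
    exact Subsingleton.elim _ _
  -- powers
  have hz1 : orderOf z ≠ 1 := by
    intro h
    rw [orderOf_eq_one_iff] at h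
    exact hzl (by rw [h, map_one])
  have hpz : p ∣ orderOf z := by
    have h1 : ∃ k, orderOf z = p ^ k := IsPGroup.iff_orderOf.1 hS z
    obtain ⟨k, hk⟩ := h1
    rw [hk] at hz1 ⊢
    cases k with
    | zero => simp at hz1
    | succ k => exact dvd_pow_self p (Nat.succ_ne_zero k)
  have hzpos : 0 < orderOf z := orderOf_pos z
  have hordp : orderOf (z ^ p) < orderOf z := by
    rw [orderOf_pow_of_dvd hp.out.ne_zero hpz]
    exact Nat.div_lt_self hzpos hp.out.one_lt
  have hz : ∀ (n : ℤ) (y : Y), ((z ^ p) ^ n) • y = y → q ((z ^ p) ^ n) y = 1 := by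
    intro n y
    induction y using Quotient.inductionOn with
    | _ x =>
      intro hfix
      obtain ⟨b, hb, hqb⟩ := hstab _ x hfix
      rw [hqb]
      obtain ⟨P, f, hf⟩ := hX.stab x
      obtain ⟨h1, h2⟩ := (hf.2 _ b).1 hb
      have h3 : (((z ^ p) ^ n : ↥S) : Ω) ∈ F.focalSubgroup := by
        rw [Subgroup.coe_zpow, Subgroup.coe_pow]
        exact Subgroup.zpow_mem _ (Subgroup.pow_mem _ hzf _) _
      apply hmin' b
      · have h4 := Subgroup.mul_mem _ h3 (foc_mem hf.1 h1)
        rw [mul_inv_cancel_left] at h4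
        rw [h2]; exact h4
      · have h5 : orderOf b = orderOf ((z ^ p) ^ n) := by
          rw [← Subgroup.orderOf_coe, ← Subgroup.orderOf_coe, h2]
          have := orderOf_injective hf.1.mulOn.hom (fun a b hab => Subtype.ext (hf.1.injOn a.2 b.2 hab)) ⟨_, h1⟩
          rw [← Subgroup.orderOf_coe ⟨_, h1⟩] at this
          exact this
        rw [h5]
        refine lt_of_le_of_lt ?_ hordp
        exact Nat.le_of_dvd (orderOf_pos _) (orderOf_dvd_of_mem_zpowers ⟨n, rfl⟩)
  by_contra hno
  have hne' : ∏ y, q z y = ∏ y, if (∀ g : ↥S, g • y = y) then q z y else 1 := by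
    by_contra hcon
    exact hno (yos_all hS q hq z hz hcon)
  rw [hT1] at hne'
  have hfixval : ∀ y : Y, (∀ g : ↥S, g • y = y) → q z y = lam z := by
    intro y
    induction y using Quotient.inductionOn with
    | _ x =>
      intro hfix
      obtain ⟨P, f, hf⟩ := hX.stab x
      have hPS : P = S := by
        refine le_antisymm hf.1.le fun s hs => ?_
        obtain ⟨b, hb, -⟩ := hstab ⟨s, hs⟩ x (hfix ⟨s, hs⟩)
        exact ((hf.2 _ b).1 hb).1
      subst hPS
      obtain ⟨b, hb, hqb⟩ := hstab z x (hfix z)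
      obtain ⟨h1, h2⟩ := (hf.2 _ b).1 hb
      rw [hqb, ← hst f hf.1 z]
      congr 1
      exact Subtype.ext h2
  have hprod : (∏ y : Y, if (∀ g : ↥S, g • y = y) then q z y else 1) = lam z ^ (Finset.univ.filter fun y : Y => ∀ g : ↥S, g • y = y).card := by
    rw [← Finset.prod_filter, ← Finset.prod_const]
    apply Finset.prod_congr rfl
    intro y hy
    simp only [Finset.mem_filter, Finset.mem_univ, true_and] at hy
    exact hfixval y hy
  rw [hprod] at hne'
  have hmod := hS.card_modEq_card_fixedPoints Y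
  have hcY := hX.card_Y
  have hfp : Nat.card (MulAction.fixedPoints ↥S Y) = (Finset.univ.filter fun y : Y => ∀ g : ↥S, g • y = y).card := by
    rw [Nat.card_eq_fintype_card]
    rw [Fintype.card_subtype]
    rfl
  rw [hfp] at hmod
  have hnd : ¬ p ∣ (Finset.univ.filter fun y : Y => ∀ g : ↥S, g • y = y).card := by
    intro hd
    apply hcY
    exact (Nat.modEq_zero_iff_dvd).1 (hmod.trans ((Nat.modEq_zero_iff_dvd).2 hd))
  have hlp : lam z ^ p = 1 := by
    have : Nat.card (Multiplicative (ZMod p)) = p := by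
      rw [Nat.card_congr Multiplicative.toAdd, Nat.card_zmod]
    haveI : NeZero p := ⟨hp.out.ne_zero⟩
    have h := pow_card_eq_one' (x := lam z)
    have this : Nat.card (Multiplicative (ZMod p)) = p := by
      rw [Nat.card_congr Multiplicative.toAdd, Nat.card_zmod]
    rwa [this] at h
  have h1 : orderOf (lam z) ∣ p := orderOf_dvd_of_pow_eq_one hlp
  have h2 : orderOf (lam z) ∣ (Finset.univ.filter fun y : Y => ∀ g : ↥S, g • y = y).card := orderOf_dvd_of_pow_eq_one hne'.symm
  rcases (Nat.dvd_prime hp.out).1 h1 with h3 | h3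
  · exact hzl (orderOf_eq_one_iff.1 h3)
  · rw [h3] at h2; exact hnd h2

end CfsgH8
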