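import Cfsg.Agent.H8.Yos3
import Cfsg.Agent.H1.Frat

set_option autoImplicit false
set_option linter.style.haveILetI false
set_option linter.unusedSectionVars false
set_option linter.unusedVariables false

/-! Yoshida's theorem for fusion systems: the final form. -/

namespace CfsgH8
open Cfsg Cfsg.FusionSystem

universe u v

variable {Ω : Type u} [Group Ω] {S : Subgroup Ω} {F : FusionSystem S} {P Q R : Subgroup Ω} {f g : Ω → Ω}

theorem cast_fs {T : Subgroup Ω} (h : T = S) (N : FusionSystem T) (p : ℕ) : ∃ N' : FusionSystem S, (∀ P f, Mor N' P f ↔ Mor N P f) ∧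
    N'.focalSubgroup = N.focalSubgroup ∧ (N.IsSaturated p → N'.IsSaturated p) := by
  subst h
  exact ⟨N, fun _ _ => Iff.rfl, rfl, id⟩

theorem yoshida [Finite S] {p : ℕ} [hp : Fact p.Prime] (hS : IsPGroup p S) (hF : F.IsSaturated p)
    (N : FusionSystem (normalizerIn S S)) (hN : F.IsNormalizerSystem S N) (hne : N.focalSubgroup ≠ F.focalSubgroup) :
    ∃ (W : Sylow p (Equiv.Perm (Fin (p ^ 2)))) (f : ↥S →* ↥(W : Subgroup (Equiv.Perm (Fin (p ^ 2))))), Function.Surjective f := by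
  have hSS : normalizerIn S S = S := le_antisymm inf_le_left (le_normalizerIn le_rfl)
  have hNsat := normalizerSystem_saturated hS hF (fullyNormalized_top F) N hN
  obtain ⟨N', hN', hfoc, hsat⟩ := cast_fs hSS N p
  have hN'sat := hsat hNsat
  have hsub : N'.IsSubsystemOf F := by
    rw [isSubsystemOf_iff]
    intro P f hf
    obtain ⟨h1, g, hg, hg1, -⟩ := (mor_isNormalizerSystem hN).1 ((hN' P f).1 hf)
    exact (hg.mono le_sup_left).congr hg1
  have hne1 : ¬ F.focalSubgroup ≤ (frattini ↥S).map S.subtype ⊔ N'.focalSubgroup := by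
    intro hle
    apply hne
    have h1 : (frattini ↥S).map S.subtype ⊔ F.focalSubgroup = (frattini ↥S).map S.subtype ⊔ N'.focalSubgroup := by
      apply le_antisymm
      · exact sup_le le_sup_left hle
      · refine sup_le le_sup_left (le_trans ?_ le_sup_right)
        rw [focal_eq, focal_eq]
        apply Subgroup.closure_mono
        rintro _ ⟨P, f, x, hx, hf, rfl⟩
        exact ⟨P, f, x, hx, isSubsystemOf_iff.1 hsub _ _ hf, rfl⟩
    have h2 := tate_hyp hS hF hsub hN'sat h1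
    rw [← hfoc, foc_eq hS hF, foc_eq hS hN'sat, h2]
  obtain ⟨x, hxF, hxW⟩ := SetLike.not_le_iff_exists.1 hne1
  have hxS : x ∈ S := foc_le hxF
  set W := (frattini ↥S).map S.subtype ⊔ N'.focalSubgroup with hW
  have hcomm : ∀ a b : ↥S, a⁻¹ * b⁻¹ * a * b ∈ W.subgroupOf S := by
    intro a b
    have h1 : ((a⁻¹ * b⁻¹ * a * b : ↥S) : Ω) ∈ (⁅S, S⁆ : Subgroup Ω) := by
      have := Subgroup.commutator_mem_commutator (S.inv_mem a.2) (S.inv_mem b.2)
      rw [commutatorElement_def, inv_inv, inv_inv] at this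
      exact this
    exact (commutator_le_foc.trans le_sup_right) h1
  have hpw : ∀ a : ↥S, a ^ p ∈ W.subgroupOf S := by
    intro a
    have h1 := CfsgH1.pow_mem_frattini hS a
    exact (le_sup_left : _ ≤ W) ⟨_, h1, rfl⟩
  haveI hWn : (W.subgroupOf S).Normal := by
    refine ⟨fun w hw s => ?_⟩
    have h1 := hcomm s⁻¹ w⁻¹
    have h2 : s * w * s⁻¹ = (s⁻¹⁻¹ * w⁻¹⁻¹ * s⁻¹ * w⁻¹) * w := by group
    rw [h2]
    exact Subgroup.mul_mem _ h1 hw
  obtain ⟨lam, hlam, hlx⟩ := exists_sep (p := p) (W.subgroupOf S) hcomm hpw (x := ⟨x, hxS⟩) hxW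
  refine yoshida_core hS hF lam ?_ ⟨⟨x, hxS⟩, hxF, hlx⟩
  intro f hf a
  have hN'f : Mor N' S f := by
    rw [hN', mor_isNormalizerSystem hN]
    have himg : img f S = S := eq_img_of_card_le f hf.mulOn (fun x hx => hf.mem_S hx) hf.injOn le_rfl
    refine ⟨by rw [NK_top]; exact hSS.ge, f, ?_, fun _ _ => rfl, autOf hf.mulOn hf.injOn himg, trivial, fun x hx => (av_autOf _ _ _ hx).symm⟩
    rw [sup_idem]; exact hf
  have h1 := foc_mem hN'f a.2
  have h2 : a⁻¹ * ⟨f a, hf.mem_S a.2⟩ ∈ W.subgroupOf S := (le_sup_right : _ ≤ W) h1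
  have h3 := hlam _ h2
  rw [map_mul, map_inv, inv_mul_eq_one] at h3
  exact h3.symm

end CfsgH8
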